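import Mathlib
import Cfsg.Prelude.Def_LieTypeDatum
import Cfsg.Agent.Lib.Helper44.InnDiag
import Cfsg.Agent.Lib.Helper44.PlusInnDiag
import Cfsg.Agent.Lib.Helper44.MinusExt
import Cfsg.Agent.Lib.Helper44.SumForm
import Cfsg.Agent.Lib.Helper44.PgoInst

/-!
The structure of `Inndiag(PΩ⁻_{2m+2}(q)) / Inn(PΩ⁻_{2m+2}(q))` for odd `q`.
-/

set_option autoImplicit false

namespace Cfsg.Agent.Lib.Helper44

open Matrix Module
open Cfsg.Agent.Lib.Helper14

section bin

variable {F : Type*} [Field F]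

/-- The binary form `z₁² + a z₁ z₂ + b z₂²` as a `QuadraticForm`. -/
noncomputable def binQF (a b : F) : QuadraticForm F (Fin 2 → F) :=
  QuadraticMap.linMulLin (LinearMap.proj 0) (LinearMap.proj 0) +
    a • QuadraticMap.linMulLin (LinearMap.proj 0) (LinearMap.proj 1) +
    b • QuadraticMap.linMulLin (LinearMap.proj 1) (LinearMap.proj 1)

theorem binQF_apply (a b : F) (v : Fin 2 → F) :
    binQF a b v = v 0 * v 0 + a * (v 0 * v 1) + b * (v 1 * v 1) := by
  simp [binQF]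

theorem binQF_polar (a b : F) (u x : Fin 2 → F) :
    QuadraticMap.polar ⇑(binQF a b) u x =
      2 * (u 0 * x 0) + a * (u 0 * x 1 + u 1 * x 0) + 2 * b * (u 1 * x 1) := by
  unfold QuadraticMap.polar
  rw [binQF_apply, binQF_apply, binQF_apply]
  simp only [Pi.add_apply]
  ring

theorem binQF_nondegenerate (a b : F) (hd : 4 * b - a ^ 2 ≠ 0) :
    (QuadraticMap.polarBilin (binQF a b)).Nondegenerate := by
  apply nondegenerate_of_coords
  intro k
  fin_cases k
  · refine ⟨![2 * b, -a], 4 * b - a ^ 2, hd, fun x => ?_⟩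
    rw [binQF_polar]
    simp
    ring
  · refine ⟨![-a, 2], 4 * b - a ^ 2, hd, fun x => ?_⟩
    rw [binQF_polar]
    simp
    ring

theorem sumQF_plus_bin (m : ℕ) (a b : F) :
    ⇑(sumQF (plusQF m F) (binQF a b)) = ⇑(minusQF m F a b) := by
  funext v
  have e1 := congrFun (plusQF_coe m F) (v ∘ Sum.inl)
  have e2 := congrFun (minusQF_coe m F a b) v
  rw [sumQF_apply, e1, e2, binQF_apply]
  unfold Cfsg.quadFormPlus Cfsg.quadFormMinus
  simp only [Function.comp]
  ring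

end bin

section transport

variable {ι : Type} [Fintype ι] [DecidableEq ι] {F : Type*} [Field F]

theorem omega_transport {Qf Qf' : (ι → F) → F} (e : Qf = Qf')
    (g : ↥(Cfsg.isometryGroup F Qf)) (g' : ↥(Cfsg.isometryGroup F Qf'))
    (hm : ((g : GL ι F) : Matrix ι ι F) = ((g' : GL ι F) : Matrix ι ι F)) :
    g ∈ Cfsg.Omega F Qf ↔ g' ∈ Cfsg.Omega F Qf' := by
  subst e
  rw [isom_ext hm]

theorem exists_isom_transport {Qf Qf' : (ι → F) → F} (e : Qf = Qf')
    (h₀ : ↥(Cfsg.isometryGroup F Qf)) :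
    ∃ h : ↥(Cfsg.isometryGroup F Qf'),
      ((h : GL ι F) : Matrix ι ι F) = ((h₀ : GL ι F) : Matrix ι ι F) ∧
      (h ∈ Cfsg.Omega F Qf' ↔ h₀ ∈ Cfsg.Omega F Qf) := by
  subst e
  exact ⟨h₀, rfl, Iff.rfl⟩

end transport

section simmat

variable {F : Type*} [Field F]

/-- The matrix of the similarity `minusSimFun`. -/
def minusSimMat (m : ℕ) (a b c w : F) :
    Matrix ((Fin m ⊕ Fin m) ⊕ Fin 2) ((Fin m ⊕ Fin m) ⊕ Fin 2) F :=
  Matrix.fromBlocks (Matrix.diagonal (Sum.elim (fun _ : Fin m => c) (fun _ : Fin m => (1 : F))))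
    0 0 !![w, -b; 1, w + a]

theorem minusSimMat_mulVec (m : ℕ) (a b c w : F) (v : (Fin m ⊕ Fin m) ⊕ Fin 2 → F) :
    minusSimMat m a b c w *ᵥ v = minusSimFun m a b c w v := by
  unfold minusSimMat
  rw [Matrix.fromBlocks_mulVec]
  funext j
  rcases j with (i | i) | t
  · simp [minusSimFun, Matrix.mulVec_diagonal]
  · simp [minusSimFun, Matrix.mulVec_diagonal]
  · fin_cases t
    · simp [minusSimFun, dotProduct, Fin.sum_univ_two]
      ring
    · simp [minusSimFun, dotProduct, Fin.sum_univ_two]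

theorem minusSimMat_quad (m : ℕ) (a b c w : F) (hw : w ^ 2 + a * w + b = c)
    (v : (Fin m ⊕ Fin m) ⊕ Fin 2 → F) :
    Cfsg.quadFormMinus m F a b (minusSimMat m a b c w *ᵥ v) =
      c * Cfsg.quadFormMinus m F a b v := by
  rw [minusSimMat_mulVec]
  exact minusSimFun_quad m a b c w hw v

theorem minusSimMat_det (m : ℕ) (a b c w : F) (hw : w ^ 2 + a * w + b = c) :
    (minusSimMat m a b c w).det = c ^ (m + 1) := by
  unfold minusSimMat
  rw [Matrix.det_fromBlocks_zero₂₁, plus_diag_det, Matrix.det_fin_two_of, pow_succ, ← hw]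
  ring

/-- The isometry `c⁻¹ g²` for the similarity `g = minusSimMat`. -/
noncomputable def minusSqMat (m : ℕ) (a b c w : F) :
    Matrix ((Fin m ⊕ Fin m) ⊕ Fin 2) ((Fin m ⊕ Fin m) ⊕ Fin 2) F :=
  Matrix.fromBlocks (Matrix.diagonal (Sum.elim (fun _ : Fin m => c) (fun _ : Fin m => c⁻¹)))
    0 0 (c⁻¹ • (!![w, -b; 1, w + a] * !![w, -b; 1, w + a]))

theorem minusSimMat_sq (m : ℕ) (a b c w : F) (hc : c ≠ 0) :
    minusSimMat m a b c w * minusSimMat m a b c w = c • minusSqMat m a b c w := by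
  unfold minusSimMat minusSqMat
  rw [Matrix.fromBlocks_multiply, Matrix.fromBlocks_smul, Matrix.diagonal_mul_diagonal,
    ← Matrix.diagonal_smul, smul_smul, mul_inv_cancel₀ hc, one_smul]
  simp only [Matrix.mul_zero, Matrix.zero_mul, add_zero, zero_add, smul_zero]
  congr 2
  funext j
  rcases j with j | j
  · simp
  · simp [hc]

end simmat

section spinor

variable {F : Type*} [Field F] [Fintype F]

omit [Fintype F] in
theorem plus_levi_diag (m : ℕ) (c : F) (hc : c ≠ 0) :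
    (((leviIsom m F (Matrix.GeneralLinearGroup.scalar (Fin m) (Units.mk0 c hc)) :
        ↥(Cfsg.isometryGroup F (Cfsg.quadFormPlus m F))) : GL (Fin m ⊕ Fin m) F) :
          Matrix (Fin m ⊕ Fin m) (Fin m ⊕ Fin m) F) =
      Matrix.diagonal (Sum.elim (fun _ : Fin m => c) (fun _ : Fin m => c⁻¹)) := by
  rw [leviIsom_coe, Matrix.GeneralLinearGroup.coe_scalar, Units.val_mk0]
  have hinv : (Matrix.scalar (Fin m) c)⁻¹ = Matrix.diagonal (fun _ : Fin m => c⁻¹) := by
    apply Matrix.inv_eq_right_inv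
    rw [Matrix.scalar_apply, Matrix.diagonal_mul_diagonal]
    simp [hc]
  rw [hinv, Matrix.diagonal_transpose, Matrix.scalar_apply, Matrix.fromBlocks_diagonal]

omit [Fintype F] in
/-- The product of the reflections in `(w, 1)` and `(1, 0)` of the binary part. -/
theorem minus_refl_pair (m : ℕ) (a b c w : F) (hc : c ≠ 0) (hw : w ^ 2 + a * w + b = c) :
    Cfsg.reflectionMatrix ⇑(minusQF m F a b) (Sum.elim 0 ![w, 1]) *
        Cfsg.reflectionMatrix ⇑(minusQF m F a b) (Pi.single (Sum.inr 0) 1) =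
      Matrix.fromBlocks (1 : Matrix (Fin m ⊕ Fin m) (Fin m ⊕ Fin m) F) 0 0
        (c⁻¹ • (!![w, -b; 1, w + a] * !![w, -b; 1, w + a])) := by
  have hq1 : Cfsg.quadFormMinus m F a b (Sum.elim 0 ![w, 1]) = c := by
    simp [Cfsg.quadFormMinus]
    linear_combination hw
  have hp1 : ∀ x : (Fin m ⊕ Fin m) ⊕ Fin 2 → F,
      QuadraticMap.polar (Cfsg.quadFormMinus m F a b) (Sum.elim 0 ![w, 1]) x =
        w * (2 * x (Sum.inr 0) + a * x (Sum.inr 1)) + (a * x (Sum.inr 0) + 2 * b * x (Sum.inr 1)) := by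
    intro x
    simp [QuadraticMap.polar, Cfsg.quadFormMinus]
    ring
  rw [ext_iff_mulVec]
  intro x
  rw [← mulVec_mulVec, reflectionMatrix_mulVec, reflectionMatrix_mulVec, minusQF_coe,
    minus_quad_g1, hq1, hp1, minus_polar_zero, Matrix.fromBlocks_mulVec]
  funext j
  rcases j with j | j
  · simp
  · fin_cases j
    · simp [dotProduct, Fin.sum_univ_two]
      field_simp
      rw [← hw]
      ring
    · simp [dotProduct, Fin.sum_univ_two]
      field_simp
      rw [← hw]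
      ring

/-- The isometry `c⁻¹ g²` (for `g = minusSimMat` with non-square multiplier `c`), as an element of
the isometry group; it is not in `Ω` when `m` is even. -/
theorem exists_minusSq_isom (h2 : (2 : F) ≠ 0) (m : ℕ) (hm : 3 ≤ m) (a b : F)
    (hab : ∀ z₁ z₂ : F, z₁ ^ 2 + a * z₁ * z₂ + b * z₂ ^ 2 = 0 → z₁ = 0 ∧ z₂ = 0)
    (c w : F) (hc : ¬ IsSquare c) (hw : w ^ 2 + a * w + b = c) :
    ∃ h : ↥(Cfsg.isometryGroup F ⇑(minusQF m F a b)),
      ((h : GL ((Fin m ⊕ Fin m) ⊕ Fin 2) F) :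
        Matrix ((Fin m ⊕ Fin m) ⊕ Fin 2) ((Fin m ⊕ Fin m) ⊕ Fin 2) F) = minusSqMat m a b c w ∧
      (Even m → h ∉ Cfsg.Omega F ⇑(minusQF m F a b)) := by
  have hc0 : c ≠ 0 := fun h => hc ⟨0, by simp [h]⟩
  have hd := minus_disc_ne_zero F h2 a b hab
  have hQm := minusQF_nondegenerate m F h2 a b hab
  -- the Levi part
  obtain ⟨L, hL⟩ : ∃ L : ↥(Cfsg.isometryGroup F (Cfsg.quadFormPlus m F)),
      L = leviIsom m F (Matrix.GeneralLinearGroup.scalar (Fin m) (Units.mk0 c hc0)) := ⟨_, rfl⟩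
  have hLmat : ((L : GL (Fin m ⊕ Fin m) F) : Matrix (Fin m ⊕ Fin m) (Fin m ⊕ Fin m) F) =
      Matrix.diagonal (Sum.elim (fun _ : Fin m => c) (fun _ : Fin m => c⁻¹)) := by
    rw [hL]
    exact plus_levi_diag m c hc0
  obtain ⟨g₁, hg₁mat, hg₁iff⟩ := exists_isom_transport (plusQF_coe m F).symm L
  have hex : ∃ g : ↥(Cfsg.isometryGroup F ⇑(minusQF m F a b)),
      ((g : GL ((Fin m ⊕ Fin m) ⊕ Fin 2) F) :
        Matrix ((Fin m ⊕ Fin m) ⊕ Fin 2) ((Fin m ⊕ Fin m) ⊕ Fin 2) F) =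
        Matrix.fromBlocks (Matrix.diagonal (Sum.elim (fun _ : Fin m => c) (fun _ : Fin m => c⁻¹)))
          0 0 1 ∧ (Even m → g ∈ Cfsg.Omega F ⇑(minusQF m F a b)) := by
    have hiso : ∀ v, minusQF m F a b (Matrix.fromBlocks
        ((g₁ : GL (Fin m ⊕ Fin m) F) : Matrix (Fin m ⊕ Fin m) (Fin m ⊕ Fin m) F) 0 0
          (1 : Matrix (Fin 2) (Fin 2) F) *ᵥ v) = minusQF m F a b v := by
      intro v
      have e := congrFun (sumQF_plus_bin m a b)
      rw [← e, ← e, sumQF_mulVec, isom_preserves g₁, one_mulVec, sumQF_apply]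
    refine ⟨mkIsom (minusQF m F a b) hQm _ hiso, ?_, ?_⟩
    · rw [mkIsom_coe, hg₁mat, hLmat]
    · intro hev
      have hblock := block_mem_omega_iff (plusQF m F) (binQF a b) (plusQF_nondegenerate m F)
        (binQF_nondegenerate a b hd) (fun h => absurd h h2) (fun h => absurd h h2)
        _ (sumQF_plus_bin m a b) g₁
      have hg₁mem : g₁ ∈ Cfsg.Omega F ⇑(plusQF m F) := by
        rw [hg₁iff, hL, leviIsom_mem_omega_iff (by omega) (Or.inr (by omega)),
          Matrix.GeneralLinearGroup.coe_scalar, Units.val_mk0, Matrix.scalar_apply,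
          Matrix.det_diagonal, Finset.prod_const, Finset.card_univ, Fintype.card_fin]
        exact (isSquare_pow_iff_even hc m).mpr hev
      obtain ⟨g, hg, hgmat⟩ := hblock.mpr hg₁mem
      have e : mkIsom (minusQF m F a b) hQm _ hiso = g := by
        apply isom_ext
        rw [mkIsom_coe, hgmat]
      rw [e]
      exact hg
  obtain ⟨h₁, hh₁mat, hh₁mem⟩ := hex
  -- the binary part
  have hl : ∀ u ∈ [(Sum.elim 0 ![w, 1] : (Fin m ⊕ Fin m) ⊕ Fin 2 → F), Pi.single (Sum.inr 0) 1],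
      minusQF m F a b u ≠ 0 := by
    intro u hu
    have e := congrFun (minusQF_coe m F a b) u
    rw [e]
    rw [List.mem_cons, List.mem_singleton] at hu
    rcases hu with rfl | rfl
    · have hq1 : Cfsg.quadFormMinus m F a b (Sum.elim 0 ![w, 1]) = c := by
        simp [Cfsg.quadFormMinus]
        linear_combination hw
      rw [hq1]
      exact hc0
    · rw [minus_quad_g1]
      exact one_ne_zero
  obtain ⟨h₂, hh₂⟩ : ∃ h₂ : ↥(Cfsg.isometryGroup F ⇑(minusQF m F a b)),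
      h₂ = prodElt (minusQF m F a b) hQm _ hl := ⟨_, rfl⟩
  have hh₂mat : ((h₂ : GL ((Fin m ⊕ Fin m) ⊕ Fin 2) F) :
      Matrix ((Fin m ⊕ Fin m) ⊕ Fin 2) ((Fin m ⊕ Fin m) ⊕ Fin 2) F) =
      Matrix.fromBlocks (1 : Matrix (Fin m ⊕ Fin m) (Fin m ⊕ Fin m) F) 0 0
        (c⁻¹ • (!![w, -b; 1, w + a] * !![w, -b; 1, w + a])) := by
    rw [hh₂, prodElt_coe]
    simp only [List.map_cons, List.map_nil, List.prod_cons, List.prod_nil, mul_one]
    exact minus_refl_pair m a b c w hc0 hw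
  have hh₂not : h₂ ∉ Cfsg.Omega F ⇑(minusQF m F a b) := by
    intro hmem
    rw [hh₂] at hmem
    have h3 := (prodElt_mem_commutator_iff h2 (minusQF m F a b) hQm _ hl).mp hmem
    apply hc
    have h4 := h3.2
    simp only [List.map_cons, List.map_nil, List.prod_cons, List.prod_nil, mul_one] at h4
    have e := congrFun (minusQF_coe m F a b)
    rw [e, e, minus_quad_g1, mul_one] at h4
    have hq1 : Cfsg.quadFormMinus m F a b (Sum.elim 0 ![w, 1]) = c := by
      simp [Cfsg.quadFormMinus]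
      linear_combination hw
    rw [hq1] at h4
    exact h4
  refine ⟨h₁ * h₂, ?_, ?_⟩
  · show ((h₁ : GL ((Fin m ⊕ Fin m) ⊕ Fin 2) F) :
      Matrix ((Fin m ⊕ Fin m) ⊕ Fin 2) ((Fin m ⊕ Fin m) ⊕ Fin 2) F) *
      ((h₂ : GL ((Fin m ⊕ Fin m) ⊕ Fin 2) F) :
      Matrix ((Fin m ⊕ Fin m) ⊕ Fin 2) ((Fin m ⊕ Fin m) ⊕ Fin 2) F) = _
    rw [hh₁mat, hh₂mat, Matrix.fromBlocks_multiply]
    unfold minusSqMat
    simp only [Matrix.mul_zero, Matrix.zero_mul, add_zero, zero_add, Matrix.mul_one,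
      Matrix.one_mul]
  · intro hev hmem
    apply hh₂not
    have h5 : h₂ = h₁⁻¹ * (h₁ * h₂) := by group
    rw [h5]
    exact Subgroup.mul_mem _ (Subgroup.inv_mem _ (hh₁mem hev)) hmem

end spinor

section minusfinal

universe u

variable {F : Type u} [Field F] [Fintype F]

set_option maxHeartbeats 1600000 in
/-- `Inndiag(PΩ⁻_{2m+2}(q)) / Inn`: cyclic of order four if `m` is even and `q ≡ 3 (mod 4)`,
of order two otherwise. -/
theorem minus_inndiag_inn (hodd : Odd (Fintype.card F)) (m : ℕ) (hm : 3 ≤ m) (a b : F)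
    (hab : ∀ z₁ z₂ : F, z₁ ^ 2 + a * z₁ * z₂ + b * z₂ ^ 2 = 0 → z₁ = 0 ∧ z₂ = 0) :
    ((Even m ∧ Fintype.card F % 4 = 3) →
      (∃ φ : ↥(Cfsg.inndiagPOmegaMinus m F a b) →* Multiplicative (ZMod 4),
        Function.Surjective φ ∧
        φ.ker = (Cfsg.Inn (Cfsg.POmega F (Cfsg.quadFormMinus m F a b))).subgroupOf
          (Cfsg.inndiagPOmegaMinus m F a b))) ∧
    (¬ (Even m ∧ Fintype.card F % 4 = 3) →
      (∃ φ : ↥(Cfsg.inndiagPOmegaMinus m F a b) →* Multiplicative (ZMod 2),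
        Function.Surjective φ ∧
        φ.ker = (Cfsg.Inn (Cfsg.POmega F (Cfsg.quadFormMinus m F a b))).subgroupOf
          (Cfsg.inndiagPOmegaMinus m F a b))) := by
  have h2 : (2 : F) ≠ 0 := two_ne_zero_of_card_odd hodd
  obtain ⟨E, hE, hE0⟩ := minus_ts_three (F := F) m hm a b
  obtain ⟨w, c, hc, hw⟩ := exists_norm_not_isSquare h2 a b hab
  have hc0 : c ≠ 0 := fun h => hc ⟨0, by simp [h]⟩
  have hdet0 : (minusSimMat m a b c w).det ≠ 0 := by
    rw [minusSimMat_det m a b c w hw]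
    exact pow_ne_zero _ hc0
  obtain ⟨g₂, hg₂⟩ : ∃ g₂ : GL ((Fin m ⊕ Fin m) ⊕ Fin 2) F,
      (g₂ : Matrix ((Fin m ⊕ Fin m) ⊕ Fin 2) ((Fin m ⊕ Fin m) ⊕ Fin 2) F) =
        minusSimMat m a b c w :=
    ⟨Matrix.GeneralLinearGroup.mkOfDetNeZero _ hdet0, rfl⟩
  have hP : ∀ (g : GL ((Fin m ⊕ Fin m) ⊕ Fin 2) F) (c : F), c ≠ 0 →
      (∀ x, Cfsg.quadFormMinus m F a b
        ((g : Matrix ((Fin m ⊕ Fin m) ⊕ Fin 2) ((Fin m ⊕ Fin m) ⊕ Fin 2) F) *ᵥ x) =
        c * Cfsg.quadFormMinus m F a b x) →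
      (Cfsg.PreservesSingularClassesMinus m a b
          (g : Matrix ((Fin m ⊕ Fin m) ⊕ Fin 2) ((Fin m ⊕ Fin m) ⊕ Fin 2) F) ↔
        (g : Matrix ((Fin m ⊕ Fin m) ⊕ Fin 2) ((Fin m ⊕ Fin m) ⊕ Fin 2) F).det = c ^ (m + 1)) := by
    intro g c hc hg
    exact minus_preserves_iff h2 m a b hab _ c hc
      ((Matrix.isUnit_iff_isUnit_det _).mp (Units.isUnit g)) hg
  obtain ⟨h₀, hh₀mat, hh₀not⟩ := exists_minusSq_isom h2 m hm a b hab c w hc hw
  obtain ⟨h, hhmat, hhiff⟩ := exists_isom_transport (minusQF_coe m F a b) h₀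
  have key := exists_hom_closure_inn h2 (minusQF m F a b) (minusQF_nondegenerate m F h2 a b hab)
    _ (minusQF_coe m F a b) E hE hE0 (m + 1) (minus_card m)
    (Cfsg.PreservesSingularClassesMinus m a b) hP
    (Cfsg.inndiagPOmegaMinus m F a b) rfl g₂ c hc
    (by rw [hg₂]; exact minusSimMat_quad m a b c w hw)
    (by rw [hg₂]; exact minusSimMat_det m a b c w hw)
    h
    (by rw [hg₂, hhmat, hh₀mat]; exact minusSimMat_sq m a b c w hc0)
  have hneg := minus_neg_one_iff hodd (F := F) m a b hab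
  refine ⟨?_, ?_⟩
  · intro hcase
    refine key.2.1 (hneg.mpr hcase) ?_
    rw [hhiff]
    exact hh₀not hcase.1
  · intro hcase
    exact key.1 (fun hex => hcase (hneg.mp hex))

end minusfinal

end Cfsg.Agent.Lib.Helper44
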