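import Mathlib
import Cfsg.Agent.Lib.Helper44.RealGen
import Cfsg.Agent.Lib.Helper44.SymSyl

set_option autoImplicit false

namespace Cfsg.Agent.Lib.Helper44

open scoped commutatorElement

section generic

variable {G : Type*} [Group G]

theorem derivedSeries_eq_bot_of_mulEquiv {G' : Type*} [Group G'] (e : G ≃* G') (d : ℕ)
    (h : derivedSeries G d = ⊥) : derivedSeries G' d = ⊥ := by
  rw [← map_derivedSeries_eq (f := e.toMonoidHom) e.surjective d, h, Subgroup.map_bot]

theorem derivedSeries_ne_bot_of_mulEquiv {G' : Type*} [Group G'] (e : G ≃* G') (d : ℕ)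
    (h : derivedSeries G d ≠ ⊥) : derivedSeries G' d ≠ ⊥ :=
  fun h' => h (derivedSeries_eq_bot_of_mulEquiv e.symm d h')

theorem derivedSeries_ne_bot_of_injective {G' : Type*} [Group G'] (f : G →* G')
    (hf : Function.Injective f) (d : ℕ) (h : derivedSeries G d ≠ ⊥) :
    derivedSeries G' d ≠ ⊥ := by
  intro h'
  apply h
  rw [eq_bot_iff]
  intro x hx
  have h1 : f x ∈ derivedSeries G' d := map_derivedSeries_le_derivedSeries f d ⟨x, hx, rfl⟩
  rw [h', Subgroup.mem_bot] at h1
  rw [Subgroup.mem_bot]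
  exact hf (by rw [h1, map_one])

theorem derivedSeries_map_of_injective {G' : Type*} [Group G'] (f : G →* G')
    (hf : Function.Injective f) (S : Subgroup G) (d : ℕ) (h : derivedSeries ↥S d = ⊥) :
    derivedSeries ↥(S.map f) d = ⊥ :=
  derivedSeries_eq_bot_of_mulEquiv (S.equivMapOfInjective f hf) d h

theorem derivedSeries_range_of_injective {G' : Type*} [Group G'] (f : G →* G')
    (hf : Function.Injective f) (d : ℕ) (h : derivedSeries G d = ⊥) :
    derivedSeries ↥f.range d = ⊥ :=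
  derivedSeries_eq_bot_of_mulEquiv (MonoidHom.ofInjective hf) d h

theorem derivedSeries_pi_eq_bot {ι : Type*} {Q : Type*} [Group Q] (d : ℕ)
    (h : derivedSeries Q d = ⊥) : derivedSeries (ι → Q) d = ⊥ := by
  rw [eq_bot_iff]
  intro x hx
  rw [Subgroup.mem_bot]
  funext i
  have h2 : Pi.evalMonoidHom (fun _ => Q) i x ∈ derivedSeries Q d :=
    map_derivedSeries_le_derivedSeries _ d ⟨x, hx, rfl⟩
  rw [h, Subgroup.mem_bot] at h2
  exact h2

/-- The projection of an internal semidirect product onto the complement. -/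
theorem exists_proj (N K : Subgroup G) (hn : ∀ k ∈ K, ∀ h ∈ N, k * h * k⁻¹ ∈ N)
    (hd : N ⊓ K = ⊥) :
    ∃ p : ↥(N ⊔ K) →* ↥K, ∀ x : ↥(N ⊔ K), p x = 1 → (x : G) ∈ N := by
  classical
  have hex : ∀ x : ↥(N ⊔ K), ∃ k : ↥K, (x : G) * (k : G)⁻¹ ∈ N := by
    intro x
    obtain ⟨h, hh, k, hk, hx⟩ := mem_sup_of_normalizes N K hn x.2
    refine ⟨⟨k, hk⟩, ?_⟩
    rw [hx]
    show h * k * k⁻¹ ∈ N
    rw [mul_inv_cancel_right]
    exact hh
  have huniq : ∀ (x : G) (k k' : ↥K), x * (k : G)⁻¹ ∈ N → x * (k' : G)⁻¹ ∈ N → k = k' := by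
    intro x k k' h1 h2
    have h3 : (k : G) * (k' : G)⁻¹ ∈ N := by
      have h5 := N.mul_mem (N.inv_mem h1) h2
      have e : (x * (k : G)⁻¹)⁻¹ * (x * (k' : G)⁻¹) = (k : G) * (k' : G)⁻¹ := by group
      rw [e] at h5
      exact h5
    have h4 : (k : G) * (k' : G)⁻¹ ∈ N ⊓ K := ⟨h3, K.mul_mem k.2 (K.inv_mem k'.2)⟩
    rw [hd, Subgroup.mem_bot] at h4
    exact Subtype.ext (mul_inv_eq_one.mp h4)
  choose f hf using hex
  refine ⟨MonoidHom.mk' f ?_, ?_⟩
  · intro x y
    apply huniq ((x * y : ↥(N ⊔ K)) : G) _ _ (hf _)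
    have e : ((x * y : ↥(N ⊔ K)) : G) * ((f x * f y : ↥K) : G)⁻¹ =
        ((x : G) * (f x : G)⁻¹) * ((f x : G) * ((y : G) * (f y : G)⁻¹) * (f x : G)⁻¹) := by
      show (x : G) * (y : G) * ((f x : G) * (f y : G))⁻¹ = _
      group
    rw [e]
    exact N.mul_mem (hf x) (hn _ (f x).2 _ (hf y))
  · intro x hx
    have h1 := hf x
    have h2 : f x = 1 := hx
    rw [h2] at h1
    have e : (x : G) * ((1 : ↥K) : G)⁻¹ = (x : G) := by
      show (x : G) * (1 : G)⁻¹ = _
      rw [inv_one, mul_one]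
    rw [e] at h1
    exact h1

/-- Derived length of an internal semidirect product. -/
theorem derivedSeries_sup_of_normalizes (N K : Subgroup G)
    (hn : ∀ k ∈ K, ∀ h ∈ N, k * h * k⁻¹ ∈ N) (hd : N ⊓ K = ⊥) (m c : ℕ)
    (hK : derivedSeries ↥K m = ⊥) (hN : derivedSeries ↥N c = ⊥) :
    derivedSeries ↥(N ⊔ K) (m + c) = ⊥ := by
  obtain ⟨p, hp⟩ := exists_proj N K hn hd
  have h1 : derivedSeries ↥(N ⊔ K) m ≤
      (⊤ : Subgroup ↥N).map (Subgroup.inclusion (le_sup_left : N ≤ N ⊔ K)) := by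
    intro x hx
    have h2 : p x ∈ derivedSeries ↥K m := map_derivedSeries_le_derivedSeries p m ⟨x, hx, rfl⟩
    rw [hK, Subgroup.mem_bot] at h2
    exact ⟨⟨x.1, hp x h2⟩, trivial, rfl⟩
  have h3 : ∀ c, derivedSeries ↥(N ⊔ K) (m + c) ≤
      (derivedSeries ↥N c).map (Subgroup.inclusion (le_sup_left : N ≤ N ⊔ K)) := by
    intro c
    induction c with
    | zero => exact h1
    | succ c ih =>
      rw [← add_assoc, derivedSeries_succ, derivedSeries_succ, Subgroup.map_commutator]
      exact Subgroup.commutator_mono ih ih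
  rw [eq_bot_iff]
  refine (h3 c).trans ?_
  rw [hN, Subgroup.map_bot]

end generic

section twin

variable {G : Type*} [Group G]

/-- Twin iterated commutators of depth `d` in a subgroup `H`: pairs `(w(g), w(g⁻¹))` for the
balanced commutator word `w` of depth `d`. -/
def Twin (H : Subgroup G) : ℕ → Set (G × G)
  | 0 => {p | p.1 ∈ H ∧ p.2 = p.1⁻¹}
  | d + 1 => {p | ∃ a ∈ Twin H d, ∃ b ∈ Twin H d, p = (⁅a.1, b.1⁆, ⁅a.2, b.2⁆)}

theorem twin_mono {H K : Subgroup G} (h : H ≤ K) (d : ℕ) : Twin H d ⊆ Twin K d := by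
  induction d with
  | zero =>
    rintro p ⟨h1, h2⟩
    exact ⟨h h1, h2⟩
  | succ d ih =>
    rintro p ⟨a, ha, b, hb, rfl⟩
    exact ⟨a, ih ha, b, ih hb, rfl⟩

theorem twin_mem {H : Subgroup G} (d : ℕ) {p : G × G} (hp : p ∈ Twin H d) :
    p.1 ∈ H ∧ p.2 ∈ H := by
  induction d generalizing p with
  | zero =>
    obtain ⟨h1, h2⟩ := hp
    exact ⟨h1, by rw [h2]; exact H.inv_mem h1⟩
  | succ d ih =>
    obtain ⟨a, ha, b, hb, rfl⟩ := hp
    obtain ⟨ha1, ha2⟩ := ih ha
    obtain ⟨hb1, hb2⟩ := ih hb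
    exact ⟨H.mul_mem (H.mul_mem (H.mul_mem ha1 hb1) (H.inv_mem ha1)) (H.inv_mem hb1),
      H.mul_mem (H.mul_mem (H.mul_mem ha2 hb2) (H.inv_mem ha2)) (H.inv_mem hb2)⟩

theorem twin_derived {H : Subgroup G} (d : ℕ) {p : G × G} (hp : p ∈ Twin H d) :
    p.1 ∈ (derivedSeries ↥H d).map H.subtype := by
  induction d generalizing p with
  | zero => exact ⟨⟨p.1, hp.1⟩, trivial, rfl⟩
  | succ d ih =>
    obtain ⟨a, ha, b, hb, rfl⟩ := hp
    obtain ⟨a', ha', ea⟩ := ih ha
    obtain ⟨b', hb', eb⟩ := ih hb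
    refine ⟨⁅a', b'⁆, Subgroup.commutator_mem_commutator ha' hb', ?_⟩
    show H.subtype ⁅a', b'⁆ = ⁅a.1, b.1⁆
    rw [map_commutatorElement, ea, eb]

theorem comm_mul_comm (A B : Subgroup G) (hAB : ∀ a ∈ A, ∀ b ∈ B, a * b = b * a)
    {u v u' v' : G} (hu : u ∈ A) (hv : v ∈ A) (hu' : u' ∈ B) (hv' : v' ∈ B) :
    ⁅u * u', v * v'⁆ = ⁅u, v⁆ * ⁅u', v'⁆ := by
  have key := map_commutatorElement
    (A.subtype.noncommCoprod B.subtype (fun a b => hAB a.1 a.2 b.1 b.2))
    ((⟨u, hu⟩, ⟨u', hu'⟩) : ↥A × ↥B) (⟨v, hv⟩, ⟨v', hv'⟩)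
  exact key.symm

/-- Doubling: twins of depth `d` in `H` give twins of depth `d + 1` in any subgroup containing
`H` and an involution `s` such that `H` commutes with its conjugate under `s`. -/
theorem twin_double (H K : Subgroup G) (s : G) (hHK : H ≤ K) (hsK : s ∈ K) (hss : s * s = 1)
    (hcomm : ∀ x ∈ H, ∀ y ∈ H, x * (s * y * s⁻¹) = (s * y * s⁻¹) * x) (d : ℕ) {p : G × G}
    (hp : p ∈ Twin H d) :
    (p.1 * (s * p.2 * s⁻¹), p.2 * (s * p.1 * s⁻¹)) ∈ Twin K (d + 1) := by
  have hsinv : s⁻¹ = s := inv_eq_of_mul_eq_one_left hss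
  induction d generalizing p with
  | zero =>
    obtain ⟨h1, h2⟩ := hp
    refine ⟨(p.1, p.1⁻¹), ⟨hHK h1, rfl⟩, (s, s⁻¹), ⟨hsK, rfl⟩, ?_⟩
    rw [h2]
    refine Prod.ext ?_ ?_
    · show p.1 * (s * p.1⁻¹ * s⁻¹) = ⁅p.1, s⁆
      rw [commutatorElement_def]
      group
    · show p.1⁻¹ * (s * p.1 * s⁻¹) = ⁅p.1⁻¹, s⁻¹⁆
      rw [commutatorElement_def]
      simp only [hsinv]
      group
  | succ d ih =>
    obtain ⟨a, ha, b, hb, rfl⟩ := hp
    have ha' := ih ha
    have hb' := ih hb
    refine ⟨_, ha', _, hb', ?_⟩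
    obtain ⟨ha1, ha2⟩ := twin_mem d ha
    obtain ⟨hb1, hb2⟩ := twin_mem d hb
    have hB : ∀ y ∈ H, s * y * s⁻¹ ∈ H.map (MulAut.conj s).toMonoidHom :=
      fun y hy => ⟨y, hy, rfl⟩
    have hAB : ∀ x ∈ H, ∀ y ∈ H.map (MulAut.conj s).toMonoidHom, x * y = y * x := by
      rintro x hx _ ⟨y, hy, rfl⟩
      exact hcomm x hx y hy
    have hconjc : ∀ x y : G, s * ⁅x, y⁆ * s⁻¹ = ⁅s * x * s⁻¹, s * y * s⁻¹⁆ := by
      intro x y
      rw [commutatorElement_def, commutatorElement_def]
      group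
    refine Prod.ext ?_ ?_
    · show ⁅a.1, b.1⁆ * (s * ⁅a.2, b.2⁆ * s⁻¹) =
        ⁅a.1 * (s * a.2 * s⁻¹), b.1 * (s * b.2 * s⁻¹)⁆
      rw [hconjc, comm_mul_comm H _ hAB ha1 hb1 (hB _ ha2) (hB _ hb2)]
    · show ⁅a.2, b.2⁆ * (s * ⁅a.1, b.1⁆ * s⁻¹) =
        ⁅a.2 * (s * a.1 * s⁻¹), b.2 * (s * b.1 * s⁻¹)⁆
      rw [hconjc, comm_mul_comm H _ hAB ha2 hb2 (hB _ ha1) (hB _ hb1)]

theorem closure_comm {S₁ S₂ : Set G} (h : ∀ a ∈ S₁, ∀ b ∈ S₂, a * b = b * a) :
    ∀ x ∈ Subgroup.closure S₁, ∀ y ∈ Subgroup.closure S₂, x * y = y * x := by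
  intro x hx y hy
  have h1 : Subgroup.closure S₂ ≤ Subgroup.centralizer (Subgroup.closure S₁ : Set G) := by
    rw [Subgroup.closure_le]
    intro b hb
    rw [SetLike.mem_coe, Subgroup.mem_centralizer_iff]
    intro a ha
    have h2 : Subgroup.closure S₁ ≤ Subgroup.centralizer {b} := by
      rw [Subgroup.closure_le]
      intro a ha
      rw [SetLike.mem_coe, Subgroup.mem_centralizer_iff]
      intro c hc
      rw [Set.mem_singleton_iff] at hc
      rw [hc]
      exact (h a ha b hb).symm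
    have h3 := h2 ha
    rw [Subgroup.mem_centralizer_iff] at h3
    exact (h3 b rfl).symm
  have h4 := h1 hy
  rw [Subgroup.mem_centralizer_iff] at h4
  exact h4 x hx

end twin

section swap

/-- The function exchanging `[0, w)` and `[w, 2w)`. -/
def blockSwapFun (w j : ℕ) : ℕ := if j < w then j + w else if j < 2 * w then j - w else j

theorem blockSwapFun_lt (n w j : ℕ) (h : 2 * w ≤ n) (hj : j < n) : blockSwapFun w j < n := by
  unfold blockSwapFun
  split_ifs <;> omega

theorem blockSwapFun_invol (w j : ℕ) : blockSwapFun w (blockSwapFun w j) = j := by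
  unfold blockSwapFun
  split_ifs <;> omega

/-- The involution of `Fin n` exchanging `[0, w)` and `[w, 2w)`. -/
def blockSwap (n w : ℕ) (h : 2 * w ≤ n) : Equiv.Perm (Fin n) where
  toFun j := ⟨blockSwapFun w j.val, blockSwapFun_lt n w j.val h j.2⟩
  invFun j := ⟨blockSwapFun w j.val, blockSwapFun_lt n w j.val h j.2⟩
  left_inv j := Fin.ext (blockSwapFun_invol w j.val)
  right_inv j := Fin.ext (blockSwapFun_invol w j.val)

theorem blockSwap_val (n w : ℕ) (h : 2 * w ≤ n) (j : Fin n) :
    (blockSwap n w h j).val = blockSwapFun w j.val := rfl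

theorem blockSwap_symm (n w : ℕ) (h : 2 * w ≤ n) : (blockSwap n w h).symm = blockSwap n w h :=
  rfl

theorem blockSwap_mul_self (n w : ℕ) (h : 2 * w ≤ n) : blockSwap n w h * blockSwap n w h = 1 := by
  ext j
  show ((blockSwap n w h) ((blockSwap n w h) j)).val = j.val
  rw [blockSwap_val, blockSwap_val, blockSwapFun_invol]

end swap

section supp

variable {G Q : Type*} [Group G] [Group Q] {n : ℕ}
  (β : (Fin n → Q) →* G) (π : Equiv.Perm (Fin n) →* G)

/-- Elements of the wreath-like group supported on a set of coordinates. -/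
def Supp (B : Set (Fin n)) : Subgroup G :=
  Subgroup.closure ({x | ∃ f : Fin n → Q, (∀ j, j ∉ B → f j = 1) ∧ x = β f} ∪
    {x | ∃ σ : Equiv.Perm (Fin n), (∀ j, j ∉ B → σ j = j) ∧ x = π σ})

theorem supp_mono {B B' : Set (Fin n)} (h : B ⊆ B') : Supp β π B ≤ Supp β π B' := by
  apply Subgroup.closure_mono
  rintro x (⟨f, hf, rfl⟩ | ⟨σ, hσ, rfl⟩)
  · exact Or.inl ⟨f, fun j hj => hf j (fun hj' => hj (h hj')), rfl⟩
  · exact Or.inr ⟨σ, fun j hj => hσ j (fun hj' => hj (h hj')), rfl⟩

theorem comp_symm_of_disjoint (f : Fin n → Q) (τ : Equiv.Perm (Fin n)) (B B' : Set (Fin n))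
    (hf : ∀ j, j ∉ B' → f j = 1) (hτ : ∀ j, j ∉ B → τ j = j) (hdis : ∀ j, j ∈ B → j ∉ B') :
    f ∘ τ.symm = f := by
  funext j
  show f (τ.symm j) = f j
  by_cases hj : j ∈ B
  · have h1 : τ.symm j ∈ B := by
      by_contra h
      have h2 := hτ _ h
      rw [Equiv.apply_symm_apply] at h2
      rw [← h2] at h
      exact h hj
    rw [hf _ (hdis _ h1), hf _ (hdis _ hj)]
  · have h1 : τ.symm j = j := by
      rw [Equiv.symm_apply_eq]
      exact (hτ j hj).symm
    rw [h1]

variable (hconj : ∀ (σ : Equiv.Perm (Fin n)) (f : Fin n → Q),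
  π σ * β f * (π σ)⁻¹ = β (f ∘ σ.symm))

include hconj

theorem supp_comm (B₁ B₂ : Set (Fin n)) (hdis : ∀ j, j ∈ B₁ → j ∉ B₂) :
    ∀ x ∈ Supp β π B₁, ∀ y ∈ Supp β π B₂, x * y = y * x := by
  have hdis' : ∀ j, j ∈ B₂ → j ∉ B₁ := fun j h2 h1 => hdis j h1 h2
  apply closure_comm
  rintro a (⟨f, hf, rfl⟩ | ⟨σ, hσ, rfl⟩) b (⟨g, hg, rfl⟩ | ⟨τ, hτ, rfl⟩)
  · rw [← map_mul, ← map_mul]
    congr 1
    funext j
    show f j * g j = g j * f j
    by_cases hj : j ∈ B₁
    · rw [hg j (hdis j hj), mul_one, one_mul]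
    · rw [hf j hj, one_mul, mul_one]
  · have h1 := hconj τ f
    rw [comp_symm_of_disjoint f τ B₂ B₁ hf hτ hdis'] at h1
    have h2 : π τ * β f = β f * π τ := by
      rw [← mul_inv_eq_iff_eq_mul]
      exact h1
    exact h2.symm
  · have h1 := hconj σ g
    rw [comp_symm_of_disjoint g σ B₁ B₂ hg hσ hdis] at h1
    have h2 : π σ * β g = β g * π σ := by
      rw [← mul_inv_eq_iff_eq_mul]
      exact h1
    exact h2
  · rw [← map_mul, ← map_mul]
    congr 1
    have hd : Equiv.Perm.Disjoint σ τ := by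
      intro x
      by_cases hx : x ∈ B₁
      · exact Or.inr (hτ x (hdis x hx))
      · exact Or.inl (hσ x hx)
    exact hd.commute.eq

theorem supp_conj (τ : Equiv.Perm (Fin n)) (B : Set (Fin n)) :
    ∀ x ∈ Supp β π B, π τ * x * (π τ)⁻¹ ∈ Supp β π (τ '' B) := by
  have hle : Supp β π B ≤ (Supp β π (τ '' B)).comap (MulAut.conj (π τ)).toMonoidHom := by
    show Subgroup.closure _ ≤ _
    rw [Subgroup.closure_le]
    rintro x (⟨f, hf, rfl⟩ | ⟨σ, hσ, rfl⟩)
    · show π τ * β f * (π τ)⁻¹ ∈ Supp β π (τ '' B)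
      rw [hconj]
      refine Subgroup.subset_closure (Or.inl ⟨_, fun j hj => ?_, rfl⟩)
      show f (τ.symm j) = 1
      apply hf
      intro h
      exact hj ⟨τ.symm j, h, by simp⟩
    · show π τ * π σ * (π τ)⁻¹ ∈ Supp β π (τ '' B)
      rw [← map_inv, ← map_mul, ← map_mul]
      refine Subgroup.subset_closure (Or.inr ⟨_, fun j hj => ?_, rfl⟩)
      show τ (σ (τ⁻¹ j)) = j
      have h1 : τ⁻¹ j ∉ B := by
        intro h
        exact hj ⟨τ⁻¹ j, h, by simp⟩
      rw [hσ _ h1]
      simp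
  intro x hx
  exact hle hx

end supp

section chain

variable {G Q : Type*} [Group G] [Group Q]

theorem isPGroup_zpowers_of_sq {s : G} (hss : s * s = 1) : IsPGroup 2 ↥(Subgroup.zpowers s) := by
  rintro ⟨x, hx⟩
  obtain ⟨k, rfl⟩ := Subgroup.mem_zpowers_iff.mp hx
  refine ⟨1, Subtype.ext ?_⟩
  show (s ^ k) ^ (2 ^ 1) = 1
  rw [pow_one, ← zpow_natCast, ← zpow_mul, mul_comm, zpow_mul, zpow_natCast, pow_two, hss,
    one_zpow]

/-- Lower bound for the derived length of the wreath-like group: a `2`-subgroup with nontrivial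
`(i + 1)`-st derived subgroup as soon as `2 ^ i ≤ n`. -/
theorem wreath_derived_lower (n : ℕ) (β : (Fin n → Q) →* G) (π : Equiv.Perm (Fin n) →* G)
    (hβinj : Function.Injective β)
    (hconj : ∀ (σ : Equiv.Perm (Fin n)) (f : Fin n → Q), π σ * β f * (π σ)⁻¹ = β (f ∘ σ.symm))
    (hQ : IsPGroup 2 Q) (a b z : Q) (hab : ⁅a, b⁆ = z) (hab' : ⁅a⁻¹, b⁻¹⁆ = z) (hz : z ≠ 1)
    (i : ℕ) (hi : 2 ^ i ≤ n) :
    ∃ K : Subgroup G, IsPGroup 2 K ∧ derivedSeries ↥K (i + 1) ≠ ⊥ := by
  classical
  have key : ∀ i, 2 ^ i ≤ n → ∃ K : Subgroup G, IsPGroup 2 K ∧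
      K ≤ Supp β π {j | j.val < 2 ^ i} ∧
      (β (fun j => if j.val < 2 ^ i then z else 1),
        β (fun j => if j.val < 2 ^ i then z else 1)) ∈ Twin K (i + 1) := by
    intro i
    induction i with
    | zero =>
      intro hi
      have hn : 0 < n := by
        rw [pow_zero] at hi
        omega
      obtain ⟨j0, hj0⟩ : ∃ j0 : Fin n, j0 = ⟨0, hn⟩ := ⟨_, rfl⟩
      have hj0' : ∀ j : Fin n, j.val < 2 ^ 0 ↔ j = j0 := by
        intro j
        rw [hj0, pow_zero, Fin.ext_iff]
        show j.val < 1 ↔ j.val = 0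
        omega
      obtain ⟨μ, hμdef⟩ : ∃ μ : Q →* G,
        μ = β.comp (MonoidHom.mulSingle (fun _ : Fin n => Q) j0) := ⟨_, rfl⟩
      have hμ : ∀ q, μ q = β (Pi.mulSingle j0 q) := by
        intro q
        rw [hμdef]
        rfl
      have hΔ : (fun j : Fin n => if j.val < 2 ^ 0 then z else 1) = Pi.mulSingle j0 z := by
        funext j
        by_cases h : j = j0
        · rw [if_pos ((hj0' j).mpr h), h, Pi.mulSingle_eq_same]
        · rw [if_neg (fun h' => h ((hj0' j).mp h')), Pi.mulSingle_eq_of_ne h]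
      refine ⟨μ.range, hQ.of_surjective μ.rangeRestrict μ.rangeRestrict_surjective, ?_, ?_⟩
      · rintro _ ⟨q, rfl⟩
        rw [hμ]
        refine Subgroup.subset_closure (Or.inl ⟨_, fun j hj => ?_, rfl⟩)
        apply Pi.mulSingle_eq_of_ne
        intro h
        exact hj ((hj0' j).mpr h)
      · rw [hΔ]
        refine ⟨(μ a, (μ a)⁻¹), ⟨⟨a, rfl⟩, rfl⟩, (μ b, (μ b)⁻¹), ⟨⟨b, rfl⟩, rfl⟩, ?_⟩
        refine Prod.ext ?_ ?_
        · show β (Pi.mulSingle j0 z) = ⁅μ a, μ b⁆
          rw [← map_commutatorElement, hab, hμ]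
        · show β (Pi.mulSingle j0 z) = ⁅(μ a)⁻¹, (μ b)⁻¹⁆
          rw [← map_inv, ← map_inv, ← map_commutatorElement, hab', hμ]
    | succ i ih =>
      intro hi
      have e2 : 2 ^ (i + 1) = 2 * 2 ^ i := by ring
      have hw : 2 * 2 ^ i ≤ n := by
        rw [← e2]
        exact hi
      obtain ⟨K, hK2, hKS, hKt⟩ := ih (by omega)
      obtain ⟨w, hwdef⟩ : ∃ w, w = 2 ^ i := ⟨_, rfl⟩
      rw [e2]
      rw [← hwdef] at hw hKS hKt ⊢
      obtain ⟨σ, hσdef⟩ : ∃ σ, σ = blockSwap n w hw := ⟨_, rfl⟩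
      obtain ⟨s, hsdef⟩ : ∃ s, s = π σ := ⟨_, rfl⟩
      have hss : s * s = 1 := by
        rw [hsdef, ← map_mul, hσdef, blockSwap_mul_self, map_one]
      have hsinv : s⁻¹ = s := inv_eq_of_mul_eq_one_left hss
      obtain ⟨Ks, hKsdef⟩ : ∃ Ks : Subgroup G, Ks = K.map (MulAut.conj s).toMonoidHom :=
        ⟨_, rfl⟩
      have hKs : Ks ≤ Supp β π {j | w ≤ j.val ∧ j.val < 2 * w} := by
        rw [hKsdef]
        rintro _ ⟨x, hx, rfl⟩
        have h1 := supp_conj β π hconj σ _ x (hKS hx)
        rw [← hsdef] at h1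
        refine supp_mono β π ?_ h1
        rintro _ ⟨j, hj, rfl⟩
        have hj' : j.val < w := hj
        show w ≤ (σ j).val ∧ (σ j).val < 2 * w
        rw [hσdef, blockSwap_val]
        unfold blockSwapFun
        rw [if_pos hj']
        omega
      have hcomm : ∀ x ∈ K, ∀ y ∈ K, x * (s * y * s⁻¹) = (s * y * s⁻¹) * x := by
        intro x hx y hy
        refine supp_comm β π hconj _ _ ?_ x (hKS hx) _ (hKs ?_)
        · intro j hj hj'
          have h1 : j.val < w := hj
          have h2 : w ≤ j.val := hj'.1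
          omega
        · rw [hKsdef]
          exact ⟨y, hy, rfl⟩
      have hKs2 : IsPGroup 2 Ks := by
        rw [hKsdef]
        exact hK2.map _
      have hM2 : IsPGroup 2 ↥(K ⊔ Ks) := by
        apply hK2.to_sup_of_normal_right' hKs2
        intro x hx
        apply Subgroup.centralizer_le_normalizer
        rw [Subgroup.mem_centralizer_iff]
        intro y hy
        rw [SetLike.mem_coe, hKsdef] at hy
        obtain ⟨y', hy', rfl⟩ := hy
        exact (hcomm x hx y' hy').symm
      have hMs : ∀ h ∈ K ⊔ Ks, s * h * s⁻¹ ∈ K ⊔ Ks := by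
        have hle : K ⊔ Ks ≤ (K ⊔ Ks).comap (MulAut.conj s).toMonoidHom := by
          apply sup_le
          · intro h hh
            show s * h * s⁻¹ ∈ K ⊔ Ks
            apply (le_sup_right : Ks ≤ K ⊔ Ks)
            rw [hKsdef]
            exact ⟨h, hh, rfl⟩
          · intro h hh
            show s * h * s⁻¹ ∈ K ⊔ Ks
            rw [hKsdef] at hh
            obtain ⟨y, hy, rfl⟩ := hh
            apply (le_sup_left : K ≤ K ⊔ Ks)
            have e : s * ((MulAut.conj s).toMonoidHom y) * s⁻¹ = y := by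
              show s * (s * y * s⁻¹) * s⁻¹ = y
              rw [hsinv]
              calc s * (s * y * s) * s = (s * s) * y * (s * s) := by group
                _ = y := by rw [hss, one_mul, mul_one]
            rw [e]
            exact hy
        intro h hh
        exact hle hh
      have hK'2 : IsPGroup 2 ↥(K ⊔ Ks ⊔ Subgroup.zpowers s) := by
        apply hM2.to_sup_of_normal_left' (isPGroup_zpowers_of_sq hss)
        rw [Subgroup.zpowers_le, Subgroup.mem_normalizer_iff]
        intro h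
        constructor
        · exact hMs h
        · intro hh
          have h1 := hMs _ hh
          have e : s * (s * h * s⁻¹) * s⁻¹ = h := by
            rw [hsinv]
            calc s * (s * h * s) * s = (s * s) * h * (s * s) := by group
              _ = h := by rw [hss, one_mul, mul_one]
          rw [e] at h1
          exact h1
      refine ⟨K ⊔ Ks ⊔ Subgroup.zpowers s, hK'2, ?_, ?_⟩
      · apply sup_le
        · apply sup_le
          · refine hKS.trans (supp_mono β π ?_)
            intro j hj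
            have h1 : j.val < w := hj
            show j.val < 2 * w
            omega
          · refine hKs.trans (supp_mono β π ?_)
            intro j hj
            exact hj.2
        · rw [Subgroup.zpowers_le, hsdef]
          refine Subgroup.subset_closure (Or.inr ⟨σ, fun j hj => ?_, rfl⟩)
          have h1 : ¬ j.val < 2 * w := hj
          apply Fin.ext
          rw [hσdef, blockSwap_val]
          unfold blockSwapFun
          rw [if_neg (by omega), if_neg h1]
      · have h1 := twin_double K (K ⊔ Ks ⊔ Subgroup.zpowers s) s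
          (le_sup_left.trans le_sup_left)
          ((le_sup_right : Subgroup.zpowers s ≤ _) (Subgroup.mem_zpowers s)) hss hcomm (i + 1) hKt
        have e : β (fun j => if j.val < w then z else 1) *
            (s * β (fun j => if j.val < w then z else 1) * s⁻¹) =
            β (fun j => if j.val < 2 * w then z else 1) := by
          rw [hsdef, hconj, ← map_mul]
          congr 1
          funext j
          show (if j.val < w then z else 1) * (if (σ.symm j).val < w then z else 1) =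
            if j.val < 2 * w then z else 1
          rw [hσdef, blockSwap_symm, blockSwap_val]
          unfold blockSwapFun
          by_cases h1 : j.val < w
          · rw [if_pos h1, if_pos h1, if_neg (by omega), if_pos (by omega), mul_one]
          · by_cases h2 : j.val < 2 * w
            · rw [if_neg h1, if_neg h1, if_pos h2, if_pos (by omega), if_pos h2, one_mul]
            · rw [if_neg h1, if_neg h1, if_neg h2, if_neg h1, if_neg h2, one_mul]
        rw [e] at h1
        exact h1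
  obtain ⟨K, hK2, -, hKt⟩ := key i hi
  refine ⟨K, hK2, ?_⟩
  intro hbot
  obtain ⟨x, hx, hxe⟩ := twin_derived (i + 1) hKt
  have hx1 : x = 1 := by
    have hx' : x ∈ derivedSeries ↥K (i + 1) := hx
    rw [hbot] at hx'
    exact Subgroup.mem_bot.mp hx'
  rw [hx1, map_one] at hxe
  have hxe' : (1 : G) = β (fun j => if j.val < 2 ^ i then z else 1) := hxe
  have h1 : (fun j : Fin n => if j.val < 2 ^ i then z else 1) = 1 := by
    apply hβinj
    rw [map_one]
    exact hxe'.symm
  have hn : 0 < n := lt_of_lt_of_le (pow_pos (by norm_num) i) hi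
  have h2 := congrFun h1 ⟨0, hn⟩
  apply hz
  have h3 : (if (0 : ℕ) < 2 ^ i then z else 1) = 1 := h2
  rw [if_pos (pow_pos (by norm_num) i)] at h3
  exact h3

/-- Upper bound for the derived length of the wreath-like group. -/
theorem wreath_derived_upper (n : ℕ) (β : (Fin n → Q) →* G) (π : Equiv.Perm (Fin n) →* G)
    (Sy : Subgroup (Equiv.Perm (Fin n)))
    (hβinj : Function.Injective β) (hπinj : Function.Injective π)
    (hconj : ∀ (σ : Equiv.Perm (Fin n)) (f : Fin n → Q), π σ * β f * (π σ)⁻¹ = β (f ∘ σ.symm))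
    (hdisj : β.range ⊓ Sy.map π = ⊥) (m c : ℕ)
    (hSy : derivedSeries ↥Sy m = ⊥) (hQ : derivedSeries Q c = ⊥) :
    derivedSeries ↥(β.range ⊔ Sy.map π) (m + c) = ⊥ := by
  apply derivedSeries_sup_of_normalizes _ _ ?_ hdisj m c
  · exact derivedSeries_map_of_injective π hπinj Sy m hSy
  · exact derivedSeries_range_of_injective β hβinj c (derivedSeries_pi_eq_bot c hQ)
  · rintro _ ⟨σ, -, rfl⟩ _ ⟨f, rfl⟩
    exact ⟨_, (hconj σ f).symm⟩

end chain

section sym

theorem derivedSeries_one_eq_bot_of_comm {G : Type*} [Group G] (h : ∀ a b : G, a * b = b * a) :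
    derivedSeries G 1 = ⊥ := by
  rw [derivedSeries_succ, derivedSeries_zero, eq_bot_iff, Subgroup.commutator_le]
  intro a _ b _
  rw [Subgroup.mem_bot, commutatorElement_eq_one_iff_mul_comm]
  exact h a b

theorem perm_fin_two_comm (p q : Equiv.Perm (Fin 2)) : p * q = q * p := by
  revert p q
  decide

/-- Every symmetric group has a Sylow `2`-subgroup of derived length at most `log₂ n`. -/
theorem exists_sylow_perm_dl (n : ℕ) : ∀ (T : Type) [Fintype T] [DecidableEq T],
    Fintype.card T = n →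
    ∃ S : Subgroup (Equiv.Perm T), Nat.card S = 2 ^ padicValNat 2 n.factorial ∧
      derivedSeries ↥S (Nat.log 2 n) = ⊥ := by
  induction n using Nat.strong_induction_on with
  | _ n ih =>
    intro T _ _ hT
    have : Fact (Nat.Prime 2) := ⟨Nat.prime_two⟩
    by_cases hn : n < 2
    · refine ⟨⊥, ?_, ?_⟩
      · have : n.factorial = 1 := by
          interval_cases n <;> rfl
        rw [this]
        simp
      · rw [eq_bot_iff]
        intro x _
        rw [Subgroup.mem_bot]
        exact Subsingleton.elim x 1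
    · -- model type
      obtain ⟨S', hS'c, hS'd⟩ := ih (n / 2) (by omega) (Fin (n / 2)) (by simp)
      have hcard : Fintype.card T = Fintype.card ((Fin (n / 2) × Fin 2) ⊕ Fin (n % 2)) := by
        rw [hT]
        simp only [Fintype.card_sum, Fintype.card_prod, Fintype.card_fin]
        omega
      let e : T ≃ (Fin (n / 2) × Fin 2) ⊕ Fin (n % 2) := Fintype.equivOfCardEq hcard
      -- the group on pairs
      let Cs : Subgroup (Equiv.Perm (Fin (n / 2) × Fin 2)) := (pairSwapHom (Fin (n / 2))).range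
      let Δ : Subgroup (Equiv.Perm (Fin (n / 2) × Fin 2)) := S'.map (pairPermHom (Fin (n / 2)))
      have hnorm : ∀ k ∈ Δ, ∀ h ∈ Cs, k * h * k⁻¹ ∈ Cs := by
        rintro _ ⟨σ, -, rfl⟩ _ ⟨f, rfl⟩
        exact ⟨_, (pairPerm_conj _ σ f).symm⟩
      have hdisj : Cs ⊓ Δ = ⊥ := by
        rw [eq_bot_iff]
        rintro x ⟨⟨f, rfl⟩, ⟨σ, -, hσ⟩⟩
        rw [Subgroup.mem_bot]
        have h1 : σ = 1 := by
          ext t
          have := congrArg (fun p : Equiv.Perm (Fin (n / 2) × Fin 2) => (p (t, 0)).1) hσ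
          simp only [pairPermHom_apply, pairSwapHom_apply] at this
          rw [this]; rfl
        rw [← hσ, h1, map_one]
      have hcC : Nat.card Cs = 2 ^ (n / 2) := by
        show Nat.card (pairSwapHom (Fin (n / 2))).range = _
        rw [card_range_of_inj _ (pairSwapHom_injective (Fin (n / 2))),
          Nat.card_eq_fintype_card, Fintype.card_pi]
        simp [Fintype.card_perm]
      have hcΔ : Nat.card Δ = 2 ^ padicValNat 2 (n / 2).factorial := by
        rw [Subgroup.card_map_of_injective (pairPermHom_injective (Fin (n / 2))), hS'c]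
      have hc1 : Nat.card ↥(Cs ⊔ Δ) = 2 ^ padicValNat 2 n.factorial := by
        rw [card_sup_of_normalizes Cs Δ hnorm hdisj, hcC, hcΔ, ← pow_add]
        congr 1
        have h1 : padicValNat 2 (2 * (n / 2)).factorial = padicValNat 2 (n / 2).factorial + n / 2 :=
          padicValNat_factorial_mul (n / 2)
        rcases Nat.mod_two_eq_zero_or_one n with h0 | h0
        · have : 2 * (n / 2) = n := by omega
          rw [this] at h1
          omega
        · have e2 : n = 2 * (n / 2) + 1 := by omega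
          have h2 : padicValNat 2 n.factorial = padicValNat 2 (2 * (n / 2)).factorial := by
            conv_lhs => rw [e2]
            rw [Nat.factorial_succ, padicValNat.mul (by omega) (Nat.factorial_ne_zero _),
              padicValNat.eq_zero_of_not_dvd (by omega), zero_add]
          omega
      have hd1 : derivedSeries ↥(Cs ⊔ Δ) (Nat.log 2 (n / 2) + 1) = ⊥ := by
        apply derivedSeries_sup_of_normalizes Cs Δ hnorm hdisj
        · exact derivedSeries_map_of_injective _ (pairPermHom_injective _) S' _ hS'd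
        · apply derivedSeries_range_of_injective _ (pairSwapHom_injective _)
          apply derivedSeries_pi_eq_bot
          exact derivedSeries_one_eq_bot_of_comm perm_fin_two_comm
      -- extend to the sum and transport
      let ext : Equiv.Perm (Fin (n / 2) × Fin 2) →* Equiv.Perm ((Fin (n / 2) × Fin 2) ⊕ Fin (n % 2)) :=
        (Equiv.Perm.sumCongrHom _ _).comp (MonoidHom.inl _ _)
      have hext : Function.Injective ext := by
        intro a b hab
        have := Equiv.Perm.sumCongrHom_injective hab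
        exact (Prod.mk.inj this).1
      refine ⟨((Cs ⊔ Δ).map ext).map e.symm.permCongrHom.toMonoidHom, ?_, ?_⟩
      · rw [Subgroup.card_map_of_injective e.symm.permCongrHom.injective,
          Subgroup.card_map_of_injective hext, hc1]
      · rw [Nat.log_of_one_lt_of_le (by norm_num) (by omega : 2 ≤ n)]
        exact derivedSeries_map_of_injective _ e.symm.permCongrHom.injective _ _
          (derivedSeries_map_of_injective _ hext _ _ hd1)

end sym

end Cfsg.Agent.Lib.Helper44
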