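import Mathlib
import Cfsg.Agent.Lib.Helper44.DerLen

set_option autoImplicit false

namespace Cfsg.Agent.Lib.Helper44

section homs

set_option linter.unusedSectionVars false

variable (T : Type) [DecidableEq T] (p : ℕ)

/-- Shifts inside the blocks `{t} × ZMod p`. -/
def blkShiftHom : (T → Multiplicative (ZMod p)) →* Equiv.Perm (T × ZMod p) where
  toFun f := Equiv.prodShear (Equiv.refl T) (fun t => Equiv.addLeft (Multiplicative.toAdd (f t)))
  map_one' := by
    ext ⟨t, a⟩
    · rfl
    · show Multiplicative.toAdd (1 : Multiplicative (ZMod p)) + a = a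
      rw [toAdd_one, zero_add]
  map_mul' f g := by
    ext ⟨t, a⟩
    · rfl
    · show Multiplicative.toAdd (f t * g t) + a =
        Multiplicative.toAdd (f t) + (Multiplicative.toAdd (g t) + a)
      rw [toAdd_mul, add_assoc]

/-- Permutations of the blocks. -/
def blkPermHom : Equiv.Perm T →* Equiv.Perm (T × ZMod p) where
  toFun σ := Equiv.prodCongr σ (Equiv.refl _)
  map_one' := by ext ⟨t, a⟩ <;> rfl
  map_mul' f g := by ext ⟨t, a⟩ <;> rfl

theorem blkShiftHom_apply (f : T → Multiplicative (ZMod p)) (t : T) (a : ZMod p) :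
    blkShiftHom T p f (t, a) = (t, Multiplicative.toAdd (f t) + a) := rfl

theorem blkPermHom_apply (σ : Equiv.Perm T) (t : T) (a : ZMod p) :
    blkPermHom T p σ (t, a) = (σ t, a) := rfl

theorem blkShiftHom_injective : Function.Injective (blkShiftHom T p) := by
  intro f g h
  funext t
  have := congrArg (fun q : Equiv.Perm (T × ZMod p) => (q (t, 0)).2) h
  simp only [blkShiftHom_apply, add_zero] at this
  exact Multiplicative.toAdd.injective this

theorem blkPermHom_injective : Function.Injective (blkPermHom T p) := by
  intro f g h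
  ext t
  have := congrArg (fun q : Equiv.Perm (T × ZMod p) => (q (t, 0)).1) h
  simpa only [blkPermHom_apply] using this

theorem blkPerm_conj (σ : Equiv.Perm T) (f : T → Multiplicative (ZMod p)) :
    blkPermHom T p σ * blkShiftHom T p f * (blkPermHom T p σ)⁻¹ =
      blkShiftHom T p (f ∘ σ.symm) := by
  ext ⟨t, a⟩
  · show ((blkPermHom T p σ) ((blkShiftHom T p f) ((blkPermHom T p σ)⁻¹ (t, a)))).1 = t
    have : (blkPermHom T p σ)⁻¹ (t, a) = (σ.symm t, a) := by
      rw [Equiv.Perm.inv_eq_iff_eq, blkPermHom_apply]; simp
    rw [this, blkShiftHom_apply, blkPermHom_apply]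
    simp
  · show ((blkPermHom T p σ) ((blkShiftHom T p f) ((blkPermHom T p σ)⁻¹ (t, a)))).2 = _
    have : (blkPermHom T p σ)⁻¹ (t, a) = (σ.symm t, a) := by
      rw [Equiv.Perm.inv_eq_iff_eq, blkPermHom_apply]; simp
    rw [this, blkShiftHom_apply, blkPermHom_apply]
    rfl

end homs

/-- Every symmetric group has a Sylow `p`-subgroup of derived length at most `log_p n`. -/
theorem exists_sylow_perm_p (p : ℕ) [hp : Fact p.Prime] (n : ℕ) :
    ∀ (T : Type) [Fintype T] [DecidableEq T], Fintype.card T = n →
    ∃ S : Subgroup (Equiv.Perm T), Nat.card S = p ^ padicValNat p n.factorial ∧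
      derivedSeries ↥S (Nat.log p n) = ⊥ := by
  have hp2 : 2 ≤ p := hp.out.two_le
  have hp0 : NeZero p := ⟨by omega⟩
  induction n using Nat.strong_induction_on with
  | _ n ih =>
    intro T _ _ hT
    by_cases hn : n < p
    · refine ⟨⊥, ?_, ?_⟩
      · have h1 : padicValNat p n.factorial = 0 := by
          apply padicValNat.eq_zero_of_not_dvd
          rw [hp.out.dvd_factorial]
          omega
        rw [h1]
        simp
      · rw [eq_bot_iff]
        intro x _
        rw [Subgroup.mem_bot]
        exact Subsingleton.elim x 1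
    · have hnp : p ≤ n := by omega
      have hdiv : n / p < n := Nat.div_lt_self (by omega) (by omega)
      obtain ⟨S', hS'c, hS'd⟩ := ih (n / p) hdiv (Fin (n / p)) (by simp)
      have hcard : Fintype.card T = Fintype.card ((Fin (n / p) × ZMod p) ⊕ Fin (n % p)) := by
        rw [hT]
        simp only [Fintype.card_sum, Fintype.card_prod, Fintype.card_fin, ZMod.card]
        exact (Nat.div_add_mod' n p).symm
      let e : T ≃ (Fin (n / p) × ZMod p) ⊕ Fin (n % p) := Fintype.equivOfCardEq hcard
      let Cs : Subgroup (Equiv.Perm (Fin (n / p) × ZMod p)) := (blkShiftHom (Fin (n / p)) p).range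
      let Δ : Subgroup (Equiv.Perm (Fin (n / p) × ZMod p)) := S'.map (blkPermHom (Fin (n / p)) p)
      have hnorm : ∀ k ∈ Δ, ∀ h ∈ Cs, k * h * k⁻¹ ∈ Cs := by
        rintro _ ⟨σ, -, rfl⟩ _ ⟨f, rfl⟩
        exact ⟨_, (blkPerm_conj _ p σ f).symm⟩
      have hdisj : Cs ⊓ Δ = ⊥ := by
        rw [eq_bot_iff]
        rintro x ⟨⟨f, rfl⟩, ⟨σ, -, hσ⟩⟩
        rw [Subgroup.mem_bot]
        have h1 : σ = 1 := by
          ext t
          have := congrArg (fun q : Equiv.Perm (Fin (n / p) × ZMod p) => (q (t, 0)).1) hσ
          simp only [blkPermHom_apply, blkShiftHom_apply] at this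
          rw [this]; rfl
        rw [← hσ, h1, map_one]
      have hcC : Nat.card Cs = p ^ (n / p) := by
        show Nat.card (blkShiftHom (Fin (n / p)) p).range = _
        rw [card_range_of_inj _ (blkShiftHom_injective (Fin (n / p)) p), Nat.card_fun]
        simp [Nat.card_eq_fintype_card, ZMod.card]
      have hcΔ : Nat.card Δ = p ^ padicValNat p (n / p).factorial := by
        rw [Subgroup.card_map_of_injective (blkPermHom_injective (Fin (n / p)) p), hS'c]
      have hval : padicValNat p n.factorial = n / p + padicValNat p (n / p).factorial := by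
        have h1 : padicValNat p (p * (n / p)).factorial = padicValNat p (n / p).factorial + n / p :=
          padicValNat_factorial_mul (n / p)
        have h2 : padicValNat p n.factorial = padicValNat p (p * (n / p)).factorial := by
          have h3 : n = p * (n / p) + n % p := (Nat.div_add_mod n p).symm
          have h4 : n % p < p := Nat.mod_lt _ (by omega)
          conv_lhs => rw [h3]
          exact padicValNat_factorial_mul_add (n / p) h4
        omega
      have hc1 : Nat.card ↥(Cs ⊔ Δ) = p ^ padicValNat p n.factorial := by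
        rw [card_sup_of_normalizes Cs Δ hnorm hdisj, hcC, hcΔ, ← pow_add, hval]
      have hd1 : derivedSeries ↥(Cs ⊔ Δ) (Nat.log p (n / p) + 1) = ⊥ := by
        apply derivedSeries_sup_of_normalizes Cs Δ hnorm hdisj
        · exact derivedSeries_map_of_injective _ (blkPermHom_injective _ p) S' _ hS'd
        · apply derivedSeries_range_of_injective _ (blkShiftHom_injective _ p)
          exact derivedSeries_one_eq_bot_of_comm (fun a b => mul_comm a b)
      let ext : Equiv.Perm (Fin (n / p) × ZMod p) →*
          Equiv.Perm ((Fin (n / p) × ZMod p) ⊕ Fin (n % p)) :=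
        (Equiv.Perm.sumCongrHom _ _).comp (MonoidHom.inl _ _)
      have hext : Function.Injective ext := by
        intro a b hab
        have := Equiv.Perm.sumCongrHom_injective hab
        exact (Prod.mk.inj this).1
      refine ⟨((Cs ⊔ Δ).map ext).map e.symm.permCongrHom.toMonoidHom, ?_, ?_⟩
      · rw [Subgroup.card_map_of_injective e.symm.permCongrHom.injective,
          Subgroup.card_map_of_injective hext, hc1]
      · rw [Nat.log_of_one_lt_of_le (by omega) hnp]
        exact derivedSeries_map_of_injective _ e.symm.permCongrHom.injective _ _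
          (derivedSeries_map_of_injective _ hext _ _ hd1)

end Cfsg.Agent.Lib.Helper44
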