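import Mathlib
import Cfsg.Agent.Lib.Helper44.DerLen

set_option autoImplicit false

universe u

namespace Cfsg.Agent.Lib.Helper44

open scoped commutatorElement
open Matrix

section twin2

variable {G : Type*} [Group G]

theorem twin_map {G' : Type*} [Group G'] (f : G →* G') (H : Subgroup G) (d : ℕ) {p : G × G}
    (hp : p ∈ Twin H d) : (f p.1, f p.2) ∈ Twin (H.map f) d := by
  induction d generalizing p with
  | zero =>
    obtain ⟨h1, h2⟩ := hp
    refine ⟨⟨p.1, h1, rfl⟩, ?_⟩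
    show f p.2 = (f p.1)⁻¹
    rw [h2, map_inv]
  | succ d ih =>
    obtain ⟨a, ha, b, hb, rfl⟩ := hp
    refine ⟨_, ih ha, _, ih hb, ?_⟩
    refine Prod.ext ?_ ?_
    · exact map_commutatorElement f _ _
    · exact map_commutatorElement f _ _

/-- Doubling for an arbitrary element `s` such that `H` commutes with its conjugate. -/
theorem twin_double' (H K : Subgroup G) (s : G) (hHK : H ≤ K) (hsK : s ∈ K)
    (hcomm : ∀ x ∈ H, ∀ y ∈ H, x * (s * y * s⁻¹) = (s * y * s⁻¹) * x) (d : ℕ) {p : G × G}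
    (hp : p ∈ Twin H d) :
    (p.1 * (s * p.2 * s⁻¹), p.2 * (s⁻¹ * p.1 * s)) ∈ Twin K (d + 1) := by
  have hcomm' : ∀ x ∈ H, ∀ y ∈ H, x * (s⁻¹ * y * s) = (s⁻¹ * y * s) * x := by
    intro x hx y hy
    calc x * (s⁻¹ * y * s) = s⁻¹ * ((s * x * s⁻¹) * y) * s := by group
      _ = s⁻¹ * (y * (s * x * s⁻¹)) * s := by rw [hcomm y hy x hx]
      _ = (s⁻¹ * y * s) * x := by group
  induction d generalizing p with
  | zero =>
    obtain ⟨h1, h2⟩ := hp
    refine ⟨(p.1, p.1⁻¹), ⟨hHK h1, rfl⟩, (s, s⁻¹), ⟨hsK, rfl⟩, ?_⟩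
    rw [h2]
    refine Prod.ext ?_ ?_
    · show p.1 * (s * p.1⁻¹ * s⁻¹) = ⁅p.1, s⁆
      rw [commutatorElement_def]
      group
    · show p.1⁻¹ * (s⁻¹ * p.1 * s) = ⁅p.1⁻¹, s⁻¹⁆
      rw [commutatorElement_def]
      group
  | succ d ih =>
    obtain ⟨a, ha, b, hb, rfl⟩ := hp
    have ha' := ih ha
    have hb' := ih hb
    refine ⟨_, ha', _, hb', ?_⟩
    obtain ⟨ha1, ha2⟩ := twin_mem d ha
    obtain ⟨hb1, hb2⟩ := twin_mem d hb
    have hB : ∀ y ∈ H, s * y * s⁻¹ ∈ H.map (MulAut.conj s).toMonoidHom :=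
      fun y hy => ⟨y, hy, rfl⟩
    have hAB : ∀ x ∈ H, ∀ y ∈ H.map (MulAut.conj s).toMonoidHom, x * y = y * x := by
      rintro x hx _ ⟨y, hy, rfl⟩
      exact hcomm x hx y hy
    have hB' : ∀ y ∈ H, s⁻¹ * y * s ∈ H.map (MulAut.conj s⁻¹).toMonoidHom := by
      intro y hy
      refine ⟨y, hy, ?_⟩
      show s⁻¹ * y * s⁻¹⁻¹ = s⁻¹ * y * s
      rw [inv_inv]
    have hAB' : ∀ x ∈ H, ∀ y ∈ H.map (MulAut.conj s⁻¹).toMonoidHom, x * y = y * x := by
      rintro x hx _ ⟨y, hy, rfl⟩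
      show x * (s⁻¹ * y * s⁻¹⁻¹) = (s⁻¹ * y * s⁻¹⁻¹) * x
      rw [inv_inv]
      exact hcomm' x hx y hy
    have hconjc : ∀ x y : G, s * ⁅x, y⁆ * s⁻¹ = ⁅s * x * s⁻¹, s * y * s⁻¹⁆ := by
      intro x y
      rw [commutatorElement_def, commutatorElement_def]
      group
    have hconjc' : ∀ x y : G, s⁻¹ * ⁅x, y⁆ * s = ⁅s⁻¹ * x * s, s⁻¹ * y * s⁆ := by
      intro x y
      rw [commutatorElement_def, commutatorElement_def]
      group
    refine Prod.ext ?_ ?_
    · show ⁅a.1, b.1⁆ * (s * ⁅a.2, b.2⁆ * s⁻¹) =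
        ⁅a.1 * (s * a.2 * s⁻¹), b.1 * (s * b.2 * s⁻¹)⁆
      rw [hconjc, comm_mul_comm H _ hAB ha1 hb1 (hB _ ha2) (hB _ hb2)]
    · show ⁅a.2, b.2⁆ * (s⁻¹ * ⁅a.1, b.1⁆ * s) =
        ⁅a.2 * (s⁻¹ * a.1 * s), b.2 * (s⁻¹ * b.1 * s)⁆
      rw [hconjc', comm_mul_comm H _ hAB' ha2 hb2 (hB' _ ha1) (hB' _ hb1)]

end twin2

section wr

open RegularWreathProduct

variable {D Q : Type*} [Group D] [Group Q] [DecidableEq Q]

/-- The embedding of `D` at the coordinate `1` of the base of `D ≀ᵣ Q`. -/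
def wrSingle : D →* D ≀ᵣ Q where
  toFun d := ⟨Pi.mulSingle 1 d, 1⟩
  map_one' := by
    apply RegularWreathProduct.ext
    · show (Pi.mulSingle (1 : Q) (1 : D) : Q → D) = 1
      exact Pi.mulSingle_one (M := fun _ : Q => D) (1 : Q)
    · rfl
  map_mul' a b := by
    apply RegularWreathProduct.ext
    · show Pi.mulSingle (1 : Q) (a * b) =
        Pi.mulSingle (1 : Q) a * fun x => (Pi.mulSingle (1 : Q) b : Q → D) ((1 : Q)⁻¹ * x)
      rw [Pi.mulSingle_mul]
      congr 1
      funext x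
      rw [inv_one, one_mul]
    · show (1 : Q) = 1 * 1
      rw [one_mul]

theorem wrSingle_left (d : D) : (wrSingle (Q := Q) d).left = Pi.mulSingle 1 d := rfl

theorem wrSingle_right (d : D) : (wrSingle (Q := Q) d).right = 1 := rfl

theorem wr_conj_inl (r : Q) (b : D) :
    (inl r : D ≀ᵣ Q) * wrSingle b * (inl r)⁻¹ = ⟨Pi.mulSingle r b, 1⟩ := by
  apply RegularWreathProduct.ext
  · funext x
    show ((1 : Q → D) * fun y => (Pi.mulSingle (1 : Q) b : Q → D) (r⁻¹ * y)) x *
      ((1 : Q → D)⁻¹ (r * ((r * 1)⁻¹ * x))) = (Pi.mulSingle r b : Q → D) x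
    rw [Pi.mul_apply, Pi.one_apply, one_mul, Pi.inv_apply, Pi.one_apply, inv_one, mul_one]
    by_cases h : x = r
    · rw [h, inv_mul_cancel, Pi.mulSingle_eq_same, Pi.mulSingle_eq_same]
    · rw [Pi.mulSingle_eq_of_ne h, Pi.mulSingle_eq_of_ne]
      intro h'
      apply h
      rw [inv_mul_eq_one] at h'
      exact h'.symm
  · show r * 1 * r⁻¹ = 1
    rw [mul_one, mul_inv_cancel]

/-- Twin commutators of depth `d` in `D` give twin commutators of depth `d + 1` in `D ≀ᵣ Q`. -/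
theorem wr_twin_step (q : Q) (hq : q ≠ 1) (d : ℕ) (x x' : D) (hx : x ≠ 1) (hx' : x' ≠ 1)
    (htw : (x, x') ∈ Twin (⊤ : Subgroup D) d) :
    ∃ X X' : D ≀ᵣ Q, X ≠ 1 ∧ X' ≠ 1 ∧ (X, X') ∈ Twin (⊤ : Subgroup (D ≀ᵣ Q)) (d + 1) := by
  have hq' : q⁻¹ ≠ 1 := fun h => hq (inv_eq_one.mp h)
  obtain ⟨s, hsdef⟩ : ∃ s : D ≀ᵣ Q, s = inl q := ⟨_, rfl⟩
  have hs1 : ∀ b : D, s * wrSingle b * s⁻¹ = ⟨Pi.mulSingle q b, 1⟩ := by
    intro b
    rw [hsdef]
    exact wr_conj_inl q b
  have hs2 : ∀ b : D, s⁻¹ * wrSingle b * s = ⟨Pi.mulSingle q⁻¹ b, 1⟩ := by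
    intro b
    have e : s = (inl q⁻¹ : D ≀ᵣ Q)⁻¹ := by rw [hsdef, map_inv, inv_inv]
    have e' : s⁻¹ = (inl q⁻¹ : D ≀ᵣ Q) := by rw [e, inv_inv]
    rw [e', e]
    exact wr_conj_inl q⁻¹ b
  have h1 := twin_map (wrSingle (Q := Q)) ⊤ d htw
  have hcomm : ∀ a ∈ (⊤ : Subgroup D).map (wrSingle (Q := Q)),
      ∀ b ∈ (⊤ : Subgroup D).map (wrSingle (Q := Q)), a * (s * b * s⁻¹) = (s * b * s⁻¹) * a := by
    rintro _ ⟨a, -, rfl⟩ _ ⟨b, -, rfl⟩
    rw [hs1]
    apply RegularWreathProduct.ext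
    · show (Pi.mulSingle (1 : Q) a : Q → D) *
          (fun y => (Pi.mulSingle q b : Q → D) ((1 : Q)⁻¹ * y)) =
        (Pi.mulSingle q b : Q → D) * fun y => (Pi.mulSingle (1 : Q) a : Q → D) ((1 : Q)⁻¹ * y)
      have e1 : (fun y => (Pi.mulSingle q b : Q → D) ((1 : Q)⁻¹ * y)) = Pi.mulSingle q b := by
        funext y
        rw [inv_one, one_mul]
      have e2 : (fun y => (Pi.mulSingle (1 : Q) a : Q → D) ((1 : Q)⁻¹ * y)) =
          Pi.mulSingle 1 a := by
        funext y
        rw [inv_one, one_mul]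
      rw [e1, e2]
      exact (Pi.mulSingle_commute (f := fun _ : Q => D) (fun h : (1 : Q) = q => hq h.symm) a b).eq
    · rfl
  have h2 := twin_double' _ (⊤ : Subgroup (D ≀ᵣ Q)) s le_top (Subgroup.mem_top s) hcomm d h1
  refine ⟨_, _, ?_, ?_, h2⟩
  · intro h
    have h3 := congrFun (congrArg RegularWreathProduct.left h) 1
    rw [hs1] at h3
    have h4 : (Pi.mulSingle (1 : Q) x : Q → D) 1 *
        (Pi.mulSingle q x' : Q → D) ((1 : Q)⁻¹ * 1) = 1 := h3
    rw [Pi.mulSingle_eq_same, inv_one, one_mul,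
      Pi.mulSingle_eq_of_ne (fun h : (1 : Q) = q => hq h.symm), mul_one] at h4
    exact hx h4
  · intro h
    have h3 := congrFun (congrArg RegularWreathProduct.left h) 1
    rw [hs2] at h3
    have h4 : (Pi.mulSingle (1 : Q) x' : Q → D) 1 *
        (Pi.mulSingle q⁻¹ x : Q → D) ((1 : Q)⁻¹ * 1) = 1 := h3
    rw [Pi.mulSingle_eq_same, inv_one, one_mul,
      Pi.mulSingle_eq_of_ne (fun h : (1 : Q) = q⁻¹ => hq' h.symm), mul_one] at h4
    exact hx' h4

end wr

section wrmat

open RegularWreathProduct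

set_option linter.unusedSectionVars false

variable {F : Type*} [Field F] {D : Type*} [Group D] {Q : Type} [Group Q] [Fintype Q]
  [DecidableEq Q] {ι : Type} [Fintype ι] [DecidableEq ι]

/-- The matrix of an element of the wreath product acting on `ι × Q`. -/
def wrMatFun (ρ : D →* GL ι F) (w : D ≀ᵣ Q) : Matrix (ι × Q) (ι × Q) F :=
  fun a b => if a.2 = w.right * b.2 then ((ρ (w.left a.2) : GL ι F) : Matrix ι ι F) a.1 b.1 else 0

theorem wrMatFun_apply (ρ : D →* GL ι F) (w : D ≀ᵣ Q) (a b : ι × Q) :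
    wrMatFun ρ w a b =
      if a.2 = w.right * b.2 then ((ρ (w.left a.2) : GL ι F) : Matrix ι ι F) a.1 b.1 else 0 := rfl

/-- The linear representation of the wreath product. -/
def wrMatHom (ρ : D →* GL ι F) : D ≀ᵣ Q →* Matrix (ι × Q) (ι × Q) F where
  toFun := wrMatFun ρ
  map_one' := by
    ext a b
    rw [wrMatFun_apply]
    show (if a.2 = 1 * b.2 then ((ρ ((1 : Q → D) a.2) : GL ι F) : Matrix ι ι F) a.1 b.1 else 0) =
      (1 : Matrix (ι × Q) (ι × Q) F) a b
    rw [one_mul, Pi.one_apply, map_one, Units.val_one, Matrix.one_apply, Matrix.one_apply]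
    by_cases h2 : a.2 = b.2
    · by_cases h1 : a.1 = b.1
      · rw [if_pos h2, if_pos h1, if_pos (Prod.ext h1 h2)]
      · rw [if_pos h2, if_neg h1, if_neg (fun h => h1 (congrArg Prod.fst h))]
    · rw [if_neg h2, if_neg (fun h => h2 (congrArg Prod.snd h))]
  map_mul' u v := by
    ext a c
    have key : ∀ y : Q, y ≠ v.right * c.2 →
        (∑ i : ι, wrMatFun ρ u a (i, y) * wrMatFun ρ v (i, y) c) = 0 := by
      intro y hy
      apply Finset.sum_eq_zero
      intro i _
      have e : wrMatFun ρ v (i, y) c = 0 := by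
        rw [wrMatFun_apply]
        exact if_neg hy
      rw [e, mul_zero]
    rw [Matrix.mul_apply, Fintype.sum_prod_type_right,
      Finset.sum_eq_single (v.right * c.2) (fun y _ hy => key y hy)
        (fun h => absurd (Finset.mem_univ _) h)]
    have e1 : ∀ i : ι, wrMatFun ρ v (i, v.right * c.2) c =
        ((ρ (v.left (v.right * c.2)) : GL ι F) : Matrix ι ι F) i c.1 := by
      intro i
      rw [wrMatFun_apply]
      exact if_pos rfl
    have e3 : wrMatFun ρ (u * v) a c = if a.2 = u.right * v.right * c.2 then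
        ((ρ (u.left a.2 * v.left (u.right⁻¹ * a.2)) : GL ι F) : Matrix ι ι F) a.1 c.1 else 0 :=
      rfl
    symm
    show (∑ i : ι, wrMatFun ρ u a (i, v.right * c.2) * wrMatFun ρ v (i, v.right * c.2) c) =
      wrMatFun ρ (u * v) a c
    rw [e3]
    by_cases h : a.2 = u.right * (v.right * c.2)
    · have h' : a.2 = u.right * v.right * c.2 := by rw [mul_assoc]; exact h
      have h'' : u.right⁻¹ * a.2 = v.right * c.2 := by rw [h]; group
      have e2 : ∀ i : ι, wrMatFun ρ u a (i, v.right * c.2) =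
          ((ρ (u.left a.2) : GL ι F) : Matrix ι ι F) a.1 i := by
        intro i
        rw [wrMatFun_apply]
        exact if_pos h
      have hsum : (∑ i : ι, wrMatFun ρ u a (i, v.right * c.2) *
          wrMatFun ρ v (i, v.right * c.2) c) =
          ∑ i : ι, ((ρ (u.left a.2) : GL ι F) : Matrix ι ι F) a.1 i *
            ((ρ (v.left (v.right * c.2)) : GL ι F) : Matrix ι ι F) i c.1 :=
        Finset.sum_congr rfl (fun i _ => by rw [e1 i, e2 i])
      rw [if_pos h', hsum, map_mul, Units.val_mul, Matrix.mul_apply, h'']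
    · have h' : ¬ a.2 = u.right * v.right * c.2 := by rw [mul_assoc]; exact h
      have e2 : ∀ i : ι, wrMatFun ρ u a (i, v.right * c.2) = 0 := by
        intro i
        rw [wrMatFun_apply]
        exact if_neg h
      rw [if_neg h']
      apply Finset.sum_eq_zero
      intro i _
      rw [e2 i, zero_mul]

/-- The linear representation of the wreath product, in `GL`. -/
def wrGL (ρ : D →* GL ι F) : D ≀ᵣ Q →* GL (ι × Q) F := (wrMatHom ρ).toHomUnits

theorem wrGL_val (ρ : D →* GL ι F) (w : D ≀ᵣ Q) :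
    ((wrGL ρ w : GL (ι × Q) F) : Matrix (ι × Q) (ι × Q) F) = wrMatFun ρ w := rfl

theorem wrGL_injective [Nonempty ι] (ρ : D →* GL ι F) (hρ : Function.Injective ρ) :
    Function.Injective (wrGL (Q := Q) ρ) := by
  intro u v h
  have hm : wrMatFun ρ u = wrMatFun ρ v :=
    congrArg (fun g : GL (ι × Q) F => (g : Matrix (ι × Q) (ι × Q) F)) h
  have hr : u.right = v.right := by
    by_contra hne
    have h0 : ((ρ (u.left u.right) : GL ι F) : Matrix ι ι F) = 0 := by
      ext i j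
      have h1 := congrFun (congrFun hm (i, u.right)) (j, 1)
      rw [wrMatFun_apply, wrMatFun_apply] at h1
      have h2 : (if u.right = u.right * 1 then
          ((ρ (u.left u.right) : GL ι F) : Matrix ι ι F) i j else 0) =
          if u.right = v.right * 1 then
            ((ρ (v.left u.right) : GL ι F) : Matrix ι ι F) i j else 0 := h1
      rw [if_pos (mul_one _).symm, if_neg (by rw [mul_one]; exact hne)] at h2
      exact h2
    exact Units.ne_zero _ h0
  have hl : u.left = v.left := by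
    funext x
    apply hρ
    apply Units.ext
    ext i j
    have h1 := congrFun (congrFun hm (i, x)) (j, u.right⁻¹ * x)
    rw [wrMatFun_apply, wrMatFun_apply] at h1
    have h2 : (if x = u.right * (u.right⁻¹ * x) then
        ((ρ (u.left x) : GL ι F) : Matrix ι ι F) i j else 0) =
        if x = v.right * (u.right⁻¹ * x) then
          ((ρ (v.left x) : GL ι F) : Matrix ι ι F) i j else 0 := h1
    rw [if_pos (by group), if_pos (by rw [← hr]; group)] at h2
    exact h2
  exact RegularWreathProduct.ext hl hr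

end wrmat

section embed

variable {F : Type*} [Field F]

/-- `GL κ F` embeds into `GL (Fin n) F` when `κ` has at most `n` elements. -/
theorem exists_embed_GL (κ : Type) [Fintype κ] [DecidableEq κ] (n : ℕ)
    (h : Fintype.card κ ≤ n) : ∃ f : GL κ F →* GL (Fin n) F, Function.Injective f := by
  obtain ⟨e⟩ : Nonempty (κ ⊕ Fin (n - Fintype.card κ) ≃ Fin n) :=
    ⟨Fintype.equivOfCardEq (by simp; omega)⟩
  let g : Matrix κ κ F →* Matrix (κ ⊕ Fin (n - Fintype.card κ))
      (κ ⊕ Fin (n - Fintype.card κ)) F :=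
    { toFun := fun M => Matrix.fromBlocks M 0 0 1
      map_one' := Matrix.fromBlocks_one
      map_mul' := fun M N => by
        rw [Matrix.fromBlocks_multiply]
        simp }
  refine ⟨(Units.mapEquiv (Matrix.reindexAlgEquiv F F e).toMulEquiv).toMonoidHom.comp
    (Units.map g), ?_⟩
  intro a b hab
  have h1 : Units.map g a = Units.map g b :=
    (Units.mapEquiv (Matrix.reindexAlgEquiv F F e).toMulEquiv).injective hab
  apply Units.ext
  have h2 : g a.1 = g b.1 := congrArg Units.val h1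
  exact (Matrix.fromBlocks_inj.mp h2).1

end embed

section main

open RegularWreathProduct

/-- Iterated wreath products with `C_p` inside `GL_n(F)`: from twin commutators of depth `d` in a
`p`-group `D ≤ GL ι F` we get a `p`-subgroup of `GL_n(F)` of derived length greater than
`d + k`, provided `|ι| p^k ≤ n`. -/
theorem exists_pgroup_derived (p : ℕ) [hp : Fact p.Prime] {F : Type u} [Field F] (k : ℕ) :
    ∀ (D : Type u) [Group D] [Finite D], IsPGroup p D → ∀ (d : ℕ) (x x' : D), x ≠ 1 → x' ≠ 1 →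
      (x, x') ∈ Twin (⊤ : Subgroup D) d →
      ∀ (ι : Type) [Fintype ι] [DecidableEq ι] [Nonempty ι] (ρ : D →* GL ι F),
        Function.Injective ρ → ∀ n : ℕ, Fintype.card ι * p ^ k ≤ n →
      ∃ K : Subgroup (GL (Fin n) F), IsPGroup p K ∧ derivedSeries ↥K (d + k) ≠ ⊥ := by
  have hp0 : NeZero p := ⟨hp.out.ne_zero⟩
  have hp1 : Fact (1 < p) := ⟨hp.out.one_lt⟩
  induction k with
  | zero =>
    intro D _ _ hD d x x' hx hx' htw ι _ _ _ ρ hρ n hn
    obtain ⟨f, hf⟩ := exists_embed_GL (F := F) ι n (by simpa using hn)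
    refine ⟨(f.comp ρ).range,
      hD.of_surjective (f.comp ρ).rangeRestrict (f.comp ρ).rangeRestrict_surjective, ?_⟩
    have h1 : derivedSeries D d ≠ ⊥ := by
      intro hbot
      have h2 : x ∈ derivedSeries D d :=
        map_derivedSeries_le_derivedSeries (⊤ : Subgroup D).subtype d (twin_derived d htw)
      rw [hbot, Subgroup.mem_bot] at h2
      exact hx h2
    have hinj : Function.Injective (f.comp ρ) := hf.comp hρ
    exact derivedSeries_ne_bot_of_mulEquiv (MonoidHom.ofInjective hinj) d h1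
  | succ k ih =>
    intro D _ _ hD d x x' hx hx' htw ι _ _ _ ρ hρ n hn
    have hq : Multiplicative.ofAdd (1 : ZMod p) ≠ 1 := by
      intro h
      have h1 : (1 : ZMod p) = 0 := Multiplicative.ofAdd.injective h
      exact one_ne_zero h1
    obtain ⟨X, X', hX, hX', hXtw⟩ :=
      wr_twin_step (Q := Multiplicative (ZMod p)) (Multiplicative.ofAdd 1) hq d x x' hx hx' htw
    have hD' : IsPGroup p (D ≀ᵣ Multiplicative (ZMod p)) := by
      obtain ⟨a, ha⟩ := IsPGroup.iff_card.mp hD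
      apply IsPGroup.of_card (n := a * p + 1)
      rw [RegularWreathProduct.card, ha, Nat.card_eq_fintype_card (α := Multiplicative (ZMod p)),
        Fintype.card_multiplicative, ZMod.card, ← pow_mul, pow_succ]
    have hcard : Fintype.card (ι × Multiplicative (ZMod p)) * p ^ k ≤ n := by
      rw [Fintype.card_prod, Fintype.card_multiplicative, ZMod.card]
      calc Fintype.card ι * p * p ^ k = Fintype.card ι * p ^ (k + 1) := by ring
        _ ≤ n := hn
    obtain ⟨K, hK, hKd⟩ := ih (D ≀ᵣ Multiplicative (ZMod p)) hD' (d + 1) X X' hX hX' hXtw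
      (ι × Multiplicative (ZMod p)) (wrGL ρ) (wrGL_injective ρ hρ) n hcard
    refine ⟨K, hK, ?_⟩
    rw [show d + (k + 1) = d + 1 + k by ring]
    exact hKd

end main

end Cfsg.Agent.Lib.Helper44
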