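import Mathlib
import Cfsg.Agent.Lib.Helper44.DerLen
import Cfsg.Agent.Lib.Helper44.PSylPerm
import Cfsg.Agent.Lib.Helper44.WreathAbs
import Cfsg.Agent.Lib.Helper44.DiagModel

set_option autoImplicit false

universe u

namespace Cfsg.Agent.Lib.Helper44

open Matrix

section arith

variable (p : ℕ) [hp : Fact p.Prime]

theorem vp_finset_prod {ι : Type*} (s : Finset ι) (f : ι → ℕ) (h : ∀ i ∈ s, f i ≠ 0) :
    padicValNat p (∏ i ∈ s, f i) = ∑ i ∈ s, padicValNat p (f i) := by
  classical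
  induction s using Finset.induction_on with
  | empty => simp
  | insert a s ha ih =>
    rw [Finset.prod_insert ha, Finset.sum_insert ha,
      padicValNat.mul (h a (Finset.mem_insert_self a s))
        (Finset.prod_ne_zero_iff.mpr (fun i hi => h i (Finset.mem_insert_of_mem hi))),
      ih (fun i hi => h i (Finset.mem_insert_of_mem hi))]

theorem vp_card_GL_aux (q : ℕ) (hpq : ¬ p ∣ q) (hq2 : 2 ≤ q) (n : ℕ) :
    padicValNat p (∏ i : Fin n, (q ^ n - q ^ (i : ℕ))) =
      ∑ j ∈ Finset.range n, padicValNat p (q ^ (j + 1) - 1) := by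
  rw [Fin.prod_univ_eq_prod_range (fun i => q ^ n - q ^ i) n, vp_finset_prod]
  · rw [← Finset.sum_range_reflect]
    apply Finset.sum_congr rfl
    intro j hj
    rw [Finset.mem_range] at hj
    have e : q ^ n - q ^ (n - 1 - j) = q ^ (n - 1 - j) * (q ^ (j + 1) - 1) := by
      have h1 : n = (n - 1 - j) + (j + 1) := by omega
      conv_lhs => rw [h1, pow_add]
      rw [Nat.mul_sub, mul_one]
      congr 2
      omega
    have h2 : q ^ (j + 1) - 1 ≠ 0 := by
      have := Nat.one_lt_pow (n := j + 1) (by omega) (by omega : 1 < q)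
      omega
    rw [e, padicValNat.mul (pow_ne_zero _ (by omega)) h2,
      padicValNat.eq_zero_of_not_dvd (fun h => hpq (hp.out.dvd_of_dvd_pow h)), zero_add]
  · intro i hi
    rw [Finset.mem_range] at hi
    have := Nat.pow_lt_pow_right (by omega : 1 < q) hi
    omega

theorem dvd_pow_sub_one_iff (q : ℕ) (hq : 1 ≤ q) (j : ℕ) :
    p ∣ q ^ j - 1 ↔ orderOf (q : ZMod p) ∣ j := by
  rw [orderOf_dvd_iff_pow_eq_one, ← ZMod.natCast_eq_zero_iff,
    Nat.cast_sub (Nat.one_le_pow _ _ hq), Nat.cast_pow, Nat.cast_one, sub_eq_zero]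

theorem orderOf_zmod_pos (q : ℕ) (hpq : ¬ p ∣ q) : 0 < orderOf (q : ZMod p) := by
  rw [orderOf_pos_iff, isOfFinOrder_iff_pow_eq_one]
  refine ⟨p - 1, ?_, ZMod.pow_card_sub_one_eq_one ?_⟩
  · have := hp.out.two_le
    omega
  · intro h
    exact hpq ((ZMod.natCast_eq_zero_iff q p).mp h)

theorem vp_pow_sub_one (hp2 : p ≠ 2) (q : ℕ) (hpq : ¬ p ∣ q) (hq2 : 2 ≤ q) (j : ℕ) (hj : j ≠ 0) :
    padicValNat p (q ^ j - 1) =
      if orderOf (q : ZMod p) ∣ j then
        padicValNat p (q ^ orderOf (q : ZMod p) - 1) + padicValNat p (j / orderOf (q : ZMod p))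
      else 0 := by
  have he := orderOf_zmod_pos p q hpq
  by_cases h : orderOf (q : ZMod p) ∣ j
  · rw [if_pos h]
    obtain ⟨m, hm⟩ := h
    have hm0 : m ≠ 0 := by
      rintro rfl
      exact hj (by rw [hm, mul_zero])
    have hodd : Odd p := hp.out.odd_of_ne_two hp2
    have h1 : 1 < q ^ orderOf (q : ZMod p) := Nat.one_lt_pow (by omega) (by omega)
    have h2 : p ∣ q ^ orderOf (q : ZMod p) - 1 :=
      (dvd_pow_sub_one_iff p q (by omega) _).mpr dvd_rfl
    have h3 : ¬ p ∣ q ^ orderOf (q : ZMod p) := fun h => hpq (hp.out.dvd_of_dvd_pow h)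
    have key := padicValNat.pow_sub_pow hodd h1 h2 h3 hm0
    rw [one_pow, ← pow_mul, ← hm] at key
    rw [key, hm, Nat.mul_div_cancel_left _ he]
  · rw [if_neg h]
    apply padicValNat.eq_zero_of_not_dvd
    intro h'
    exact h ((dvd_pow_sub_one_iff p q (by omega) j).mp h')

theorem vp_sum (hp2 : p ≠ 2) (q : ℕ) (hpq : ¬ p ∣ q) (hq2 : 2 ≤ q) (n : ℕ) :
    ∑ j ∈ Finset.range n, padicValNat p (q ^ (j + 1) - 1) =
      (n / orderOf (q : ZMod p)) * padicValNat p (q ^ orderOf (q : ZMod p) - 1) +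
        padicValNat p (n / orderOf (q : ZMod p)).factorial := by
  have he := orderOf_zmod_pos p q hpq
  induction n with
  | zero => simp
  | succ n ih =>
    rw [Finset.sum_range_succ, ih, vp_pow_sub_one p hp2 q hpq hq2 (n + 1) (by omega),
      Nat.succ_div]
    by_cases h : orderOf (q : ZMod p) ∣ n + 1
    · rw [if_pos h, if_pos h]
      rw [Nat.factorial_succ, padicValNat.mul (Nat.succ_ne_zero _) (Nat.factorial_ne_zero _)]
      ring
    · rw [if_neg h, if_neg h]
      simp

theorem vp_card_GL (hp2 : p ≠ 2) {F : Type*} [Field F] [Fintype F]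
    (hpq : ¬ p ∣ Fintype.card F) (n : ℕ) :
    padicValNat p (Nat.card (GL (Fin n) F)) =
      (n / orderOf ((Fintype.card F : ℕ) : ZMod p)) *
        padicValNat p (Fintype.card F ^ orderOf ((Fintype.card F : ℕ) : ZMod p) - 1) +
        padicValNat p (n / orderOf ((Fintype.card F : ℕ) : ZMod p)).factorial := by
  have hq2 : 2 ≤ Fintype.card F := Fintype.one_lt_card
  rw [Matrix.card_GL_field, vp_card_GL_aux p _ hpq hq2, vp_sum p hp2 _ hpq hq2]

/-- A subgroup whose order is the full `p`-part is isomorphic to every Sylow `p`-subgroup. -/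
theorem sylow_equiv_of_card_p {G : Type*} [Group G] [Finite G] (W : Subgroup G)
    (hcW : Nat.card ↥W = p ^ padicValNat p (Nat.card G)) (S : Sylow p G) :
    Nonempty (↥W ≃* ↥(S : Subgroup G)) := by
  have hWp : IsPGroup p ↥W := IsPGroup.of_card hcW
  have hidx : ¬ p ∣ W.index := by
    rintro ⟨k, hk⟩
    have h1 : Nat.card ↥W * W.index = Nat.card G := Subgroup.card_mul_index W
    have h2 : p ^ (padicValNat p (Nat.card G) + 1) ∣ Nat.card G := by
      refine ⟨k, ?_⟩
      calc Nat.card G = Nat.card ↥W * W.index := h1.symm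
        _ = p ^ padicValNat p (Nat.card G) * (p * k) := by rw [hcW, hk]
        _ = p ^ (padicValNat p (Nat.card G) + 1) * k := by ring
    exact pow_succ_padicValNat_not_dvd (Nat.card_pos.ne') h2
  exact ⟨Sylow.equiv (hWp.toSylow hidx) S⟩

end arith

section torus

/-- A commutative subgroup of `GL_e(q)` of order the `p`-part of `q^e - 1` (inside the
multiplicative group of the field with `q^e` elements). -/
theorem exists_torus (p : ℕ) [hp : Fact p.Prime] {F : Type*} [Field F] [Fintype F] (e : ℕ)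
    (he : e ≠ 0) :
    ∃ C : Subgroup (GL (Fin e) F), (∀ a ∈ C, ∀ b ∈ C, a * b = b * a) ∧
      Nat.card C = p ^ padicValNat p (Fintype.card F ^ e - 1) := by
  classical
  obtain ⟨p₀, hchar⟩ := CharP.exists F
  have := hchar
  have hp₀ : Fact p₀.Prime := ⟨CharP.char_is_prime F p₀⟩
  have : NeZero e := ⟨he⟩
  have hfr : Module.finrank F (FiniteField.Extension F p₀ e) = e :=
    FiniteField.finrank_extension F p₀ e
  obtain ⟨b⟩ : Nonempty (Module.Basis (Fin e) F (FiniteField.Extension F p₀ e)) :=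
    ⟨Module.finBasisOfFinrankEq F _ hfr⟩
  obtain ⟨φ, hφdef⟩ : ∃ φ : FiniteField.Extension F p₀ e →* Matrix (Fin e) (Fin e) F,
    φ = (Algebra.leftMulMatrix b).toMonoidHom := ⟨_, rfl⟩
  have hφ : Function.Injective φ := by
    rw [hφdef]
    exact Algebra.leftMulMatrix_injective b
  have hμ : Function.Injective (Units.map φ) := Units.map_injective hφ
  obtain ⟨P⟩ : Nonempty (Sylow p (FiniteField.Extension F p₀ e)ˣ) := inferInstance
  refine ⟨(P : Subgroup (FiniteField.Extension F p₀ e)ˣ).map (Units.map φ), ?_, ?_⟩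
  · rintro _ ⟨a, -, rfl⟩ _ ⟨b, -, rfl⟩
    rw [← map_mul, ← map_mul, mul_comm]
  · rw [Subgroup.card_map_of_injective hμ, Sylow.card_eq_multiplicity,
      Nat.factorization_def _ hp.out, Nat.card_units, FiniteField.natCard_extension,
      Nat.card_eq_fintype_card]

end torus

section blockmodel

set_option linter.unusedSectionVars false

variable {F : Type*} [Field F] (B T L : Type) [Fintype B] [DecidableEq B] [Fintype T]
  [DecidableEq T] [Fintype L] [DecidableEq L] (C : Subgroup (GL B F))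

/-- Block diagonal matrices with blocks indexed by `T`, identity on `L`. -/
def bdHom : (T → Matrix B B F) →* Matrix ((B × T) ⊕ L) ((B × T) ⊕ L) F where
  toFun d := Matrix.fromBlocks (Matrix.blockDiagonal d) 0 0 1
  map_one' := by
    rw [Matrix.blockDiagonal_one]
    exact Matrix.fromBlocks_one
  map_mul' d d' := by
    show Matrix.fromBlocks (Matrix.blockDiagonal (fun t => d t * d' t)) 0 0 1 =
      Matrix.fromBlocks (Matrix.blockDiagonal d) 0 0 1 *
        Matrix.fromBlocks (Matrix.blockDiagonal d') 0 0 1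
    rw [Matrix.fromBlocks_multiply, Matrix.blockDiagonal_mul]
    simp

/-- Coercion of the base group to matrices. -/
def coeC : (T → ↥C) →* (T → Matrix B B F) where
  toFun f := fun t => ((f t : GL B F) : Matrix B B F)
  map_one' := rfl
  map_mul' _ _ := rfl

/-- The base group `C^T` in `GL`. -/
def βB : (T → ↥C) →* GL ((B × T) ⊕ L) F := ((bdHom B T L).comp (coeC B T C)).toHomUnits

theorem βB_val (f : T → ↥C) :
    ((βB B T L C f : GL ((B × T) ⊕ L) F) : Matrix ((B × T) ⊕ L) ((B × T) ⊕ L) F) =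
      Matrix.fromBlocks (Matrix.blockDiagonal (fun t => ((f t : GL B F) : Matrix B B F))) 0 0 1 :=
  rfl

/-- Permutations of the blocks. -/
def blockPermB : Equiv.Perm T →* Equiv.Perm ((B × T) ⊕ L) where
  toFun σ := Equiv.sumCongr (Equiv.prodCongr (Equiv.refl B) σ) (Equiv.refl L)
  map_one' := by ext (⟨a, t⟩ | l) <;> rfl
  map_mul' σ τ := by ext (⟨a, t⟩ | l) <;> rfl

theorem blockPermB_inl (σ : Equiv.Perm T) (a : B) (t : T) :
    blockPermB B T L σ (Sum.inl (a, t)) = Sum.inl (a, σ t) := rfl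

theorem blockPermB_inr (σ : Equiv.Perm T) (l : L) :
    blockPermB B T L σ (Sum.inr l) = Sum.inr l := rfl

theorem blockPermB_symm_inl (σ : Equiv.Perm T) (a : B) (t : T) :
    (blockPermB B T L σ).symm (Sum.inl (a, t)) = Sum.inl (a, σ.symm t) := rfl

theorem blockPermB_symm_inr (σ : Equiv.Perm T) (l : L) :
    (blockPermB B T L σ).symm (Sum.inr l) = Sum.inr l := rfl

/-- Permutations of the blocks, in `GL`. -/
def πB : Equiv.Perm T →* GL ((B × T) ⊕ L) F := (pmatGL F).comp (blockPermB B T L)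

theorem πB_val (σ : Equiv.Perm T) :
    ((πB B T L σ : GL ((B × T) ⊕ L) F) : Matrix ((B × T) ⊕ L) ((B × T) ⊕ L) F)
      = pmat (blockPermB B T L σ) := rfl

theorem bmodel_conj (σ : Equiv.Perm T) (d : T → ↥C) :
    (πB B T L σ : GL ((B × T) ⊕ L) F) * βB B T L C d * (πB B T L σ)⁻¹ =
      βB B T L C (d ∘ σ.symm) := by
  rw [mul_inv_eq_iff_eq_mul]
  apply Units.ext
  show (pmat (blockPermB B T L σ) : Matrix ((B × T) ⊕ L) ((B × T) ⊕ L) F) *
      Matrix.fromBlocks (Matrix.blockDiagonal (fun t => ((d t : GL B F) : Matrix B B F))) 0 0 1 =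
    Matrix.fromBlocks (Matrix.blockDiagonal
      (fun t => ((d (σ.symm t) : GL B F) : Matrix B B F))) 0 0 1 * pmat (blockPermB B T L σ)
  ext i j
  rw [pmat_mul_apply, mul_pmat_apply]
  rcases i with ⟨a, t⟩ | l <;> rcases j with ⟨b, u⟩ | l'
  · simp only [blockPermB_symm_inl, blockPermB_inl, Matrix.fromBlocks_apply₁₁,
      Matrix.blockDiagonal_apply]
    by_cases h : t = σ u
    · have : σ.symm t = u := by rw [h]; simp
      simp [h]
    · have : σ.symm t ≠ u := fun h' => h (by rw [← h']; simp)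
      simp [h, this]
  · rfl
  · rfl
  · rfl

theorem βB_injective : Function.Injective (βB B T L C) := by
  intro p q h
  have hm : Matrix.fromBlocks (Matrix.blockDiagonal
        (fun t => ((p t : GL B F) : Matrix B B F))) 0 0 (1 : Matrix L L F) =
      Matrix.fromBlocks (Matrix.blockDiagonal
        (fun t => ((q t : GL B F) : Matrix B B F))) 0 0 (1 : Matrix L L F) :=
    congrArg (fun g : GL ((B × T) ⊕ L) F => (g :
      Matrix ((B × T) ⊕ L) ((B × T) ⊕ L) F)) h
  rw [Matrix.fromBlocks_inj] at hm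
  obtain ⟨h1, -, -, -⟩ := hm
  have h1' := Matrix.blockDiagonal_injective h1
  funext t
  exact Subtype.ext (Units.ext (congrFun h1' t))

theorem πB_injective [Nonempty B] : Function.Injective (πB B T L (F := F)) := by
  intro σ τ h
  have h3 := pmatGL_injective h
  obtain ⟨b₀⟩ := ‹Nonempty B›
  ext t
  have := congrArg (fun ρ : Equiv.Perm ((B × T) ⊕ L) => ρ (Sum.inl (b₀, t))) h3
  simp only [blockPermB_inl] at this
  exact (Prod.mk.inj (Sum.inl.inj this)).2

theorem bmodel_disjoint [Nonempty B] (S : Subgroup (Equiv.Perm T)) :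
    (βB B T L C).range ⊓ S.map (πB B T L) = ⊥ := by
  rw [eq_bot_iff]
  rintro x ⟨⟨a, rfl⟩, ⟨σ, -, hσ⟩⟩
  rw [Subgroup.mem_bot]
  obtain ⟨b₀⟩ := ‹Nonempty B›
  have hm : (pmat (blockPermB B T L σ) : Matrix ((B × T) ⊕ L) ((B × T) ⊕ L) F) =
      Matrix.fromBlocks (Matrix.blockDiagonal
        (fun t => ((a t : GL B F) : Matrix B B F))) 0 0 1 :=
    congrArg (fun g : GL ((B × T) ⊕ L) F => (g :
      Matrix ((B × T) ⊕ L) ((B × T) ⊕ L) F)) hσ
  have h1 : σ = 1 := by
    ext t
    by_contra hne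
    have := congrFun (congrFun hm (Sum.inl (b₀, σ t))) (Sum.inl (b₀, t))
    simp only [pmat, blockPermB_inl, if_true, Matrix.fromBlocks_apply₁₁,
      Matrix.blockDiagonal_apply] at this
    have hne' : ¬ σ t = t := hne
    rw [if_neg hne'] at this
    exact one_ne_zero this
  rw [← hσ, h1, map_one]

end blockmodel

section main

/-- Derived length of the Sylow `p`-subgroups of `GL_n(q)`, `p` odd not dividing `q`. -/
theorem gl_sylow_derived (p : ℕ) [hp : Fact p.Prime] (hp2 : p ≠ 2) {F : Type u} [Field F]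
    [Fintype F] (hpq : ¬ p ∣ Fintype.card F) (n : ℕ)
    (hn : orderOf ((Fintype.card F : ℕ) : ZMod p) ≤ n) (P : Sylow p (GL (Fin n) F)) :
    derivedSeries ↥(P : Subgroup (GL (Fin n) F))
      (Nat.log p (n / orderOf ((Fintype.card F : ℕ) : ZMod p)) + 1) = ⊥ ∧
    derivedSeries ↥(P : Subgroup (GL (Fin n) F))
      (Nat.log p (n / orderOf ((Fintype.card F : ℕ) : ZMod p))) ≠ ⊥ := by
  classical
  obtain ⟨e, hedef⟩ : ∃ e, e = orderOf ((Fintype.card F : ℕ) : ZMod p) := ⟨_, rfl⟩
  have hcardGL := vp_card_GL p hp2 hpq (F := F) n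
  rw [← hedef] at hn hcardGL ⊢
  have he : 0 < e := by
    rw [hedef]
    exact orderOf_zmod_pos p _ hpq
  have hq2 : 2 ≤ Fintype.card F := Fintype.one_lt_card
  obtain ⟨w, hwdef⟩ : ∃ w, w = n / e := ⟨_, rfl⟩
  rw [← hwdef] at hcardGL ⊢
  have hw : 1 ≤ w := by
    rw [hwdef]
    exact Nat.div_pos hn he
  have hew : e * w ≤ n := by
    rw [hwdef]
    exact Nat.mul_div_le n e
  obtain ⟨C, hCcomm, hCc⟩ := exists_torus p (F := F) e he.ne'
  have hdvd : p ∣ Fintype.card F ^ e - 1 := by
    rw [dvd_pow_sub_one_iff p _ (by omega), hedef]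
  have hne0 : Fintype.card F ^ e - 1 ≠ 0 := by
    have := Nat.one_lt_pow (n := e) (by omega) (by omega : 1 < Fintype.card F)
    omega
  have ha : 1 ≤ padicValNat p (Fintype.card F ^ e - 1) := one_le_padicValNat_of_dvd hne0 hdvd
  have hfinGL : Finite (GL (Fin n) F) := inferInstance
  have hBne : Nonempty (Fin e) := ⟨⟨0, he⟩⟩
  constructor
  · -- upper bound via the model
    obtain ⟨Sy, hSc, hSd⟩ := exists_sylow_perm_p p w (Fin w) (by simp)
    obtain ⟨β, hβdef⟩ : ∃ β : (Fin w → ↥C) →* GL ((Fin e × Fin w) ⊕ Fin (n - e * w)) F,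
      β = βB (Fin e) (Fin w) (Fin (n - e * w)) C := ⟨_, rfl⟩
    obtain ⟨π, hπdef⟩ : ∃ π : Equiv.Perm (Fin w) →* GL ((Fin e × Fin w) ⊕ Fin (n - e * w)) F,
      π = πB (Fin e) (Fin w) (Fin (n - e * w)) := ⟨_, rfl⟩
    have hconj : ∀ (σ : Equiv.Perm (Fin w)) (f : Fin w → ↥C),
        π σ * β f * (π σ)⁻¹ = β (f ∘ σ.symm) := by
      intro σ f
      rw [hβdef, hπdef]
      exact bmodel_conj _ _ _ C σ f
    have hnorm : ∀ k ∈ Sy.map π, ∀ h ∈ β.range, k * h * k⁻¹ ∈ β.range := by
      rintro _ ⟨σ, -, rfl⟩ _ ⟨f, rfl⟩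
      exact ⟨_, (hconj σ f).symm⟩
    have hdisj : β.range ⊓ Sy.map π = ⊥ := by
      rw [hβdef, hπdef]
      exact bmodel_disjoint _ _ _ C Sy
    have hβinj : Function.Injective β := by
      rw [hβdef]
      exact βB_injective _ _ _ C
    have hπinj : Function.Injective π := by
      rw [hπdef]
      exact πB_injective _ _ _
    have hce : Fintype.card ((Fin e × Fin w) ⊕ Fin (n - e * w)) = Fintype.card (Fin n) := by
      simp only [Fintype.card_sum, Fintype.card_prod, Fintype.card_fin]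
      omega
    obtain ⟨ε⟩ : Nonempty ((Fin e × Fin w) ⊕ Fin (n - e * w) ≃ Fin n) :=
      ⟨Fintype.equivOfCardEq hce⟩
    obtain ⟨E, hEdef⟩ : ∃ E : GL ((Fin e × Fin w) ⊕ Fin (n - e * w)) F ≃* GL (Fin n) F,
      E = Units.mapEquiv (Matrix.reindexAlgEquiv F F ε).toMulEquiv := ⟨_, rfl⟩
    have hcW : Nat.card ↥(β.range ⊔ Sy.map π) = p ^ padicValNat p (Nat.card (GL (Fin n) F)) := by
      rw [card_sup_of_normalizes _ _ hnorm hdisj, card_range_of_inj _ hβinj,
        Subgroup.card_map_of_injective hπinj, hSc, Nat.card_fun, hCc, hcardGL]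
      simp only [Nat.card_eq_fintype_card, Fintype.card_fin]
      rw [← pow_mul, ← pow_add]
      congr 1
      ring
    have hcW' : Nat.card ↥((β.range ⊔ Sy.map π).map E.toMonoidHom) =
        p ^ padicValNat p (Nat.card (GL (Fin n) F)) := by
      rw [Subgroup.card_map_of_injective E.injective, hcW]
    obtain ⟨eqv⟩ := sylow_equiv_of_card_p p _ hcW' P
    have hd : derivedSeries ↥(β.range ⊔ Sy.map π) (Nat.log p w + 1) = ⊥ := by
      apply derivedSeries_sup_of_normalizes _ _ hnorm hdisj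
      · exact derivedSeries_map_of_injective π hπinj Sy _ hSd
      · apply derivedSeries_range_of_injective β hβinj
        apply derivedSeries_one_eq_bot_of_comm
        intro a b
        funext t
        exact Subtype.ext (hCcomm _ (a t).2 _ (b t).2)
    exact derivedSeries_eq_bot_of_mulEquiv eqv _
      (derivedSeries_map_of_injective E.toMonoidHom E.injective _ _ hd)
  · -- lower bound via an iterated wreath product
    have hCfin : Finite ↥C := inferInstance
    obtain ⟨g, hgC, hg1⟩ : ∃ g ∈ C, g ≠ 1 := by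
      by_contra hcon
      push Not at hcon
      have hbot : C = ⊥ := (Subgroup.eq_bot_iff_forall C).mpr hcon
      rw [hbot, Subgroup.card_bot] at hCc
      have h1 : 1 < p ^ padicValNat p (Fintype.card F ^ e - 1) :=
        Nat.one_lt_pow (by omega) hp.out.one_lt
      omega
    have hx : (⟨g, hgC⟩ : ↥C) ≠ 1 := fun h => hg1 (congrArg Subtype.val h)
    have hx' : (⟨g, hgC⟩ : ↥C)⁻¹ ≠ 1 := fun h => hx (inv_eq_one.mp h)
    have hle : Fintype.card (Fin e) * p ^ Nat.log p w ≤ n := by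
      rw [Fintype.card_fin]
      have h1 : p ^ Nat.log p w ≤ w := Nat.pow_log_le_self p (by omega)
      calc e * p ^ Nat.log p w ≤ e * w := Nat.mul_le_mul_left e h1
        _ ≤ n := hew
    obtain ⟨K, hK, hKd⟩ := exists_pgroup_derived p (F := F) (Nat.log p w) ↥C
      (IsPGroup.of_card hCc) 0 ⟨g, hgC⟩ (⟨g, hgC⟩ : ↥C)⁻¹ hx hx'
      ⟨Subgroup.mem_top _, rfl⟩ (Fin e) C.subtype C.subtype_injective n hle
    rw [zero_add] at hKd
    obtain ⟨P', hKP'⟩ := hK.exists_le_sylow
    have h3 : derivedSeries ↥(P' : Subgroup (GL (Fin n) F)) (Nat.log p w) ≠ ⊥ :=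
      derivedSeries_ne_bot_of_injective (Subgroup.inclusion hKP')
        (Subgroup.inclusion_injective hKP') _ hKd
    exact derivedSeries_ne_bot_of_mulEquiv (Sylow.equiv P' P) _ h3

end main

end Cfsg.Agent.Lib.Helper44
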