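import Mathlib
import Cfsg.Prelude.Def_Classical
import Cfsg.Agent.Lib.Helper44.GLRank
import Cfsg.Agent.Lib.Helper44.GLSylP

set_option autoImplicit false

universe u

namespace Cfsg.Agent.Lib.Helper44

open Matrix
open scoped commutatorElement

section generic

theorem derivedSeries_prod_eq_bot {X Y : Type*} [Group X] [Group Y] (d : ℕ)
    (hX : derivedSeries X d = ⊥) (hY : derivedSeries Y d = ⊥) : derivedSeries (X × Y) d = ⊥ := by
  rw [eq_bot_iff]
  intro x hx
  rw [Subgroup.mem_bot]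
  have h1 : (MonoidHom.fst X Y) x ∈ derivedSeries X d :=
    map_derivedSeries_le_derivedSeries _ d ⟨x, hx, rfl⟩
  have h2 : (MonoidHom.snd X Y) x ∈ derivedSeries Y d :=
    map_derivedSeries_le_derivedSeries _ d ⟨x, hx, rfl⟩
  rw [hX, Subgroup.mem_bot] at h1
  rw [hY, Subgroup.mem_bot] at h2
  exact Prod.ext h1 h2

theorem derivedSeries_eq_bot_of_le {G : Type*} [Group G] {a b : ℕ} (hab : a ≤ b)
    (h : derivedSeries G a = ⊥) : derivedSeries G b = ⊥ := by
  rw [eq_bot_iff, ← h]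
  exact derivedSeries_antitone G hab

theorem derivedSeries_subgroup_eq_bot {G : Type*} [Group G] {H K : Subgroup G} (hHK : H ≤ K)
    (d : ℕ) (h : derivedSeries ↥K d = ⊥) : derivedSeries ↥H d = ⊥ := by
  by_contra hne
  exact derivedSeries_ne_bot_of_injective (Subgroup.inclusion hHK)
    (Subgroup.inclusion_injective hHK) d hne h

/-- Transport of a derived length bound from a model subgroup of full `p`-part order. -/
theorem derivedSeries_sylow_of_model (p : ℕ) [Fact p.Prime] {G G' : Type*} [Group G] [Finite G]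
    [Group G'] (E : G' ≃* G) (W : Subgroup G')
    (hcW : Nat.card ↥W = p ^ padicValNat p (Nat.card G)) (d : ℕ)
    (h : derivedSeries ↥W d = ⊥) (S : Sylow p G) : derivedSeries ↥(S : Subgroup G) d = ⊥ := by
  have hc : Nat.card ↥(W.map E.toMonoidHom) = p ^ padicValNat p (Nat.card G) := by
    rw [Subgroup.card_map_of_injective E.injective, hcW]
  obtain ⟨eqv⟩ := sylow_equiv_of_card_p p _ hc S
  exact derivedSeries_eq_bot_of_mulEquiv eqv _
    (derivedSeries_map_of_injective E.toMonoidHom E.injective _ _ h)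

/-- The index-two extension of a commutative group is metabelian. -/
theorem derivedSeries_normExt {G : Type*} [Group G] (T : Subgroup G) (n : G) (hn2 : n * n ∈ T)
    (hnorm : ∀ t ∈ T, n * t * n⁻¹ ∈ T) (hcomm : ∀ s ∈ T, ∀ t ∈ T, s * t = t * s) :
    derivedSeries ↥(normExt T n hn2 hnorm) 2 = ⊥ := by
  have hnorm' : ∀ t ∈ T, n⁻¹ * t * n ∈ T := by
    intro t ht
    have e : n⁻¹ * t * n = (n * n)⁻¹ * (n * t * n⁻¹) * (n * n) := by group
    rw [e]
    exact T.mul_mem (T.mul_mem (T.inv_mem hn2) (hnorm t ht)) hn2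
  have hnormal : ∀ g ∈ normExt T n hn2 hnorm, ∀ t ∈ T, g * t * g⁻¹ ∈ T := by
    rintro g (hg | hg) t ht
    · exact T.mul_mem (T.mul_mem hg ht) (T.inv_mem hg)
    · have e : g * t * g⁻¹ = (g * n) * (n⁻¹ * t * n) * (g * n)⁻¹ := by group
      rw [e]
      exact T.mul_mem (T.mul_mem hg (hnorm' t ht)) (T.inv_mem hg)
  have h1 : derivedSeries ↥(normExt T n hn2 hnorm) 1 ≤ T.subgroupOf (normExt T n hn2 hnorm) := by
    rw [derivedSeries_succ, derivedSeries_zero, Subgroup.commutator_le]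
    rintro ⟨a, ha⟩ - ⟨b, hb⟩ -
    rw [Subgroup.mem_subgroupOf]
    show ⁅a, b⁆ ∈ T
    rcases ha with ha' | ha'
    · have e : ⁅a, b⁆ = a * (b * a⁻¹ * b⁻¹) := by
        rw [commutatorElement_def]
        group
      rw [e]
      exact T.mul_mem ha' (hnormal b hb _ (T.inv_mem ha'))
    · rcases hb with hb' | hb'
      · have e : ⁅a, b⁆ = (a * b * a⁻¹) * b⁻¹ := by
          rw [commutatorElement_def]
        rw [e]
        exact T.mul_mem (hnormal a (Or.inr ha') _ hb') (T.inv_mem hb')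
      · have e : ⁅a, b⁆ = (a * n) * (n⁻¹ * ((b * n) * (a * n)⁻¹) * n) * (b * n)⁻¹ := by
          rw [commutatorElement_def]
          group
        rw [e]
        exact T.mul_mem (T.mul_mem ha' (hnorm' _ (T.mul_mem hb' (T.inv_mem ha'))))
          (T.inv_mem hb')
  have h2 : ⁅T.subgroupOf (normExt T n hn2 hnorm), T.subgroupOf (normExt T n hn2 hnorm)⁆ = ⊥ := by
    rw [eq_bot_iff, Subgroup.commutator_le]
    rintro ⟨a, ha⟩ ha' ⟨b, hb⟩ hb'
    rw [Subgroup.mem_subgroupOf] at ha' hb'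
    rw [Subgroup.mem_bot, commutatorElement_eq_one_iff_mul_comm]
    exact Subtype.ext (hcomm a ha' b hb')
  rw [derivedSeries_succ, eq_bot_iff, ← h2]
  exact Subgroup.commutator_mono h1 h1

theorem gl_one_comm {F : Type*} [Field F] (a b : GL (Fin 1) F) : a * b = b * a := by
  apply Units.ext
  show a.1 * b.1 = b.1 * a.1
  ext i j
  fin_cases i
  fin_cases j
  simp [Matrix.mul_apply, mul_comm]

end generic

section sd

variable {F : Type*} [Field F]

/-- The semidihedral-like Sylow `2`-subgroup of `GL₂(q)`, `q ≡ 3 (mod 4)`, is metabelian. -/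
theorem exists_sd2 [Fintype F] (hF : Odd (Fintype.card F)) (hq4 : Fintype.card F % 4 = 3) :
    ∃ A : Subgroup (GL (Fin 2) F),
      Nat.card ↥A =
        2 ^ (padicValNat 2 (Fintype.card F - 1) + padicValNat 2 (Fintype.card F + 1) + 1) ∧
      derivedSeries ↥A 2 = ⊥ := by
  classical
  have : Fact (Nat.Prime 2) := ⟨Nat.prime_two⟩
  have h2 := two_ne_zero_of_odd_card'' hF
  obtain ⟨hq, hq3⟩ := card_facts hF
  have hns : ¬ IsSquare (-1 : F) := by
    rw [FiniteField.isSquare_neg_one_iff]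
    omega
  have hfin : Finite (GL (Fin 2) F) := inferInstance
  obtain ⟨T₂, hT₂c, hT₂⟩ := exists_sylow_of_comm (A := ↥(rotG F))
    (fun a b => Subtype.ext (rotG_comm a.1 b.1 a.2 b.2))
  obtain ⟨C, hCdef⟩ : ∃ C : Subgroup (GL (Fin 2) F), C = T₂.map (rotG F).subtype := ⟨_, rfl⟩
  have hCle : C ≤ rotG F := by
    rw [hCdef]
    exact Subgroup.map_subtype_le T₂
  have hJC : jGL F ∈ C := by
    rw [hCdef]
    exact ⟨⟨jGL F, jGL_mem⟩, hT₂ _ (Subtype.ext (jGL_pow F)), rfl⟩
  have hCc : Nat.card ↥C =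
      2 ^ (padicValNat 2 (Fintype.card F - 1) + padicValNat 2 (Fintype.card F + 1)) := by
    rw [hCdef, Subgroup.card_map_of_injective (Subgroup.subtype_injective _), hT₂c,
      card_rotG hns]
    congr 1
    have e : Fintype.card F ^ 2 - 1 = (Fintype.card F - 1) * (Fintype.card F + 1) := by
      obtain ⟨k, hk⟩ : ∃ k, Fintype.card F = k + 1 := ⟨Fintype.card F - 1, by omega⟩
      rw [hk]
      simp only [Nat.add_sub_cancel]
      rw [Nat.sub_eq_iff_eq_add (Nat.one_le_pow _ _ (by omega))]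
      ring
    rw [e, padicValNat.mul (by omega) (by omega)]
  have hCdet : ∀ c ∈ C, Matrix.GeneralLinearGroup.det c = 1 ∨
      Matrix.GeneralLinearGroup.det c = -1 := by
    intro c hc
    apply two_elt_units hq4 _
      (padicValNat 2 (Fintype.card F - 1) + padicValNat 2 (Fintype.card F + 1))
    rw [← map_pow]
    have h3 : (⟨c, hc⟩ : ↥C) ^ Nat.card ↥C = 1 := pow_card_eq_one'
    rw [hCc] at h3
    have h4 : c ^ 2 ^ (padicValNat 2 (Fintype.card F - 1) + padicValNat 2 (Fintype.card F + 1))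
        = 1 := congrArg Subtype.val h3
    rw [h4, map_one]
  have hr2 : rGL F * rGL F ∈ C := by
    rw [rGL_mul_self]
    exact C.one_mem
  have hnorm : ∀ t ∈ C, rGL F * t * (rGL F)⁻¹ ∈ C := by
    intro t ht
    rcases hCdet t ht with hd | hd
    · rw [rGL_conj_of_det_one t (hCle ht) hd]
      exact C.inv_mem ht
    · rw [rGL_conj_of_det_neg_one t (hCle ht) hd]
      exact C.mul_mem (C.mul_mem hJC hJC) (C.inv_mem ht)
  have hrn : rGL F ∉ C := fun h => rGL_not_mem h2 (hCle h)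
  refine ⟨normExt C (rGL F) hr2 hnorm, ?_, ?_⟩
  · rw [card_normExt C _ hr2 hnorm hrn, hCc, pow_succ]
  · exact derivedSeries_normExt C _ hr2 hnorm
      (fun s hs t ht => rotG_comm s t (hCle hs) (hCle ht))

end sd

section main

variable {F : Type*} [Field F]

theorem gl_sylow2_derived_one [Fintype F] (hF : Odd (Fintype.card F))
    (hq4 : Fintype.card F % 4 = 1) (n : ℕ) (S : Sylow 2 (GL (Fin n) F)) :
    derivedSeries ↥(S : Subgroup (GL (Fin n) F)) (Nat.log 2 n + 1) = ⊥ := by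
  classical
  have : Fact (Nat.Prime 2) := ⟨Nat.prime_two⟩
  have h2 := two_ne_zero_of_odd_card'' hF
  obtain ⟨hq, hq3⟩ := card_facts hF
  obtain ⟨Z, hZc, hZ4⟩ := exists_sylow_of_comm (A := Fˣ) mul_comm
  have hZc' : Nat.card ↥Z = 2 ^ padicValNat 2 (Fintype.card F - 1) := by
    rw [hZc, Nat.card_eq_fintype_card, Fintype.card_units]
  obtain ⟨Sy, hSc, hSd⟩ := exists_sylow_perm_dl n (Fin n) (by simp)
  obtain ⟨δ, hδdef⟩ : ∃ δ : (Fin n → ↥Z) →* GL (Fin n) F, δ = δG Z := ⟨_, rfl⟩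
  obtain ⟨ρ, hρdef⟩ : ∃ ρ : Equiv.Perm (Fin n) →* GL (Fin n) F, ρ = pmatGL F := ⟨_, rfl⟩
  have hconj : ∀ (σ : Equiv.Perm (Fin n)) (f : Fin n → ↥Z),
      ρ σ * δ f * (ρ σ)⁻¹ = δ (f ∘ σ.symm) := by
    rw [hδdef, hρdef]
    exact mono_conj Z
  have hnorm : ∀ k' ∈ Sy.map ρ, ∀ h ∈ δ.range, k' * h * k'⁻¹ ∈ δ.range := by
    rintro _ ⟨σ, -, rfl⟩ _ ⟨f, rfl⟩
    exact ⟨_, (hconj σ f).symm⟩
  have hdisj : δ.range ⊓ Sy.map ρ = ⊥ := by
    rw [hδdef, hρdef]
    exact mono_disjoint Z Sy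
  have hδinj : Function.Injective δ := by
    rw [hδdef]
    exact δG_injective Z
  have hρinj : Function.Injective ρ := by
    rw [hρdef]
    exact pmatGL_injective
  have hcard : padicValNat 2 (Nat.card (GL (Fin n) F)) =
      n * padicValNat 2 (Fintype.card F - 1) + padicValNat 2 n.factorial := by
    rw [Matrix.card_GL_field, v2_card_GL_aux _ hq hq3, v2_sum_mod_four _ hq4 hq3]
  have hcW : Nat.card ↥(δ.range ⊔ Sy.map ρ) = 2 ^ padicValNat 2 (Nat.card (GL (Fin n) F)) := by
    rw [card_sup_of_normalizes _ _ hnorm hdisj, card_range_of_inj _ hδinj,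
      Subgroup.card_map_of_injective hρinj, hSc, Nat.card_fun, hZc', hcard]
    simp only [Nat.card_eq_fintype_card, Fintype.card_fin]
    rw [← pow_mul, ← pow_add]
    congr 1
    ring
  apply derivedSeries_sylow_of_model 2 (MulEquiv.refl _) _ hcW
  apply derivedSeries_sup_of_normalizes _ _ hnorm hdisj
  · exact derivedSeries_map_of_injective ρ hρinj Sy _ hSd
  · apply derivedSeries_range_of_injective δ hδinj
    exact derivedSeries_one_eq_bot_of_comm (fun a b => mul_comm a b)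

theorem gl_sylow2_derived_three [Fintype F] (hF : Odd (Fintype.card F))
    (hq4 : Fintype.card F % 4 = 3) (n m l : ℕ) (hn : n = 2 * m + l)
    (hcard : padicValNat 2 (Nat.card (GL (Fin n) F)) =
      (padicValNat 2 (Fintype.card F - 1) + padicValNat 2 (Fintype.card F + 1) + 1) * m + l +
        padicValNat 2 m.factorial)
    (S : Sylow 2 (GL (Fin n) F)) :
    derivedSeries ↥(S : Subgroup (GL (Fin n) F)) (Nat.log 2 m + 2) = ⊥ := by
  classical
  have : Fact (Nat.Prime 2) := ⟨Nat.prime_two⟩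
  have h2 := two_ne_zero_of_odd_card'' hF
  obtain ⟨A, hAc, hA2⟩ := exists_sd2 hF hq4
  have hce : Fintype.card ((Fin 2 × Fin m) ⊕ Fin l) = Fintype.card (Fin n) := by
    simp
    omega
  obtain ⟨ε⟩ : Nonempty ((Fin 2 × Fin m) ⊕ Fin l ≃ Fin n) := ⟨Fintype.equivOfCardEq hce⟩
  obtain ⟨Sy, hSc, hSd⟩ := exists_sylow_perm_dl m (Fin m) (by simp)
  obtain ⟨β, hβdef⟩ : ∃ β : (Fin m → ↥A) × (Fin l → ℤˣ) →* GL ((Fin 2 × Fin m) ⊕ Fin l) F,
    β = βA (Fin m) (Fin l) A := ⟨_, rfl⟩
  obtain ⟨π, hπdef⟩ : ∃ π : Equiv.Perm (Fin m) →* GL ((Fin 2 × Fin m) ⊕ Fin l) F,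
    π = πG (Fin m) (Fin l) := ⟨_, rfl⟩
  have hconj : ∀ (σ : Equiv.Perm (Fin m)) (f : Fin m → ↥A) (u : Fin l → ℤˣ),
      π σ * β (f, u) * (π σ)⁻¹ = β (f ∘ σ.symm, u) := by
    intro σ f u
    rw [hβdef, hπdef]
    exact glmodel_conj (Fin m) (Fin l) A σ f u
  have hnorm : ∀ k ∈ Sy.map π, ∀ h ∈ β.range, k * h * k⁻¹ ∈ β.range := by
    rintro _ ⟨σ, -, rfl⟩ _ ⟨⟨d, e⟩, rfl⟩
    exact ⟨(d ∘ σ.symm, e), (hconj σ d e).symm⟩
  have hdisj : β.range ⊓ Sy.map π = ⊥ := by
    rw [hβdef, hπdef]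
    exact glmodel_disjoint (Fin m) (Fin l) A Sy
  have hβinj : Function.Injective β := by
    rw [hβdef]
    exact βA_injective (Fin m) (Fin l) A h2
  have hπinj : Function.Injective π := by
    rw [hπdef]
    exact πG_injective (Fin m) (Fin l)
  have hcW : Nat.card ↥(β.range ⊔ Sy.map π) = 2 ^ padicValNat 2 (Nat.card (GL (Fin n) F)) := by
    rw [card_sup_of_normalizes _ _ hnorm hdisj, card_range_of_inj _ hβinj,
      Subgroup.card_map_of_injective hπinj, hSc, Nat.card_prod, Nat.card_fun,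
      Nat.card_fun, hAc, hcard]
    simp only [Nat.card_eq_fintype_card, Fintype.card_units_int, Fintype.card_fin]
    rw [← pow_mul, ← pow_add, ← pow_add]
  apply derivedSeries_sylow_of_model 2
    (Units.mapEquiv (Matrix.reindexAlgEquiv F F ε).toMulEquiv) _ hcW
  apply derivedSeries_sup_of_normalizes _ _ hnorm hdisj
  · exact derivedSeries_map_of_injective π hπinj Sy _ hSd
  · apply derivedSeries_range_of_injective β hβinj
    apply derivedSeries_prod_eq_bot
    · exact derivedSeries_pi_eq_bot 2 hA2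
    · exact derivedSeries_eq_bot_of_le (by norm_num : 1 ≤ 2)
        (derivedSeries_one_eq_bot_of_comm (fun a b => mul_comm a b))

/-- Derived length of a Sylow `2`-subgroup of `GL_n(q)`, `q` odd, is at most `log₂ n + 1`. -/
theorem gl_sylow2_derived [Fintype F] (hodd : Odd (Fintype.card F)) (n : ℕ) (hn : 1 ≤ n)
    (S : Sylow 2 (GL (Fin n) F)) :
    derivedSeries ↥(S : Subgroup (GL (Fin n) F)) (Nat.log 2 n + 1) = ⊥ := by
  have hmod : Fintype.card F % 4 = 1 ∨ Fintype.card F % 4 = 3 := by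
    obtain ⟨k, hk⟩ := hodd
    omega
  rcases hmod with h | h
  · exact gl_sylow2_derived_one hodd h n S
  · obtain ⟨hq, hq3⟩ := card_facts hodd
    have h1 : padicValNat 2 (Fintype.card F - 1) = 1 := v2_of_mod_four _ (by omega)
    by_cases hn1 : n = 1
    · subst hn1
      apply derivedSeries_eq_bot_of_le (a := 1) (by omega)
      exact derivedSeries_one_eq_bot_of_comm (fun a b => Subtype.ext (gl_one_comm a.1 b.1))
    · obtain ⟨m, rfl | rfl⟩ : ∃ m, n = 2 * m ∨ n = 2 * m + 1 := ⟨n / 2, by omega⟩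
      · have hm : 1 ≤ m := by omega
        have e : Nat.log 2 (2 * m) = Nat.log 2 m + 1 := by
          rw [mul_comm, Nat.log_mul_base (by norm_num) (by omega)]
        rw [e]
        apply gl_sylow2_derived_three hodd h (2 * m) m 0 rfl
        rw [Matrix.card_GL_field, v2_card_GL_even _ hq hq3 m, h1]
        ring
      · have hm : 1 ≤ m := by omega
        have e : Nat.log 2 (2 * m) = Nat.log 2 m + 1 := by
          rw [mul_comm, Nat.log_mul_base (by norm_num) (by omega)]
        have e2 : Nat.log 2 m + 2 ≤ Nat.log 2 (2 * m + 1) + 1 := by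
          have := Nat.log_mono_right (b := 2) (show 2 * m ≤ 2 * m + 1 by omega)
          omega
        apply derivedSeries_eq_bot_of_le e2
        apply gl_sylow2_derived_three hodd h (2 * m + 1) m 1 rfl
        rw [Matrix.card_GL_field, v2_card_GL_odd _ hq hq3 m, h1]
        ring

/-- Every `p`-subgroup of `GL_n(q)`, `p ∤ q`, has derived length at most `log₂ (n / e) + 1`. -/
theorem gl_psubgroup_derived [Fintype F] (q : ℕ) (hF : Fintype.card F = q) (p : ℕ)
    [Fact p.Prime] (hpq : ¬ p ∣ q) (n e : ℕ) (he : e = orderOf (q : ZMod p)) (hen : e ≤ n)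
    (P : Subgroup (GL (Fin n) F)) (hP : IsPGroup p P) :
    derivedSeries ↥P (Nat.log 2 (n / e) + 1) = ⊥ := by
  subst hF
  subst he
  obtain ⟨P', hP'⟩ := hP.exists_le_sylow
  apply derivedSeries_subgroup_eq_bot hP'
  by_cases hp2 : p = 2
  · subst hp2
    have hodd : Odd (Fintype.card F) := by
      rw [← Nat.not_even_iff_odd, even_iff_two_dvd]
      exact hpq
    have he1 : orderOf ((Fintype.card F : ℕ) : ZMod 2) = 1 := by
      rw [orderOf_eq_one_iff, ZMod.natCast_eq_one_iff_odd]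
      exact hodd
    rw [he1, Nat.div_one]
    rw [he1] at hen
    exact gl_sylow2_derived hodd n hen P'
  · have h := (gl_sylow_derived p hp2 hpq n hen P').1
    refine derivedSeries_eq_bot_of_le ?_ h
    have hp3 : 2 ≤ p := (Fact.out : p.Prime).two_le
    have := Nat.log_anti_left (n := n / orderOf ((Fintype.card F : ℕ) : ZMod p))
      (by norm_num : 1 < 2) hp3
    omega

end main

end Cfsg.Agent.Lib.Helper44
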