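import Mathlib
import Cfsg.Prelude.Def_Classical

set_option autoImplicit false

universe u v

namespace Cfsg.Agent.Lib.Helper44

open scoped Pointwise

/-- A nondegenerate quadratic space over the field with two elements. -/
structure QSp (F : Type*) (V : Type*) [Field F] [AddCommGroup V] [Module F V] (Q : V → F)
    (B : V →ₗ[F] V →ₗ[F] F) : Prop where
  two : ∀ a : F, a = 0 ∨ a = 1
  add : ∀ x y, Q (x + y) = Q x + Q y + B x y
  nd : ∀ x, (∀ y, B x y = 0) → x = 0

/-- The isometry group of `Q`, inside the group of linear automorphisms. -/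
def OG (F : Type*) {V : Type*} [Field F] [AddCommGroup V] [Module F V] (Q : V → F) :
    Subgroup (V ≃ₗ[F] V) where
  carrier := {g | ∀ x, Q (g x) = Q x}
  mul_mem' {a b} ha hb := fun x => by rw [LinearEquiv.mul_apply, ha, hb]
  one_mem' := fun x => rfl
  inv_mem' {a} ha := fun x => by
    have := ha (a⁻¹ x)
    rw [← LinearEquiv.mul_apply, mul_inv_cancel] at this
    exact this.symm

/-- `H` is a maximal `2`-subgroup of `O`. -/
def IsMax2 {L : Type*} [Group L] (O H : Subgroup L) : Prop :=
  H ≤ O ∧ IsPGroup 2 H ∧ ∀ K : Subgroup L, K ≤ O → IsPGroup 2 K → H ≤ K → K ≤ H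

section max2

variable {L : Type*} [Group L]

theorem IsMax2.normal_le {O H N : Subgroup L} (hH : IsMax2 O H) (hN : N ≤ O)
    (hN2 : IsPGroup 2 N) (hnorm : H ≤ Subgroup.normalizer (N : Set L)) : N ≤ H := by
  have h1 : IsPGroup 2 (H ⊔ N : Subgroup L) := hH.2.1.to_sup_of_normal_right' hN2 hnorm
  exact le_trans le_sup_right (hH.2.2 (H ⊔ N) (sup_le hH.1 hN) h1 le_sup_left)

theorem exists_isMax2 [Finite L] {O K : Subgroup L} (hK : K ≤ O) (hK2 : IsPGroup 2 K) :
    ∃ P : Subgroup L, K ≤ P ∧ IsMax2 O P := by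
  have h1 : IsPGroup 2 (K.subgroupOf O) := hK2.of_equiv (Subgroup.subgroupOfEquivOfLe hK).symm
  obtain ⟨S, hS⟩ := h1.exists_le_sylow
  refine ⟨(S : Subgroup ↥O).map O.subtype, ?_, ?_, ?_, ?_⟩
  · intro k hk
    exact ⟨⟨k, hK hk⟩, hS (by rw [Subgroup.mem_subgroupOf]; exact hk), rfl⟩
  · exact Subgroup.map_subtype_le _
  · exact S.2.map _
  · intro K' hK' hK'2 hle
    have h2 : IsPGroup 2 (K'.subgroupOf O) :=
      hK'2.of_equiv (Subgroup.subgroupOfEquivOfLe hK').symm
    have h3 : (S : Subgroup ↥O) ≤ K'.subgroupOf O := by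
      intro s hs
      rw [Subgroup.mem_subgroupOf]
      exact hle ⟨s, hs, rfl⟩
    have h4 := S.is_maximal' h2 h3
    intro k hk
    exact ⟨⟨k, hK' hk⟩, by rw [← h4]; exact Subgroup.mem_subgroupOf.mpr hk, rfl⟩

theorem isMax2_of_sylow {G : Type*} [Group G] (S : Sylow 2 G) (φ : G →* L)
    (hφ : Function.Injective φ) : IsMax2 φ.range ((S : Subgroup G).map φ) := by
  refine ⟨?_, S.2.map _, ?_⟩
  · rintro _ ⟨s, -, rfl⟩
    exact ⟨s, rfl⟩
  · intro K hK hK2 hle
    have h2 : IsPGroup 2 (K.comap φ) := hK2.comap_of_injective φ hφ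
    have h3 : (S : Subgroup G) ≤ K.comap φ := by
      intro s hs
      exact hle ⟨s, hs, rfl⟩
    have h4 := S.is_maximal' h2 h3
    intro k hk
    obtain ⟨g, rfl⟩ := hK hk
    exact ⟨g, by rw [← h4]; exact hk, rfl⟩

end max2

namespace QSp

variable {F : Type*} {V : Type*} [Field F] [AddCommGroup V] [Module F V] {Q : V → F}
  {B : V →ₗ[F] V →ₗ[F] F}

theorem two_eq_zero (h : QSp F V Q B) : (2 : F) = 0 := by
  rcases h.two 2 with h2 | h2
  · exact h2
  · exfalso
    have : (1 : F) = 0 := by linear_combination h2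
    exact one_ne_zero this

theorem smul_two (h : QSp F V Q B) (y : V) : (2 : F) • y = 0 := by
  rw [h.two_eq_zero, zero_smul]

theorem add_self (h : QSp F V Q B) (y : V) : y + y = 0 := by
  linear_combination (norm := module) h.smul_two y

theorem Q_zero (h : QSp F V Q B) : Q 0 = 0 := by
  have := h.add 0 0
  simp only [add_zero, map_zero] at this
  linear_combination -this

theorem B_symm (h : QSp F V Q B) (x y : V) : B x y = B y x := by
  have h1 := h.add x y
  have h2 := h.add y x
  rw [add_comm y x] at h2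
  linear_combination h2 - h1

theorem B_self (h : QSp F V Q B) (x : V) : B x x = 0 := by
  have h1 := h.add x x
  rw [h.add_self x, h.Q_zero] at h1
  linear_combination -h1 - Q x * h.two_eq_zero

theorem Q_smul (h : QSp F V Q B) (c : F) (x : V) : Q (c • x) = c * c * Q x := by
  rcases h.two c with rfl | rfl
  · simp [h.Q_zero]
  · simp

theorem B_of_mem (h : QSp F V Q B) {g : V ≃ₗ[F] V} (hg : g ∈ OG F Q) (x y : V) :
    B (g x) (g y) = B x y := by
  have h1 := h.add (g x) (g y)
  rw [← map_add, hg (x + y), hg x, hg y, h.add x y] at h1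
  linear_combination -h1

theorem exists_fixed_singular (h : QSp F V Q B) [Finite V] (H : Subgroup (V ≃ₗ[F] V))
    (hHO : H ≤ OG F Q) (hH2 : IsPGroup 2 H) (heven : 2 ∣ Nat.card {x : V // Q x = 0}) :
    ∃ v : V, v ≠ 0 ∧ Q v = 0 ∧ ∀ g ∈ H, g v = v := by
  let _ : MulAction ↥H {x : V // Q x = 0} :=
    { smul := fun g x => ⟨g.1 x.1, by rw [hHO g.2 x.1]; exact x.2⟩
      one_smul := fun x => Subtype.ext rfl
      mul_smul := fun a b x => Subtype.ext rfl }
  have h0 : (⟨0, h.Q_zero⟩ : {x : V // Q x = 0}) ∈ MulAction.fixedPoints ↥H {x : V // Q x = 0} :=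
    fun g => Subtype.ext (map_zero g.1)
  obtain ⟨b, hb, hne⟩ := hH2.exists_fixed_point_of_prime_dvd_card_of_fixed_point _ heven h0
  refine ⟨b.1, ?_, b.2, fun g hg => congrArg Subtype.val (hb ⟨g, hg⟩)⟩
  intro hb0
  exact hne (Subtype.ext hb0.symm)

end QSp

section siegel

variable {F : Type*} {V : Type*} [Field F] [AddCommGroup V] [Module F V]

/-- Siegel transformation, as a linear map. -/
def sgMap (Q : V → F) (B : V →ₗ[F] V →ₗ[F] F) (v w : V) : V →ₗ[F] V :=
  LinearMap.id + (B v).smulRight w + (B w + Q w • B v).smulRight v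

theorem sgMap_apply (Q : V → F) (B : V →ₗ[F] V →ₗ[F] F) (v w x : V) :
    sgMap Q B v w x = x + B v x • w + (B w x + Q w * B v x) • v := by
  simp [sgMap]

variable {Q : V → F} {B : V →ₗ[F] V →ₗ[F] F}

theorem QSp.sgMap_sgMap (h : QSp F V Q B) {v w w' : V} (hw : B v w = 0) (hw' : B v w' = 0)
    (x : V) : sgMap Q B v w (sgMap Q B v w' x) = sgMap Q B v (w + w') x := by
  have hwv : B w v = 0 := by rw [h.B_symm, hw]
  simp only [sgMap_apply, map_add, map_smul, LinearMap.add_apply, h.add w w',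
    h.B_self v, hw', hwv]
  module

theorem QSp.sgMap_invol (h : QSp F V Q B) {v w : V} (hw : B v w = 0) (x : V) :
    sgMap Q B v w (sgMap Q B v w x) = x := by
  rw [h.sgMap_sgMap hw hw, h.add_self w]
  simp [sgMap_apply, h.Q_zero]

theorem QSp.Q_sgMap (h : QSp F V Q B) {v w : V} (hv : Q v = 0) (hw : B v w = 0) (x : V) :
    Q (sgMap Q B v w x) = Q x := by
  have hwv : B w v = 0 := by rw [h.B_symm, hw]
  rw [sgMap_apply, h.add, h.add, h.Q_smul, h.Q_smul, hv]
  simp only [map_add, map_smul, smul_eq_mul, LinearMap.add_apply, LinearMap.smul_apply, hwv,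
    h.B_symm x w, h.B_symm x v]
  linear_combination (B v x * B v x * Q w + B v x * B w x) * h.two_eq_zero

/-- Siegel transformation as a linear automorphism. -/
def QSp.sg (h : QSp F V Q B) (v w : V) (hw : B v w = 0) : V ≃ₗ[F] V :=
  LinearEquiv.ofLinearMap (sgMap Q B v w) (sgMap Q B v w)
    (LinearMap.ext fun x => h.sgMap_invol hw x) (LinearMap.ext fun x => h.sgMap_invol hw x)

theorem QSp.sg_apply (h : QSp F V Q B) (v w : V) (hw : B v w = 0) (x : V) :
    h.sg v w hw x = sgMap Q B v w x := rfl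

/-- The group of Siegel transformations centred at `v`. -/
def QSp.siegelSub (h : QSp F V Q B) (v : V) : Subgroup (V ≃ₗ[F] V) where
  carrier := {g | ∃ w, B v w = 0 ∧ ∀ x, g x = sgMap Q B v w x}
  one_mem' := ⟨0, by simp, fun x => by simp [sgMap_apply, h.Q_zero]⟩
  mul_mem' := by
    rintro a b ⟨w, hw, ha⟩ ⟨w', hw', hb⟩
    exact ⟨w + w', by rw [map_add, hw, hw', add_zero], fun x => by
      rw [LinearEquiv.mul_apply, hb, ha, h.sgMap_sgMap hw hw']⟩
  inv_mem' := by
    rintro a ⟨w, hw, ha⟩
    refine ⟨w, hw, fun x => ?_⟩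
    apply a.injective
    rw [ha (sgMap Q B v w x), h.sgMap_invol hw, ← LinearEquiv.mul_apply, mul_inv_cancel]
    rfl

theorem QSp.sg_mem (h : QSp F V Q B) (v w : V) (hw : B v w = 0) :
    h.sg v w hw ∈ h.siegelSub v := ⟨w, hw, fun _ => rfl⟩

theorem QSp.siegelSub_le (h : QSp F V Q B) {v : V} (hv : Q v = 0) :
    h.siegelSub v ≤ OG F Q := by
  rintro g ⟨w, hw, hg⟩ x
  rw [hg, h.Q_sgMap hv hw]

theorem QSp.siegelSub_isPGroup (h : QSp F V Q B) (v : V) : IsPGroup 2 (h.siegelSub v) := by
  rintro ⟨g, w, hw, hg⟩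
  refine ⟨1, ?_⟩
  apply Subtype.ext
  apply LinearEquiv.ext
  intro x
  show (g ^ 2 ^ 1) x = x
  rw [pow_one, pow_two, LinearEquiv.mul_apply, hg, hg, h.sgMap_invol hw]

theorem QSp.siegelSub_fix (h : QSp F V Q B) {v : V} {g : V ≃ₗ[F] V} (hg : g ∈ h.siegelSub v) :
    g v = v := by
  obtain ⟨w, hw, hg⟩ := hg
  rw [hg, sgMap_apply, h.B_self, h.B_symm w v, hw]
  simp

theorem QSp.siegelSub_conj (h : QSp F V Q B) {v : V} {g : V ≃ₗ[F] V} (hg : g ∈ OG F Q)
    (hgv : g v = v) {a : V ≃ₗ[F] V} (ha : a ∈ h.siegelSub v) : g * a * g⁻¹ ∈ h.siegelSub v := by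
  obtain ⟨w, hw, ha⟩ := ha
  have e1 : ∀ y, B v (g y) = B v y := by
    intro y
    have := h.B_of_mem hg v y
    rw [hgv] at this
    exact this
  refine ⟨g w, by rw [e1, hw], fun x => ?_⟩
  obtain ⟨y, rfl⟩ : ∃ y, x = g y := ⟨g⁻¹ x, by
    rw [← LinearEquiv.mul_apply, mul_inv_cancel]
    rfl⟩
  have e2 : (g * a * g⁻¹) (g y) = g (a y) := by
    rw [LinearEquiv.mul_apply, LinearEquiv.mul_apply, ← LinearEquiv.mul_apply g⁻¹ g,
      inv_mul_cancel]
    rfl
  rw [e2, ha, sgMap_apply, sgMap_apply, map_add, map_add, map_smul, map_smul, hgv, e1,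
    h.B_of_mem hg, hg w]

theorem QSp.siegelSub_normal (h : QSp F V Q B) {v : V} {g : V ≃ₗ[F] V} (hg : g ∈ OG F Q)
    (hgv : g v = v) : g ∈ Subgroup.normalizer (h.siegelSub v : Set (V ≃ₗ[F] V)) := by
  rw [Subgroup.mem_normalizer_iff]
  intro a
  constructor
  · exact fun ha => h.siegelSub_conj hg hgv ha
  · intro ha
    have hg' : g⁻¹ ∈ OG F Q := (OG F Q).inv_mem hg
    have hgv' : g⁻¹ v = v := by
      have : g⁻¹ (g v) = v := by
        rw [← LinearEquiv.mul_apply, inv_mul_cancel]
        rfl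
      rw [hgv] at this
      exact this
    have := h.siegelSub_conj hg' hgv' ha
    have e : g⁻¹ * (g * a * g⁻¹) * g⁻¹⁻¹ = a := by group
    rw [e] at this
    exact this

theorem QSp.sgMap_move (h : QSp F V Q B) {v v' u : V} (hv' : Q v' = 0) (hu : Q u = 0)
    (h1 : B v v' = 1) (h2 : B v u = 1) :
    B v (u + v') = 0 ∧ sgMap Q B v (u + v') v' = u := by
  constructor
  · rw [map_add, h1, h2]
    linear_combination h.two_eq_zero
  · simp only [sgMap_apply, h1, h.add u v', hu, hv', map_add, LinearMap.add_apply, h.B_self v',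
      one_smul, mul_one, add_zero, zero_add]
    linear_combination (norm := module) h.smul_two v' + B u v' • h.smul_two v

theorem QSp.sgMap_ne (h : QSp F V Q B) {v w y : V} (hy : B v y = 1) (hw0 : w ≠ 0)
    (hwv : w ≠ v) : sgMap Q B v w y ≠ y := by
  intro e
  rw [sgMap_apply, hy, one_smul, mul_one] at e
  have e2 : w = (B w y + Q w) • v := by
    linear_combination (norm := module) e - h.smul_two ((B w y + Q w) • v)
  rcases h.two (B w y + Q w) with h0 | h0
  · rw [h0, zero_smul] at e2
    exact hw0 e2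
  · rw [h0, one_smul] at e2
    exact hwv e2

end siegel

section hyp

variable {F : Type*} {V : Type*} [Field F] [AddCommGroup V] [Module F V]

/-- The orthogonal complement of a pair of vectors. -/
def perp2 (B : V →ₗ[F] V →ₗ[F] F) (v v' : V) : Submodule F V :=
  LinearMap.ker (B v) ⊓ LinearMap.ker (B v')

theorem mem_perp2 (B : V →ₗ[F] V →ₗ[F] F) (v v' x : V) :
    x ∈ perp2 B v v' ↔ B v x = 0 ∧ B v' x = 0 := by
  simp [perp2]

/-- Projection along a hyperbolic pair. -/
def projMap (B : V →ₗ[F] V →ₗ[F] F) (v v' : V) : V →ₗ[F] V :=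
  LinearMap.id + (B v').smulRight v + (B v).smulRight v'

theorem projMap_apply (B : V →ₗ[F] V →ₗ[F] F) (v v' x : V) :
    projMap B v v' x = x + B v' x • v + B v x • v' := by
  simp [projMap]

/-- A hyperbolic pair. -/
structure HypPair (Q : V → F) (B : V →ₗ[F] V →ₗ[F] F) (v v' : V) : Prop where
  qv : Q v = 0
  qv' : Q v' = 0
  bvv' : B v v' = 1

variable {Q : V → F} {B : V →ₗ[F] V →ₗ[F] F} {v v' : V}

theorem QSp.bv'v (h : QSp F V Q B) (p : HypPair Q B v v') : B v' v = 1 := by
  rw [h.B_symm, p.bvv']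

theorem QSp.projMap_mem (h : QSp F V Q B) (p : HypPair Q B v v') (x : V) :
    projMap B v v' x ∈ perp2 B v v' := by
  rw [mem_perp2, projMap_apply]
  simp only [map_add, map_smul, smul_eq_mul, h.B_self, p.bvv', h.bv'v p]
  constructor
  · linear_combination B v x * h.two_eq_zero
  · linear_combination B v' x * h.two_eq_zero

/-- Projection onto the complement of a hyperbolic pair. -/
def QSp.projW (h : QSp F V Q B) (p : HypPair Q B v v') : V →ₗ[F] ↥(perp2 B v v') :=
  (projMap B v v').codRestrict (perp2 B v v') (h.projMap_mem p)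

theorem QSp.projW_coe (h : QSp F V Q B) (p : HypPair Q B v v') (x : V) :
    (h.projW p x : V) = x + B v' x • v + B v x • v' := by
  show projMap B v v' x = _
  rw [projMap_apply]

theorem QSp.decomp (h : QSp F V Q B) (p : HypPair Q B v v') (x : V) :
    x = B v' x • v + B v x • v' + (h.projW p x : V) := by
  rw [h.projW_coe]
  linear_combination (norm := module) -(B v' x • h.smul_two v) - B v x • h.smul_two v'

theorem QSp.projW_of_mem (h : QSp F V Q B) (p : HypPair Q B v v') (w : ↥(perp2 B v v')) :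
    h.projW p (w : V) = w := by
  apply Subtype.ext
  have hw := (mem_perp2 B v v' w).mp w.2
  rw [h.projW_coe, hw.1, hw.2]
  simp

theorem QSp.Q_decomp (h : QSp F V Q B) (p : HypPair Q B v v') (a b : F)
    (w : ↥(perp2 B v v')) : Q (a • v + b • v' + (w : V)) = a * b + Q (w : V) := by
  have hw := (mem_perp2 B v v' w).mp w.2
  rw [h.add, h.add, h.Q_smul, h.Q_smul, p.qv, p.qv']
  simp only [map_add, map_smul, smul_eq_mul, LinearMap.add_apply, LinearMap.smul_apply, hw.1,
    hw.2, p.bvv']
  ring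

/-- The restricted form on the complement of a hyperbolic pair. -/
theorem QSp.restrict (h : QSp F V Q B) (p : HypPair Q B v v') :
    QSp F ↥(perp2 B v v') (fun w => Q (w : V))
      (B.domRestrict₁₂ (perp2 B v v') (perp2 B v v')) := by
  refine ⟨h.two, fun x y => ?_, fun w hw => ?_⟩
  · rw [LinearMap.domRestrict₁₂_apply]
    exact h.add x y
  · apply Subtype.ext
    apply h.nd
    intro x
    have hw' := (mem_perp2 B v v' w).mp w.2
    have e := hw (h.projW p x)
    rw [LinearMap.domRestrict₁₂_apply] at e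
    rw [h.decomp p x, map_add, map_add, map_smul, map_smul, e, h.B_symm _ v, h.B_symm _ v',
      hw'.1, hw'.2]
    simp

/-- Extension of an endomorphism of the complement by the identity on the hyperbolic pair. -/
def QSp.extEnd (h : QSp F V Q B) (p : HypPair Q B v v') :
    Module.End F ↥(perp2 B v v') →* Module.End F V where
  toFun g := (B v').smulRight v + (B v).smulRight v' +
    (perp2 B v v').subtype ∘ₗ g ∘ₗ h.projW p
  map_one' := by
    apply LinearMap.ext
    intro x
    simp only [LinearMap.add_apply, LinearMap.smulRight_apply, LinearMap.comp_apply,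
      Submodule.subtype_apply, Module.End.one_apply]
    exact (h.decomp p x).symm
  map_mul' g g' := by
    apply LinearMap.ext
    intro x
    have hw := (mem_perp2 B v v' (g' (h.projW p x))).mp (g' (h.projW p x)).2
    have e3 : h.projW p (B v' x • v + B v x • v' + (g' (h.projW p x) : V)) =
        g' (h.projW p x) := by
      apply Subtype.ext
      rw [h.projW_coe]
      simp only [map_add, map_smul, smul_eq_mul, h.B_self, p.bvv', h.bv'v p, hw.1, hw.2]
      linear_combination (norm := module) (B v' x • h.smul_two v) + B v x • h.smul_two v'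
    simp only [LinearMap.add_apply, LinearMap.smulRight_apply, LinearMap.comp_apply,
      Submodule.subtype_apply, Module.End.mul_apply]
    rw [e3]
    simp only [map_add, map_smul, smul_eq_mul, h.B_self, p.bvv', h.bv'v p, hw.1, hw.2]
    module

theorem QSp.extEnd_apply (h : QSp F V Q B) (p : HypPair Q B v v')
    (g : Module.End F ↥(perp2 B v v')) (x : V) :
    h.extEnd p g x = B v' x • v + B v x • v' + (g (h.projW p x) : V) := rfl

/-- Extension of an automorphism of the complement by the identity on the hyperbolic pair. -/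
def QSp.extHom (h : QSp F V Q B) (p : HypPair Q B v v') :
    (↥(perp2 B v v') ≃ₗ[F] ↥(perp2 B v v')) →* (V ≃ₗ[F] V) :=
  (LinearMap.GeneralLinearGroup.generalLinearEquiv F V).toMonoidHom.comp
    ((Units.map (h.extEnd p)).comp
      (LinearMap.GeneralLinearGroup.generalLinearEquiv F ↥(perp2 B v v')).symm.toMonoidHom)

theorem QSp.extHom_apply (h : QSp F V Q B) (p : HypPair Q B v v')
    (g : ↥(perp2 B v v') ≃ₗ[F] ↥(perp2 B v v')) (x : V) :
    h.extHom p g x = B v' x • v + B v x • v' + (g (h.projW p x) : V) := rfl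

theorem QSp.extHom_mem (h : QSp F V Q B) (p : HypPair Q B v v')
    {g : ↥(perp2 B v v') ≃ₗ[F] ↥(perp2 B v v')}
    (hg : g ∈ OG F (fun w : ↥(perp2 B v v') => Q (w : V))) : h.extHom p g ∈ OG F Q := by
  intro x
  rw [h.extHom_apply, h.Q_decomp p]
  have e : Q ((g (h.projW p x) : ↥(perp2 B v v')) : V) = Q (h.projW p x : V) := hg (h.projW p x)
  rw [e, ← h.Q_decomp p, ← h.decomp p x]

theorem QSp.projW_v (h : QSp F V Q B) (p : HypPair Q B v v') : h.projW p v = 0 := by
  apply Subtype.ext
  rw [h.projW_coe, h.B_self, h.bv'v p]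
  simp only [one_smul, zero_smul, add_zero, Submodule.coe_zero]
  exact h.add_self v

theorem QSp.projW_v' (h : QSp F V Q B) (p : HypPair Q B v v') : h.projW p v' = 0 := by
  apply Subtype.ext
  rw [h.projW_coe, h.B_self, p.bvv']
  simp only [one_smul, zero_smul, add_zero, Submodule.coe_zero]
  exact h.add_self v'

theorem QSp.extHom_v (h : QSp F V Q B) (p : HypPair Q B v v')
    (g : ↥(perp2 B v v') ≃ₗ[F] ↥(perp2 B v v')) : h.extHom p g v = v := by
  rw [h.extHom_apply, h.projW_v p, map_zero, h.B_self, h.bv'v p]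
  simp

theorem QSp.extHom_v' (h : QSp F V Q B) (p : HypPair Q B v v')
    (g : ↥(perp2 B v v') ≃ₗ[F] ↥(perp2 B v v')) : h.extHom p g v' = v' := by
  rw [h.extHom_apply, h.projW_v' p, map_zero, h.B_self, p.bvv']
  simp

theorem QSp.extHom_coe (h : QSp F V Q B) (p : HypPair Q B v v')
    (g : ↥(perp2 B v v') ≃ₗ[F] ↥(perp2 B v v')) (w : ↥(perp2 B v v')) :
    h.extHom p g (w : V) = (g w : V) := by
  have hw := (mem_perp2 B v v' w).mp w.2
  rw [h.extHom_apply, h.projW_of_mem p, hw.1, hw.2]
  simp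

theorem QSp.extHom_injective (h : QSp F V Q B) (p : HypPair Q B v v') :
    Function.Injective (h.extHom p) := by
  intro g g' e
  apply LinearEquiv.ext
  intro w
  apply Subtype.ext
  rw [← h.extHom_coe p g w, ← h.extHom_coe p g' w, e]

theorem QSp.extHom_surj (h : QSp F V Q B) (p : HypPair Q B v v') {k : V ≃ₗ[F] V}
    (hk : k ∈ OG F Q) (hkv : k v = v) (hkv' : k v' = v') :
    ∃ g ∈ OG F (fun w : ↥(perp2 B v v') => Q (w : V)), h.extHom p g = k := by
  have hk' : k⁻¹ ∈ OG F Q := (OG F Q).inv_mem hk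
  have hinv : ∀ x, k⁻¹ (k x) = x := by
    intro x
    rw [← LinearEquiv.mul_apply, inv_mul_cancel]
    rfl
  have hinv' : ∀ x, k (k⁻¹ x) = x := by
    intro x
    rw [← LinearEquiv.mul_apply, mul_inv_cancel]
    rfl
  have hkiv : k⁻¹ v = v := by
    have := hinv v
    rw [hkv] at this
    exact this
  have hkiv' : k⁻¹ v' = v' := by
    have := hinv v'
    rw [hkv'] at this
    exact this
  have key : ∀ (j : V ≃ₗ[F] V), j ∈ OG F Q → j v = v → j v' = v' →
      ∀ x ∈ perp2 B v v', j x ∈ perp2 B v v' := by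
    intro j hj hjv hjv' x hx
    rw [mem_perp2] at hx ⊢
    have e1 := h.B_of_mem hj v x
    have e2 := h.B_of_mem hj v' x
    rw [hjv] at e1
    rw [hjv'] at e2
    rw [e1, e2]
    exact hx
  refine ⟨LinearEquiv.ofLinearMap ((k : V →ₗ[F] V).restrict (key k hk hkv hkv'))
    ((((k⁻¹ : V ≃ₗ[F] V)) : V →ₗ[F] V).restrict (key k⁻¹ hk' hkiv hkiv'))
    (LinearMap.ext fun w => Subtype.ext (hinv' w)) (LinearMap.ext fun w => Subtype.ext (hinv w)),
    fun w => hk w, ?_⟩
  apply LinearEquiv.ext
  intro x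
  rw [h.extHom_apply]
  conv_rhs => rw [h.decomp p x]
  rw [map_add, map_add, map_smul, map_smul, hkv, hkv']
  rfl

end hyp

section count

variable {F : Type*} {V : Type*} [Field F] [AddCommGroup V] [Module F V]
variable {Q : V → F} {B : V →ₗ[F] V →ₗ[F] F} {v v' : V}

/-- Coordinates with respect to a hyperbolic pair. -/
def QSp.coordEquiv (h : QSp F V Q B) (p : HypPair Q B v v') : V ≃ F × F × ↥(perp2 B v v') where
  toFun x := (B v' x, B v x, h.projW p x)
  invFun t := t.1 • v + t.2.1 • v' + (t.2.2 : V)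
  left_inv x := (h.decomp p x).symm
  right_inv t := by
    obtain ⟨a, b, w⟩ := t
    have hw := (mem_perp2 B v v' w).mp w.2
    refine Prod.ext ?_ (Prod.ext ?_ ?_)
    · simp [h.B_self, h.bv'v p, hw.2]
    · simp [h.B_self, p.bvv', hw.1]
    · apply Subtype.ext
      rw [h.projW_coe]
      simp only [map_add, map_smul, smul_eq_mul, h.B_self, p.bvv', h.bv'v p, hw.1, hw.2]
      linear_combination (norm := module) (a • h.smul_two v) + b • h.smul_two v'

theorem QSp.sum_univ (h : QSp F V Q B) [Fintype F] (f : F → ℕ) : ∑ a, f a = f 0 + f 1 := by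
  classical
  have : (Finset.univ : Finset F) = {0, 1} := by
    ext a
    simp only [Finset.mem_univ, Finset.mem_insert, Finset.mem_singleton, true_iff]
    exact h.two a
  rw [this, Finset.sum_pair zero_ne_one]

theorem QSp.card_F (h : QSp F V Q B) : Nat.card F = 2 := by
  rw [Nat.card_eq_two_iff]
  refine ⟨0, 1, zero_ne_one, ?_⟩
  ext a
  simp only [Set.mem_insert_iff, Set.mem_singleton_iff, Set.mem_univ, iff_true]
  exact h.two a

theorem QSp.card_eq (h : QSp F V Q B) (p : HypPair Q B v v') :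
    Nat.card V = 4 * Nat.card ↥(perp2 B v v') := by
  rw [Nat.card_congr (h.coordEquiv p), Nat.card_prod, Nat.card_prod, h.card_F]
  ring

theorem QSp.nsing_eq (h : QSp F V Q B) (p : HypPair Q B v v') [Fintype F] [Finite V] :
    Nat.card {x : V // Q x = 0} =
      2 * Nat.card {w : ↥(perp2 B v v') // Q (w : V) = 0} + Nat.card ↥(perp2 B v v') := by
  classical
  have := Fintype.ofFinite V
  have : Fintype ↥(perp2 B v v') := Fintype.ofFinite _
  rw [Nat.card_eq_fintype_card, Nat.card_eq_fintype_card, Nat.card_eq_fintype_card,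
    Fintype.card_subtype, Fintype.card_subtype, Finset.card_filter, Finset.card_filter]
  have e1 : ∑ x : V, (if Q x = 0 then 1 else 0) = ∑ a : F, ∑ b : F, ∑ w : ↥(perp2 B v v'),
      (if a * b + Q (w : V) = 0 then 1 else 0) := by
    rw [← Equiv.sum_comp (h.coordEquiv p).symm, Fintype.sum_prod_type]
    refine Finset.sum_congr rfl fun a _ => ?_
    rw [Fintype.sum_prod_type]
    refine Finset.sum_congr rfl fun b _ => Finset.sum_congr rfl fun w _ => ?_
    have : (h.coordEquiv p).symm (a, b, w) = a • v + b • v' + (w : V) := rfl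
    rw [this, h.Q_decomp p]
  rw [e1]
  simp only [h.sum_univ]
  rw [← Finset.sum_add_distrib, ← Finset.sum_add_distrib, ← Finset.sum_add_distrib,
    Finset.mul_sum, ← Finset.card_univ, Finset.card_eq_sum_ones, ← Finset.sum_add_distrib]
  refine Finset.sum_congr rfl fun w _ => ?_
  have h11 : (1 : F) + 1 = 0 := by linear_combination h.two_eq_zero
  rcases h.two (Q (w : V)) with e | e <;> rw [e] <;> simp [h11]

/-- Plus type: more than half of the vectors are singular. -/
def IsPlus (Q : V → F) : Prop := Nat.card V < 2 * Nat.card {x : V // Q x = 0}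

theorem QSp.isPlus_restrict (h : QSp F V Q B) (p : HypPair Q B v v') [Fintype F] [Finite V]
    (hp : IsPlus Q) : IsPlus (fun w : ↥(perp2 B v v') => Q (w : V)) := by
  unfold IsPlus at hp
  rw [h.card_eq p, h.nsing_eq p] at hp
  show Nat.card ↥(perp2 B v v') < 2 * Nat.card {w : ↥(perp2 B v v') // Q (w : V) = 0}
  omega

theorem QSp.exists_hyp (h : QSp F V Q B) {v : V} (hv0 : v ≠ 0) (hqv : Q v = 0) :
    ∃ v', HypPair Q B v v' := by
  obtain ⟨y, hy⟩ : ∃ y, B v y ≠ 0 := by
    by_contra hcon
    simp only [not_exists, not_not] at hcon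
    exact hv0 (h.nd v hcon)
  have hy1 : B v y = 1 := (h.two _).resolve_left hy
  refine ⟨y + Q y • v, hqv, ?_, ?_⟩
  · rw [h.add, h.Q_smul, hqv, map_smul, h.B_symm y v, hy1]
    simp only [smul_eq_mul, mul_one, mul_zero, add_zero]
    linear_combination Q y * h.two_eq_zero
  · rw [map_add, map_smul, h.B_self, hy1]
    simp

theorem QSp.exists_singular (h : QSp F V Q B) [Finite V] (hV : 1 < Nat.card V) (hp : IsPlus Q) :
    ∃ v : V, v ≠ 0 ∧ Q v = 0 := by
  unfold IsPlus at hp
  have h1 : 1 < Nat.card {x : V // Q x = 0} := by omega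
  rw [Finite.one_lt_card_iff_nontrivial] at h1
  obtain ⟨x, hx⟩ := exists_ne (⟨0, h.Q_zero⟩ : {x : V // Q x = 0})
  exact ⟨x.1, fun h0 => hx (Subtype.ext h0), x.2⟩

end count

section main

variable {F : Type*} {V : Type*} [Field F] [AddCommGroup V] [Module F V]
variable {Q : V → F} {B : V →ₗ[F] V →ₗ[F] F}

theorem QSp.lift_le (h : QSp F V Q B) {v v' : V} (hqv : Q v = 0) (hqv' : Q v' = 0)
    (hb : B v v' = 1) {A : Type*} [Group A] (ext : A →* (V ≃ₗ[F] V)) (OW P : Subgroup A)
    (hext1 : ∀ g ∈ OW, ext g ∈ OG F Q ∧ ext g v = v)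
    (hext2 : ∀ k ∈ OG F Q, k v = v → k v' = v' → ∃ g ∈ OW, ext g = k)
    (hP2 : IsPGroup 2 P) (hPO : P ≤ OW)
    {H : Subgroup (V ≃ₗ[F] V)} (hH : IsMax2 (OG F Q) H) (hHv : ∀ g ∈ H, g v = v)
    (hP₀ : ∀ g ∈ OW, ext g ∈ H → g ∈ P) : P.map ext ≤ H := by
  have hQv : h.siegelSub v ≤ H :=
    hH.normal_le (h.siegelSub_le hqv) (h.siegelSub_isPGroup v)
      (fun g hg => h.siegelSub_normal (hH.1 hg) (hHv g hg))
  have hK2 : IsPGroup 2 (h.siegelSub v ⊔ P.map ext : Subgroup (V ≃ₗ[F] V)) := by
    apply (h.siegelSub_isPGroup v).to_sup_of_normal_left' (hP2.map ext)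
    rintro _ ⟨g, hg, rfl⟩
    exact h.siegelSub_normal (hext1 g (hPO hg)).1 (hext1 g (hPO hg)).2
  have hKO : h.siegelSub v ⊔ P.map ext ≤ OG F Q := by
    apply sup_le (h.siegelSub_le hqv)
    rintro _ ⟨g, hg, rfl⟩
    exact (hext1 g (hPO hg)).1
  have hHK : H ≤ h.siegelSub v ⊔ P.map ext := by
    intro k hk
    have hkO := hH.1 hk
    have hkv := hHv k hk
    have hu : Q (k v') = 0 := by rw [hkO v', hqv']
    have h2 : B v (k v') = 1 := by
      have := h.B_of_mem hkO v v'
      rw [hkv] at this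
      rw [this, hb]
    obtain ⟨hw, hmove⟩ := h.sgMap_move hqv' hu hb h2
    obtain ⟨ρ, hρdef⟩ : ∃ ρ, ρ = h.sg v (k v' + v') hw := ⟨_, rfl⟩
    have hρ : ρ ∈ h.siegelSub v := by
      rw [hρdef]
      exact h.sg_mem _ _ _
    have hk' : ρ⁻¹ * k ∈ H := H.mul_mem (H.inv_mem (hQv hρ)) hk
    have hk'v : (ρ⁻¹ * k) v = v := hHv _ hk'
    have hk'v' : (ρ⁻¹ * k) v' = v' := by
      have e : ρ v' = k v' := by
        rw [hρdef]
        exact hmove
      rw [LinearEquiv.mul_apply, ← e, ← LinearEquiv.mul_apply, inv_mul_cancel]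
      rfl
    obtain ⟨g, hgO, hg⟩ := hext2 _ (hH.1 hk') hk'v hk'v'
    have hgP : g ∈ P := hP₀ g hgO (by rw [hg]; exact hk')
    have e : k = ρ * (ρ⁻¹ * k) := by group
    rw [e]
    exact Subgroup.mul_mem_sup hρ ⟨g, hgP, hg⟩
  exact le_trans le_sup_right (hH.2.2 _ hKO hK2 hHK)

theorem QSp.base_case (h : QSp F V Q B) {e f : V} (p : HypPair Q B e f)
    (hW : Nat.card ↥(perp2 B e f) = 1) {H H' : Subgroup (V ≃ₗ[F] V)}
    (hH : IsMax2 (OG F Q) H) (hH' : IsMax2 (OG F Q) H') : H ⊓ H' ≠ ⊥ := by
  have hsub : Subsingleton ↥(perp2 B e f) := (Nat.card_eq_one_iff_unique.mp hW).1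
  have hdec : ∀ x, x = B f x • e + B e x • f := by
    intro x
    have h1 := h.decomp p x
    have h2 : h.projW p x = 0 := Subsingleton.elim _ _
    rw [h2] at h1
    simpa using h1
  obtain ⟨u, hudef⟩ : ∃ u, u = e + f := ⟨_, rfl⟩
  have hQu : Q u = 1 := by
    rw [hudef, h.add, p.qv, p.qv', p.bvv']
    simp
  have huniq : ∀ x, Q x = 1 → x = u := by
    intro x hx
    have h1 := hdec x
    have h2 := h.Q_decomp p (B f x) (B e x) 0
    simp only [Submodule.coe_zero, add_zero, h.Q_zero] at h2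
    rw [← h1, hx] at h2
    rcases h.two (B f x) with ha | ha
    · rw [ha] at h2
      simp at h2
    · rcases h.two (B e x) with hb | hb
      · rw [hb] at h2
        simp at h2
      · rw [h1, ha, hb, hudef]
        simp
  have hBuu : B u u = 0 := h.B_self _
  have hinv : ∀ x, (LinearMap.id + (B u).smulRight u : V →ₗ[F] V)
      ((LinearMap.id + (B u).smulRight u : V →ₗ[F] V) x) = x := by
    intro x
    simp only [LinearMap.add_apply, LinearMap.id_apply, LinearMap.smulRight_apply, map_add,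
      map_smul, hBuu]
    linear_combination (norm := module) (B u x) • h.smul_two u
  obtain ⟨r, hr⟩ : ∃ r : V ≃ₗ[F] V, ∀ x, r x = x + B u x • u :=
    ⟨LinearEquiv.ofLinearMap (LinearMap.id + (B u).smulRight u)
      (LinearMap.id + (B u).smulRight u) (LinearMap.ext hinv) (LinearMap.ext hinv),
      fun x => rfl⟩
  have hrO : r ∈ OG F Q := by
    intro x
    rw [hr, h.add, h.Q_smul, hQu, map_smul, h.B_symm x u]
    simp only [smul_eq_mul, mul_one]
    linear_combination (B u x * B u x) * h.two_eq_zero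
  have hr2 : r ^ 2 = 1 := by
    apply LinearEquiv.ext
    intro x
    rw [pow_two, LinearEquiv.mul_apply, hr, hr]
    exact hinv x
  have hr1 : r ≠ 1 := by
    intro h1
    have h2 := hr e
    rw [h1] at h2
    have h3 : B u e = 1 := by
      rw [hudef, map_add, LinearMap.add_apply, h.B_self, h.bv'v p, zero_add]
    rw [h3, one_smul] at h2
    have h4 : (1 : V ≃ₗ[F] V) e = e := rfl
    rw [h4] at h2
    have h5 : u = 0 := by
      linear_combination (norm := module) -h2
    rw [h5, h.Q_zero] at hQu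
    exact zero_ne_one hQu
  have hcomm : ∀ g ∈ OG F Q, r * g = g * r := by
    intro g hg
    have hgu : g u = u := huniq _ (by rw [hg, hQu])
    apply LinearEquiv.ext
    intro x
    rw [LinearEquiv.mul_apply, LinearEquiv.mul_apply, hr, hr, map_add, map_smul, hgu]
    have := h.B_of_mem hg u x
    rw [hgu] at this
    rw [this]
  have hN2 : IsPGroup 2 (Subgroup.zpowers r) := by
    have : Fact (Nat.Prime 2) := ⟨Nat.prime_two⟩
    apply IsPGroup.of_card (n := 1)
    rw [Nat.card_zpowers, pow_one]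
    exact orderOf_eq_prime hr2 hr1
  have hNO : Subgroup.zpowers r ≤ OG F Q := by
    rw [Subgroup.zpowers_le]
    exact hrO
  have hnorm : ∀ g ∈ OG F Q, g ∈ Subgroup.normalizer (Subgroup.zpowers r : Set (V ≃ₗ[F] V)) := by
    intro g hg
    apply Subgroup.centralizer_le_normalizer
    rw [Subgroup.mem_centralizer_iff]
    intro a ha
    obtain ⟨k, rfl⟩ := Subgroup.mem_zpowers_iff.mp ha
    exact ((Commute.zpow_left (hcomm g hg) k : Commute (r ^ k) g)).eq
  have hrH : r ∈ H :=
    hH.normal_le hNO hN2 (fun g hg => hnorm g (hH.1 hg)) (Subgroup.mem_zpowers r)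
  have hrH' : r ∈ H' :=
    hH'.normal_le hNO hN2 (fun g hg => hnorm g (hH'.1 hg)) (Subgroup.mem_zpowers r)
  intro hbot
  have : r ∈ H ⊓ H' := ⟨hrH, hrH'⟩
  rw [hbot, Subgroup.mem_bot] at this
  exact hr1 this

/-- In a plus-type quadratic space over the field with two elements, any two maximal
`2`-subgroups of the isometry group meet nontrivially. -/
theorem QSp.sylow_meet {F : Type*} [Field F] [Fintype F] : ∀ (n : ℕ) (V : Type v)
    [AddCommGroup V] [Module F V] [Finite V] (Q : V → F) (B : V →ₗ[F] V →ₗ[F] F),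
    QSp F V Q B → Nat.card V = n → 1 < Nat.card V → IsPlus Q →
    ∀ H H' : Subgroup (V ≃ₗ[F] V), IsMax2 (OG F Q) H → IsMax2 (OG F Q) H' → H ⊓ H' ≠ ⊥ := by
  intro n
  induction n using Nat.strong_induction_on with
  | _ n ih =>
    intro V _ _ _ Q B h hn hV hplus H H' hH hH'
    obtain ⟨e, he0, hqe⟩ := h.exists_singular hV hplus
    obtain ⟨f, pef⟩ := h.exists_hyp he0 hqe
    have hcard := h.card_eq pef
    by_cases hW : Nat.card ↥(perp2 B e f) = 1
    · exact h.base_case pef hW hH hH'
    have hWpos : 0 < Nat.card ↥(perp2 B e f) := Nat.card_pos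
    have heven : 2 ∣ Nat.card {x : V // Q x = 0} := by
      rw [h.nsing_eq pef]
      have h1 : 1 < Nat.card ↥(perp2 B e f) := by omega
      rw [Finite.one_lt_card_iff_nontrivial] at h1
      obtain ⟨w, hw⟩ := exists_ne (0 : ↥(perp2 B e f))
      have : Fact (Nat.Prime 2) := ⟨Nat.prime_two⟩
      have h2 : addOrderOf w = 2 :=
        addOrderOf_eq_prime (by rw [two_nsmul]; exact (h.restrict pef).add_self w) hw
      have h3 := addOrderOf_dvd_natCard w
      rw [h2] at h3
      exact (Nat.dvd_add_right (dvd_mul_right 2 _)).mpr h3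
    obtain ⟨v, hv0, hqv, hHv⟩ := h.exists_fixed_singular H hH.1 hH.2.1 heven
    obtain ⟨v', hv'0, hqv', hHv'⟩ := h.exists_fixed_singular H' hH'.1 hH'.2.1 heven
    have hQv : h.siegelSub v ≤ H :=
      hH.normal_le (h.siegelSub_le hqv) (h.siegelSub_isPGroup v)
        (fun g hg => h.siegelSub_normal (hH.1 hg) (hHv g hg))
    have hQv' : h.siegelSub v' ≤ H' :=
      hH'.normal_le (h.siegelSub_le hqv') (h.siegelSub_isPGroup v')
        (fun g hg => h.siegelSub_normal (hH'.1 hg) (hHv' g hg))
    obtain ⟨v'', pv⟩ := h.exists_hyp hv0 hqv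
    have hcard2 := h.card_eq pv
    rcases h.two (B v v') with hb | hb
    · by_cases hvv : v = v'
      · subst hvv
        have h1 : 1 < Nat.card ↥(perp2 B v v'') := by omega
        rw [Finite.one_lt_card_iff_nontrivial] at h1
        obtain ⟨w, hw⟩ := exists_ne (0 : ↥(perp2 B v v''))
        have hwm := (mem_perp2 B v v'' w).mp w.2
        have hg := h.sg_mem v (w : V) hwm.1
        have hne : h.sg v (w : V) hwm.1 ≠ 1 := by
          intro h1
          have h2 : h.sg v (w : V) hwm.1 v'' = v'' := by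
            rw [h1]
            rfl
          refine h.sgMap_ne pv.bvv' ?_ ?_ h2
          · intro h0
            exact hw (Subtype.ext h0)
          · intro hwv
            have := hwm.2
            rw [hwv, h.bv'v pv] at this
            exact one_ne_zero this
        intro hbot
        have : h.sg v (w : V) hwm.1 ∈ H ⊓ H' := ⟨hQv hg, hQv' hg⟩
        rw [hbot, Subgroup.mem_bot] at this
        exact hne this
      · have hb' : B v' v = 0 := by rw [h.B_symm, hb]
        have hg := h.sg_mem v v' hb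
        have hg' : h.sg v v' hb ∈ h.siegelSub v' := by
          refine ⟨v, hb', fun x => ?_⟩
          rw [h.sg_apply, sgMap_apply, sgMap_apply, hqv, hqv']
          simp only [zero_mul, add_zero]
          abel
        have hne : h.sg v v' hb ≠ 1 := by
          intro h1
          have h2 : h.sg v v' hb v'' = v'' := by
            rw [h1]
            rfl
          exact h.sgMap_ne pv.bvv' hv'0 (fun e => hvv e.symm) h2
        intro hbot
        have : h.sg v v' hb ∈ H ⊓ H' := ⟨hQv hg, hQv' hg'⟩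
        rw [hbot, Subgroup.mem_bot] at this
        exact hne this
    · have p : HypPair Q B v v' := ⟨hqv, hqv', hb⟩
      have hcW := h.card_eq p
      have hW1 : 1 < Nat.card ↥(perp2 B v v') := by omega
      have hP2 : IsPGroup 2
          ↥(H.comap (h.extHom p) ⊓ OG F (fun w : ↥(perp2 B v v') => Q (w : V))) :=
        (hH.2.1.comap_of_injective _ (h.extHom_injective p)).to_le inf_le_left
      have hP2' : IsPGroup 2
          ↥(H'.comap (h.extHom p) ⊓ OG F (fun w : ↥(perp2 B v v') => Q (w : V))) :=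
        (hH'.2.1.comap_of_injective _ (h.extHom_injective p)).to_le inf_le_left
      have hfin : Finite (↥(perp2 B v v') ≃ₗ[F] ↥(perp2 B v v')) :=
        Finite.of_injective (fun g => (g : ↥(perp2 B v v') → ↥(perp2 B v v')))
          DFunLike.coe_injective
      obtain ⟨P, hP₀, hP⟩ := exists_isMax2 (inf_le_right :
        H.comap (h.extHom p) ⊓ OG F (fun w : ↥(perp2 B v v') => Q (w : V)) ≤ _) hP2
      obtain ⟨P', hP₀', hP'⟩ := exists_isMax2 (inf_le_right :
        H'.comap (h.extHom p) ⊓ OG F (fun w : ↥(perp2 B v v') => Q (w : V)) ≤ _) hP2'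
      have key := ih (Nat.card ↥(perp2 B v v')) (by omega) ↥(perp2 B v v')
        (fun w => Q (w : V)) (B.domRestrict₁₂ _ _) (h.restrict p) rfl hW1
        (h.isPlus_restrict p hplus) P P' hP hP'
      obtain ⟨g₀, hg₀, hg₀1⟩ : ∃ g ∈ P ⊓ P', g ≠ 1 := by
        by_contra hcon
        simp only [not_exists, not_and, not_not] at hcon
        exact key ((Subgroup.eq_bot_iff_forall _).mpr hcon)
      have hPH : P.map (h.extHom p) ≤ H :=
        h.lift_le hqv hqv' hb (h.extHom p) (OG F (fun w : ↥(perp2 B v v') => Q (w : V))) P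
          (fun g hg => ⟨h.extHom_mem p hg, h.extHom_v p g⟩)
          (fun k hk hkv hkv' => h.extHom_surj p hk hkv hkv')
          hP.2.1 hP.1 hH hHv (fun g hg hgH => hP₀ ⟨hgH, hg⟩)
      have hPH' : P'.map (h.extHom p) ≤ H' :=
        h.lift_le hqv' hqv (h.bv'v p) (h.extHom p)
          (OG F (fun w : ↥(perp2 B v v') => Q (w : V))) P'
          (fun g hg => ⟨h.extHom_mem p hg, h.extHom_v' p g⟩)
          (fun k hk hkv' hkv => h.extHom_surj p hk hkv hkv')
          hP'.2.1 hP'.1 hH' hHv' (fun g hg hgH => hP₀' ⟨hgH, hg⟩)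
      intro hbot
      have : h.extHom p g₀ ∈ H ⊓ H' := ⟨hPH ⟨g₀, hg₀.1, rfl⟩, hPH' ⟨g₀, hg₀.2, rfl⟩⟩
      rw [hbot, Subgroup.mem_bot] at this
      exact hg₀1 (h.extHom_injective p (this.trans (map_one _).symm))

end main

section std

variable {F : Type*} [Field F]

/-- The polar form of the plus-type quadratic form. -/
def plusPolarB (m : ℕ) (F : Type*) [Field F] :
    ((Fin m ⊕ Fin m) → F) →ₗ[F] ((Fin m ⊕ Fin m) → F) →ₗ[F] F :=
  LinearMap.mk₂ F
    (fun x y => ∑ i : Fin m, (x (.inl i) * y (.inr i) + y (.inl i) * x (.inr i)))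
    (by
      intro x x' y
      simp only [Pi.add_apply, ← Finset.sum_add_distrib]
      exact Finset.sum_congr rfl fun i _ => by ring)
    (by
      intro c x y
      simp only [Pi.smul_apply, smul_eq_mul, Finset.mul_sum]
      exact Finset.sum_congr rfl fun i _ => by ring)
    (by
      intro x y y'
      simp only [Pi.add_apply, ← Finset.sum_add_distrib]
      exact Finset.sum_congr rfl fun i _ => by ring)
    (by
      intro c x y
      simp only [Pi.smul_apply, smul_eq_mul, Finset.mul_sum]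
      exact Finset.sum_congr rfl fun i _ => by ring)

theorem plusPolarB_apply (m : ℕ) (x y : (Fin m ⊕ Fin m) → F) :
    plusPolarB m F x y = ∑ i : Fin m, (x (.inl i) * y (.inr i) + y (.inl i) * x (.inr i)) := rfl

theorem two_of_card [Fintype F] (hF : Fintype.card F = 2) (a : F) : a = 0 ∨ a = 1 := by
  classical
  by_contra hcon
  simp only [not_or] at hcon
  have h1 : ({0, 1, a} : Finset F).card ≤ Fintype.card F := Finset.card_le_univ _
  rw [Finset.card_insert_of_notMem, Finset.card_insert_of_notMem, Finset.card_singleton] at h1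
  · omega
  · simp only [Finset.mem_singleton]
    exact fun h => hcon.2 h.symm
  · simp only [Finset.mem_insert, Finset.mem_singleton, not_or]
    exact ⟨zero_ne_one, fun h => hcon.1 h.symm⟩

theorem plus_qsp [Fintype F] (m : ℕ) (hF : Fintype.card F = 2) :
    QSp F ((Fin m ⊕ Fin m) → F) (Cfsg.quadFormPlus m F) (plusPolarB m F) := by
  classical
  refine ⟨two_of_card hF, fun x y => ?_, fun x hx => ?_⟩
  · rw [plusPolarB_apply]
    unfold Cfsg.quadFormPlus
    simp only [Pi.add_apply, ← Finset.sum_add_distrib]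
    exact Finset.sum_congr rfl fun i _ => by ring
  · funext j
    rcases j with i | i
    · have := hx (Pi.single (Sum.inr i) 1)
      rw [plusPolarB_apply] at this
      simpa [Pi.single_apply] using this
    · have := hx (Pi.single (Sum.inl i) 1)
      rw [plusPolarB_apply] at this
      simpa [Pi.single_apply] using this

/-- A perturbation vector supported on the second half of the coordinates. -/
noncomputable def pertVec (m : ℕ) (u : Fin m → F) : (Fin m ⊕ Fin m) → F :=
  open Classical in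
  if hu : ∃ i, u i ≠ 0 then Pi.single (Sum.inr (Classical.choose hu)) 1 else 0

theorem pertVec_inl (m : ℕ) (u : Fin m → F) (i : Fin m) : pertVec m u (Sum.inl i) = 0 := by
  classical
  unfold pertVec
  split_ifs with hu
  · simp
  · rfl

theorem plus_isPlus [Fintype F] (m : ℕ) (hF : Fintype.card F = 2) :
    IsPlus (Cfsg.quadFormPlus m F) := by
  classical
  have h := plus_qsp (F := F) m hF
  have hQf : ∀ x : (Fin m ⊕ Fin m) → F, Cfsg.quadFormPlus m F x ≠ 0 →
      Cfsg.quadFormPlus m F (x + pertVec m (fun i => x (Sum.inl i))) = 0 := by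
    intro x hx
    have hex : ∃ i, (fun i => x (Sum.inl i)) i ≠ 0 := by
      by_contra hcon
      simp only [not_exists, not_not] at hcon
      apply hx
      unfold Cfsg.quadFormPlus
      simp [hcon]
    have hp : pertVec m (fun i => x (Sum.inl i)) =
        Pi.single (Sum.inr (Classical.choose hex)) 1 := by
      unfold pertVec
      rw [dif_pos hex]
    have hx1 : x (Sum.inl (Classical.choose hex)) = 1 :=
      (h.two _).resolve_left (Classical.choose_spec hex)
    have hQx : Cfsg.quadFormPlus m F x = 1 := (h.two _).resolve_left hx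
    have hQp : Cfsg.quadFormPlus m F
        (Pi.single (Sum.inr (Classical.choose hex)) (1 : F)) = 0 := by
      unfold Cfsg.quadFormPlus
      simp
    rw [h.add, hp, hQx, hQp, plusPolarB_apply]
    simp only [Pi.single_apply, Sum.inr.injEq, reduceCtorEq, if_false, zero_mul, add_zero,
      mul_ite, mul_one, mul_zero, Finset.sum_ite_eq', Finset.mem_univ, if_true, hx1]
    linear_combination h.two_eq_zero
  have hinj : Function.Injective
      (fun x : {x : (Fin m ⊕ Fin m) → F // ¬ Cfsg.quadFormPlus m F x = 0} =>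
        (⟨x.1 + pertVec m (fun i => x.1 (Sum.inl i)), hQf x.1 x.2⟩ :
          {x : (Fin m ⊕ Fin m) → F // Cfsg.quadFormPlus m F x = 0})) := by
    intro x y hxy
    have h1 : x.1 + pertVec m (fun i => x.1 (Sum.inl i)) =
        y.1 + pertVec m (fun i => y.1 (Sum.inl i)) := congrArg Subtype.val hxy
    have h2 : (fun i => x.1 (Sum.inl i)) = fun i => y.1 (Sum.inl i) := by
      funext i
      have := congrFun h1 (Sum.inl i)
      simpa [pertVec_inl] using this
    rw [h2] at h1
    exact Subtype.ext (add_right_cancel h1)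
  have h0 : (⟨0, h.Q_zero⟩ : {x : (Fin m ⊕ Fin m) → F // Cfsg.quadFormPlus m F x = 0}) ∉
      Set.range (fun x : {x : (Fin m ⊕ Fin m) → F // ¬ Cfsg.quadFormPlus m F x = 0} =>
        (⟨x.1 + pertVec m (fun i => x.1 (Sum.inl i)), hQf x.1 x.2⟩ :
          {x : (Fin m ⊕ Fin m) → F // Cfsg.quadFormPlus m F x = 0})) := by
    rintro ⟨x, hx⟩
    have h1 : x.1 + pertVec m (fun i => x.1 (Sum.inl i)) = 0 := congrArg Subtype.val hx
    apply x.2
    unfold Cfsg.quadFormPlus
    apply Finset.sum_eq_zero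
    intro i _
    have := congrFun h1 (Sum.inl i)
    simp only [Pi.add_apply, pertVec_inl, add_zero, Pi.zero_apply] at this
    rw [this, zero_mul]
  have hlt := Fintype.card_lt_of_injective_of_notMem _ hinj h0
  rw [Fintype.card_subtype_compl] at hlt
  have hle := Fintype.card_subtype_le (fun x : (Fin m ⊕ Fin m) → F => Cfsg.quadFormPlus m F x = 0)
  unfold IsPlus
  rw [Nat.card_eq_fintype_card, Nat.card_eq_fintype_card]
  omega

/-- Any two Sylow `2`-subgroups of `O⁺(2m, 2)` meet nontrivially. -/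
theorem oplus_sylow_meet [Fintype F] (hF : Fintype.card F = 2) {m : ℕ} (hm : 1 ≤ m)
    (H : Sylow 2 (Cfsg.isometryGroup F (Cfsg.quadFormPlus m F)))
    (x : Cfsg.isometryGroup F (Cfsg.quadFormPlus m F)) :
    (H : Subgroup (Cfsg.isometryGroup F (Cfsg.quadFormPlus m F))) ⊓
      MulAut.conj x • (H : Subgroup _) ≠ ⊥ := by
  classical
  have h := plus_qsp (F := F) m hF
  obtain ⟨E, hE⟩ : ∃ E : GL (Fin m ⊕ Fin m) F ≃*
      (((Fin m ⊕ Fin m) → F) ≃ₗ[F] ((Fin m ⊕ Fin m) → F)),
      ∀ g v, E g v = (g : Matrix (Fin m ⊕ Fin m) (Fin m ⊕ Fin m) F).mulVec v :=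
    ⟨Matrix.GeneralLinearGroup.toLin.trans
      (LinearMap.GeneralLinearGroup.generalLinearEquiv F _), fun g v => rfl⟩
  obtain ⟨φ, hφdef⟩ : ∃ φ : ↥(Cfsg.isometryGroup F (Cfsg.quadFormPlus m F)) →*
      (((Fin m ⊕ Fin m) → F) ≃ₗ[F] ((Fin m ⊕ Fin m) → F)),
      φ = E.toMonoidHom.comp (Subgroup.subtype _) := ⟨_, rfl⟩
  have hφ : Function.Injective φ := by
    rw [hφdef]
    exact E.injective.comp (Subgroup.subtype_injective _)
  have hrange : φ.range = OG F (Cfsg.quadFormPlus m F) := by
    ext g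
    constructor
    · rintro ⟨a, rfl⟩ u
      rw [hφdef]
      show Cfsg.quadFormPlus m F (E a.1 u) = _
      rw [hE]
      exact a.2 u u
    · intro hg
      refine ⟨⟨E.symm g, ?_⟩, ?_⟩
      · intro u w
        show Cfsg.quadFormPlus m F
          ((E.symm g : Matrix (Fin m ⊕ Fin m) (Fin m ⊕ Fin m) F).mulVec u) = _
        rw [← hE, E.apply_symm_apply]
        exact hg u
      · rw [hφdef]
        exact E.apply_symm_apply g
  have hH1 := isMax2_of_sylow H φ hφ
  have hH2 := isMax2_of_sylow (x • H) φ hφ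
  rw [hrange] at hH1 hH2
  have hV : 1 < Nat.card ((Fin m ⊕ Fin m) → F) := by
    have : Nonempty (Fin m ⊕ Fin m) := ⟨Sum.inl ⟨0, hm⟩⟩
    rw [Finite.one_lt_card_iff_nontrivial]
    infer_instance
  have key := QSp.sylow_meet _ _ _ _ h rfl hV (plus_isPlus m hF) _ _ hH1 hH2
  intro hbot
  apply key
  rw [← Subgroup.map_inf _ _ φ hφ]
  rw [Sylow.coe_subgroup_smul, hbot, Subgroup.map_bot]

end std

end Cfsg.Agent.Lib.Helper44
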