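import Mathlib
import Cfsg.Agent.Lib.Helper91.SO2Wrap
import Cfsg.Agent.Lib.Helper91.SSK1

set_option autoImplicit false

/-!
# No non-abelian simple group of order `4200 = 2^3 * 3 * 5^2 * 7`

The Sylow `7`-subgroups `P` have order `7`; the local rules of
`Cfsg.Agent.Lib.Helper91.SO2.noSimple_of_cases` leave the two configurations
`([N(P) : C(P)], |C(P)|) = (2, 42)` and `(3, 28)`. In both of them `C(P)` contains an involution,
and the degrees of the characters of the principal `7`-block (Brauer) contradict the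
multiplicity rule `K1` of `Cfsg.Agent.Lib.Helper91.SS`.
-/

namespace Cfsg.Agent.Lib.Helper44.Ord4200

open Cfsg Cfsg.Agent.Lib.Helper17 Cfsg.Agent.Lib.Helper93.SO Cfsg.Agent.Lib.Helper91.SO2
  Cfsg.Agent.Lib.Helper91.SS

universe u

/-- an involution of `C(P)` when this group has even order -/
theorem exists_involution_centralizer {G : Type u} [Group G] [Finite G] (P : Sylow 7 G)
    (h2 : 2 ∣ Nat.card (Subgroup.centralizer ((P : Subgroup G) : Set G))) :
    ∃ c : G, c ∈ Subgroup.centralizer ((P : Subgroup G) : Set G) ∧ orderOf c = 2 := by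
  have : Fact (Nat.Prime 2) := ⟨Nat.prime_two⟩
  obtain ⟨c', hc'⟩ := exists_prime_orderOf_dvd_card'
    (G := Subgroup.centralizer ((P : Subgroup G) : Set G)) 2 h2
  exact ⟨(c' : G), c'.2, by rw [Subgroup.orderOf_coe]; exact hc'⟩

/-- the degree of a non-exceptional character of the principal `7`-block in the presence of an
involution of `C(P)` -/
theorem deg_data {G : Type u} [Group G] [Finite G] [IsSimpleGroup G] (hG : Nat.card G = 4200)
    (P : Sylow 7 G) (hP : Nat.card (P : Subgroup G) = 7) (χ : IrrCharacter G) (a : ℤ)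
    (hχ1 : (χ : G → ℂ) 1 ≠ 1)
    (hval : ∀ z y : G, IsPPart 7 z y → y ∈ (P : Subgroup G) → y ≠ 1 → (χ : G → ℂ) z = (a : ℂ))
    (c : G) (hc : c ∈ Subgroup.centralizer ((P : Subgroup G) : Set G)) (hc2 : orderOf c = 2) :
    ∃ f : ℕ, (χ : G → ℂ) 1 = (f : ℂ) ∧ f ∣ 4200 ∧ f ≠ 1 ∧
      ∃ n T : ℕ, 2 ≤ T ∧ 6 * a ≤ 7 * (n : ℤ) ∧ (f : ℤ) + 6 * a = 7 * ((n : ℤ) + (T : ℤ)) := by
  have : Fact (Nat.Prime 7) := ⟨by norm_num⟩
  have hGn : ¬ (Nat.card G).Prime := by rw [hG]; norm_num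
  obtain ⟨hxd, -, hxdvd⟩ := Cfsg.Agent.Lib.Helper79.irr_charDegree χ.2
  obtain ⟨n, T, hT, h1, h2⟩ := k1_const hGn 7 (P : Subgroup G) hP χ hχ1 a hval c hc 2
    Nat.prime_two (by norm_num) hc2
  rw [hG] at hxdvd
  refine ⟨Cfsg.charDegree (χ : G → ℂ), hxd, hxdvd, ?_, n, T, hT, ?_, ?_⟩
  · intro h
    apply hχ1
    rw [hxd, h]
    norm_num
  · push_cast at h1
    linarith
  · push_cast at h2
    linarith

/-- the degree of the exceptional characters of the principal `7`-block in the presence of an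
involution of `C(P)` -/
theorem exc_data {G : Type u} [Group G] [Finite G] [IsSimpleGroup G] (hG : Nat.card G = 4200)
    (P : Sylow 7 G) (hP : Nat.card (P : Subgroup G) = 7) (η : IrrCharacter G)
    (hη1 : (η : G → ℂ) 1 ≠ 1)
    (hval : ∀ z y : G, IsPPart 7 z y → y ∈ (P : Subgroup G) → y ≠ 1 →
      (η : G → ℂ) z = (η : G → ℂ) y)
    (c : G) (hc : c ∈ Subgroup.centralizer ((P : Subgroup G) : Set G)) (hc2 : orderOf c = 2) :
    ∃ y : ℕ, (η : G → ℂ) 1 = (y : ℂ) ∧ y ∈ Nat.divisors 4200 ∧ 14 ≤ y := by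
  have : Fact (Nat.Prime 7) := ⟨by norm_num⟩
  have hGn : ¬ (Nat.card G).Prime := by rw [hG]; norm_num
  obtain ⟨hyd, -, hydvd⟩ := Cfsg.Agent.Lib.Helper79.irr_charDegree η.2
  have h14 := k1_exc hGn 7 (P : Subgroup G) hP η hη1 hval c hc 2 Nat.prime_two (by norm_num) hc2
  rw [hG] at hydvd
  exact ⟨Cfsg.charDegree (η : G → ℂ), hyd, Nat.mem_divisors.mpr ⟨hydvd, by norm_num⟩, h14⟩

/-- the arithmetic of the case `[N(P) : C(P)] = 2` -/
theorem arith_a : ∀ f ∈ Nat.divisors 4200, ∀ y ∈ Nat.divisors 4200, 14 ≤ y →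
    ¬ (f % 7 = 1 ∧ y = f + 1) ∧ ¬ (f % 7 = 6 ∧ f = y + 1) := by
  decide +kernel

/-- the possible degrees of the non-exceptional characters -/
theorem list_b : ∀ f ∈ Nat.divisors 4200,
    (f % 7 = 1 ∧ 15 ≤ f) ∨ (f % 7 = 6 ∧ 20 ≤ f) → f ∈ [15, 20, 50, 120, 300] := by
  decide +kernel

/-- the sign attached to a degree -/
def sgn7 (f : ℕ) : ℤ := if f % 7 = 1 then 1 else -1

/-- the arithmetic of the case `[N(P) : C(P)] = 3` -/
theorem arith_b : ∀ f₁ ∈ ([15, 20, 50, 120, 300] : List ℕ),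
    ∀ f₂ ∈ ([15, 20, 50, 120, 300] : List ℕ), ∀ y ∈ Nat.divisors 4200, 14 ≤ y →
    (y : ℤ) + 1 + (sgn7 f₁ * (f₁ : ℤ) + sgn7 f₂ * (f₂ : ℤ)) ≠ 0 ∧
    -(y : ℤ) + 1 + (sgn7 f₁ * (f₁ : ℤ) + sgn7 f₂ * (f₂ : ℤ)) ≠ 0 := by
  decide +kernel

set_option maxHeartbeats 1600000 in
/-- The configuration `[N(P) : C(P)] = 2`, `|C(P)| = 42`. -/
theorem case_4200_a {G : Type u} [Group G] [Finite G] [IsSimpleGroup G] (hG : Nat.card G = 4200)
    (P : Sylow 7 G) (hP : Nat.card (P : Subgroup G) = 7)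
    (hr : (Subgroup.centralizer ((P : Subgroup G) : Set G)).relIndex
      (Subgroup.normalizer ((P : Subgroup G) : Set G)) = 2)
    (hC : Nat.card (Subgroup.centralizer ((P : Subgroup G) : Set G)) = 42) : False := by
  have : Fact (Nat.Prime 7) := ⟨by norm_num⟩
  have hGn : ¬ (Nat.card G).Prime := by rw [hG]; norm_num
  obtain ⟨c, hc, hc2⟩ := exists_involution_centralizer P (by rw [hC]; norm_num)
  obtain ⟨k, χ, a, η, d, δ, hk, hδ, hχ, hη1, hηP, hnorm, hrel, -, -⟩ :=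
    brauer_chars hGn 7 P hP 2 (by norm_num) hr
  have h2 : ((7 - 1) / 2 : ℕ) = 3 := by norm_num
  rw [h2] at hnorm hrel
  push_cast at hnorm hrel
  obtain ⟨y, hyd, hydvd, hy14⟩ := exc_data hG P hP η hη1 hηP c hc hc2
  have hrel1 := hrel 1 (by rw [orderOf_one]; norm_num)
  rw [hyd] at hrel1
  have hk' : k = 0 ∨ k = 1 := by omega
  rcases hk' with rfl | rfl
  · simp only [Finset.univ_eq_empty, Finset.sum_empty, add_zero] at hnorm hrel1
    have hrel1' : (3 * d - δ) * (y : ℤ) + 1 = 0 := by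
      have h : (((3 * d - δ) * (y : ℤ) + 1 : ℤ) : ℂ) = 0 := by
        push_cast
        exact hrel1
      exact_mod_cast h
    have hd : -1 ≤ d ∧ d ≤ 1 := by
      constructor <;> rcases hδ with rfl | rfl <;>
        nlinarith [sq_nonneg (d - 1), sq_nonneg (d + 1)]
    obtain ⟨hd1, hd2⟩ := hd
    interval_cases d <;> rcases hδ with rfl | rfl <;> norm_num at hnorm <;> omega
  · simp only [Fin.sum_univ_succ, Fin.sum_univ_zero, add_zero] at hnorm hrel1
    obtain ⟨ha0, hx1, hxa⟩ := hχ 0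
    obtain ⟨f, hfd, hfdvd, hf1, n, T, hT, hn1, hn2⟩ := deg_data hG P hP (χ 0) (a 0) hx1 hxa c hc hc2
    rw [hfd] at hrel1
    have hrel1' : (3 * d - δ) * (y : ℤ) + 1 + a 0 * (f : ℤ) = 0 := by
      have h : (((3 * d - δ) * (y : ℤ) + 1 + a 0 * (f : ℤ) : ℤ) : ℂ) = 0 := by
        push_cast
        exact hrel1
      exact_mod_cast h
    have hd : -1 ≤ d ∧ d ≤ 1 := by
      constructor <;> rcases hδ with rfl | rfl <;>
        nlinarith [sq_nonneg (a 0), sq_nonneg (d - 1), sq_nonneg (d + 1)]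
    have hapos : 0 < a 0 ^ 2 := by positivity
    have hd0 : d = 0 ∧ a 0 ^ 2 = 1 := by
      obtain ⟨hd1, hd2⟩ := hd
      obtain ⟨A, hA⟩ : ∃ A, A = a 0 ^ 2 := ⟨_, rfl⟩
      rw [← hA] at hnorm hapos ⊢
      interval_cases d <;> rcases hδ with rfl | rfl <;> norm_num at hnorm ⊢ <;> omega
    obtain ⟨rfl, ha2⟩ := hd0
    have ha : a 0 = 1 ∨ a 0 = -1 := by
      have h1 : (a 0 - 1) * (a 0 + 1) = 0 := by nlinarith
      rcases mul_eq_zero.mp h1 with h | h
      · left; omega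
      · right; omega
    have hfmem : f ∈ Nat.divisors 4200 := Nat.mem_divisors.mpr ⟨hfdvd, by norm_num⟩
    obtain ⟨hA1, hA2⟩ := arith_a f hfmem y hydvd hy14
    have hfpos : 0 < f := Nat.pos_of_mem_divisors hfmem
    rcases ha with h | h <;> rcases hδ with rfl | rfl <;> rw [h] at hrel1' hn1 hn2
    · exact hA1 ⟨by omega, by omega⟩
    · omega
    · omega
    · exact hA2 ⟨by omega, by omega⟩

set_option maxHeartbeats 1600000 in
/-- The configuration `[N(P) : C(P)] = 3`, `|C(P)| = 28`. -/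
theorem case_4200_b {G : Type u} [Group G] [Finite G] [IsSimpleGroup G] (hG : Nat.card G = 4200)
    (P : Sylow 7 G) (hP : Nat.card (P : Subgroup G) = 7)
    (hr : (Subgroup.centralizer ((P : Subgroup G) : Set G)).relIndex
      (Subgroup.normalizer ((P : Subgroup G) : Set G)) = 3)
    (hC : Nat.card (Subgroup.centralizer ((P : Subgroup G) : Set G)) = 28) : False := by
  have : Fact (Nat.Prime 7) := ⟨by norm_num⟩
  have hGn : ¬ (Nat.card G).Prime := by rw [hG]; norm_num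
  obtain ⟨c, hc, hc2⟩ := exists_involution_centralizer P (by rw [hC]; norm_num)
  obtain ⟨k, χ, a, η, d, δ, hk, hδ, hχ, hη1, hηP, hnorm, hrel, -, -⟩ :=
    brauer_chars hGn 7 P hP 3 (by norm_num) hr
  have h2 : ((7 - 1) / 3 : ℕ) = 2 := by norm_num
  rw [h2] at hnorm hrel
  push_cast at hnorm hrel
  obtain ⟨y, hyd, hydvd, hy14⟩ := exc_data hG P hP η hη1 hηP c hc hc2
  have hrel1 := hrel 1 (by rw [orderOf_one]; norm_num)
  rw [hyd] at hrel1
  have hk' : k = 0 ∨ k = 1 ∨ k = 2 := by omega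
  rcases hk' with rfl | rfl | rfl
  · simp only [Finset.univ_eq_empty, Finset.sum_empty, add_zero] at hnorm
    have hd : -1 ≤ d ∧ d ≤ 2 := by
      constructor <;> rcases hδ with rfl | rfl <;>
        nlinarith [sq_nonneg (d - 1), sq_nonneg (d + 1)]
    obtain ⟨hd1, hd2⟩ := hd
    interval_cases d <;> rcases hδ with rfl | rfl <;> norm_num at hnorm
  · simp only [Fin.sum_univ_succ, Fin.sum_univ_zero, add_zero] at hnorm
    obtain ⟨ha0, -, -⟩ := hχ 0
    have hd : -1 ≤ d ∧ d ≤ 2 := by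
      constructor <;> rcases hδ with rfl | rfl <;>
        nlinarith [sq_nonneg (a 0), sq_nonneg (d - 1), sq_nonneg (d + 1)]
    obtain ⟨hd1, hd2⟩ := hd
    have hA : a 0 ^ 2 = 2 := by
      interval_cases d <;> rcases hδ with rfl | rfl <;> nlinarith [sq_nonneg (a 0)]
    have hlt : -2 < a 0 ∧ a 0 < 2 := by
      constructor <;> nlinarith
    obtain ⟨h1, h2'⟩ := hlt
    interval_cases (a 0) <;> norm_num at hA
  · simp only [Fin.sum_univ_two] at hnorm hrel1
    obtain ⟨ha0, hx0, hxa0⟩ := hχ 0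
    obtain ⟨ha1, hx1, hxa1⟩ := hχ 1
    obtain ⟨f₁, hfd1, hfdvd1, hf11, n₁, T₁, hT1, hn11, hn12⟩ :=
      deg_data hG P hP (χ 0) (a 0) hx0 hxa0 c hc hc2
    obtain ⟨f₂, hfd2, hfdvd2, hf21, n₂, T₂, hT2, hn21, hn22⟩ :=
      deg_data hG P hP (χ 1) (a 1) hx1 hxa1 c hc hc2
    rw [hfd1, hfd2] at hrel1
    have hrel1' : (2 * d - δ) * (y : ℤ) + 1 + (a 0 * (f₁ : ℤ) + a 1 * (f₂ : ℤ)) = 0 := by
      have h : (((2 * d - δ) * (y : ℤ) + 1 + (a 0 * (f₁ : ℤ) + a 1 * (f₂ : ℤ)) : ℤ) : ℂ) = 0 := by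
        push_cast
        exact hrel1
      exact_mod_cast h
    have hap0 : 0 < a 0 ^ 2 := by positivity
    have hap1 : 0 < a 1 ^ 2 := by positivity
    have hkey : a 0 ^ 2 = 1 ∧ a 1 ^ 2 = 1 ∧ (2 * d - δ = 1 ∨ 2 * d - δ = -1) := by
      obtain ⟨A, hA⟩ : ∃ A, A = a 0 ^ 2 := ⟨_, rfl⟩
      obtain ⟨B, hB⟩ : ∃ B, B = a 1 ^ 2 := ⟨_, rfl⟩
      rw [← hA, ← hB] at hnorm ⊢
      rw [← hA] at hap0
      rw [← hB] at hap1
      have hdd : d ^ 2 ≤ 1 := by nlinarith [sq_nonneg (d - δ)]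
      have hd1 : -1 ≤ d := by nlinarith
      have hd2 : d ≤ 1 := by nlinarith
      interval_cases d <;> rcases hδ with rfl | rfl <;> norm_num at hnorm ⊢ <;> omega
    obtain ⟨ha02, ha12, hε⟩ := hkey
    have hsq : ∀ b : ℤ, b ^ 2 = 1 → b = 1 ∨ b = -1 := by
      intro b hb
      have h1 : (b - 1) * (b + 1) = 0 := by nlinarith
      rcases mul_eq_zero.mp h1 with h | h
      · left; omega
      · right; omega
    have hfm1 : f₁ ∈ Nat.divisors 4200 := Nat.mem_divisors.mpr ⟨hfdvd1, by norm_num⟩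
    have hfm2 : f₂ ∈ Nat.divisors 4200 := Nat.mem_divisors.mpr ⟨hfdvd2, by norm_num⟩
    have hs1 : f₁ ∈ [15, 20, 50, 120, 300] ∧ a 0 = sgn7 f₁ := by
      rcases hsq _ ha02 with h | h <;> rw [h] at hn11 hn12
      · refine ⟨list_b f₁ hfm1 (Or.inl ⟨by omega, by omega⟩), ?_⟩
        rw [h, sgn7, if_pos (by omega)]
      · refine ⟨list_b f₁ hfm1 (Or.inr ⟨by omega, by omega⟩), ?_⟩
        rw [h, sgn7, if_neg (by omega)]
    have hs2 : f₂ ∈ [15, 20, 50, 120, 300] ∧ a 1 = sgn7 f₂ := by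
      rcases hsq _ ha12 with h | h <;> rw [h] at hn21 hn22
      · refine ⟨list_b f₂ hfm2 (Or.inl ⟨by omega, by omega⟩), ?_⟩
        rw [h, sgn7, if_pos (by omega)]
      · refine ⟨list_b f₂ hfm2 (Or.inr ⟨by omega, by omega⟩), ?_⟩
        rw [h, sgn7, if_neg (by omega)]
    obtain ⟨hB1, hB2⟩ := arith_b f₁ hs1.1 f₂ hs2.1 y hydvd hy14
    rw [hs1.2, hs2.2] at hrel1'
    rcases hε with h | h <;> rw [h] at hrel1'
    · apply hB1
      linarith
    · apply hB2
      linarith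

/-- **No non-abelian simple group has order `4200`.** -/
theorem noSimple_4200 : NoSimple.{u} 4200 :=
  noSimple_of_cases 4200 7 2 600 (by norm_num) (by norm_num) (by norm_num) (by norm_num)
    (by norm_num) (by norm_num) (by norm_num) [(2, 42), (3, 28)] (by decide +kernel)
    (by
      intro rc hrc G _ _ _ hG P hP hr hC
      simp only [List.mem_cons, List.not_mem_nil, or_false] at hrc
      rcases hrc with rfl | rfl
      · exact case_4200_a hG P hP hr hC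
      · exact case_4200_b hG P hP hr hC)

end Cfsg.Agent.Lib.Helper44.Ord4200
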