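import Mathlib
import Cfsg.Prelude.Def_Classical
import Cfsg.Agent.Lib.Helper44.MonoModel
import Cfsg.Agent.Lib.Helper44.SpSyl
import Cfsg.Agent.Lib.Helper5.PSL2

set_option autoImplicit false

namespace Cfsg.Agent.Lib.Helper44

open Matrix

section slsyl

variable {F : Type*} [Field F] [Fintype F]

/-- Sylow `2`-subgroups of `SL₂(q)`, `q` odd. -/
theorem sylow_sl2 (hF : Odd (Fintype.card F)) :
    ∀ P : Sylow 2 (Matrix.SpecialLinearGroup (Fin 2) F),
      SqInComm ↥(P : Subgroup (Matrix.SpecialLinearGroup (Fin 2) F)) := by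
  have : Fact (Nat.Prime 2) := ⟨Nat.prime_two⟩
  obtain ⟨hq, hq3⟩ := card_facts hF
  obtain ⟨Q, hQc, hQr⟩ := exists_quat hF
  have hfin := finite_SL (F := F) (Fin 2)
  apply sylow_sqInComm_of_card Q
  · rw [hQc, Cfsg.Agent.Lib.Helper5.card_SL2]
    congr 1
    have e : Fintype.card F ^ 2 - 1 = (Fintype.card F - 1) * (Fintype.card F + 1) := by
      obtain ⟨k, hk⟩ : ∃ k, Fintype.card F = k + 1 := ⟨Fintype.card F - 1, by omega⟩
      rw [hk]
      simp only [Nat.add_sub_cancel]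
      rw [Nat.sub_eq_iff_eq_add (Nat.one_le_pow _ _ (by omega))]
      ring
    rw [e, padicValNat.mul (by omega) (Nat.mul_ne_zero (by omega) (by omega)),
      padicValNat.mul (by omega) (by omega), v2_odd _ hq, zero_add]
  · exact sqInComm_of_real_gen Q (Q : Set (Matrix.SpecialLinearGroup (Fin 2) F))
      (Subgroup.closure_eq Q).ge (fun x hx => hx) hQr

/-- Sylow `2`-subgroups of `SL_{2m}(q)`: `q ≡ 3 (mod 4)`, or `q ≡ 1 (mod 4)` and `m` a power
of two. -/
theorem sylow_sl_even (hF : Odd (Fintype.card F)) (m : ℕ) (hm : 1 ≤ m)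
    (hq : 4 ∣ Fintype.card F + 1 ∨ (4 ∣ Fintype.card F - 1 ∧ ∃ j : ℕ, m = 2 ^ j)) :
    ∀ P : Sylow 2 (Matrix.SpecialLinearGroup (Fin (2 * m)) F),
      SqInComm ↥(P : Subgroup (Matrix.SpecialLinearGroup (Fin (2 * m)) F)) := by
  have : Fact (Nat.Prime 2) := ⟨Nat.prime_two⟩
  obtain ⟨hq2, hq3⟩ := card_facts hF
  rcases hq with h | ⟨h, j, rfl⟩
  · have hq4 : Fintype.card F % 4 = 3 := by omega
    rcases Nat.lt_or_ge m 2 with hm2 | hm2
    · have hm1 : m = 1 := by omega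
      subst hm1
      exact sylow_sl2 hF
    · exact sylow_sl_even_A hF hq4 m hm2
  · have hq4 : Fintype.card F % 4 = 1 := by omega
    have hfin := finite_SL (F := F) (Fin (2 * 2 ^ j))
    apply sylow_sqInComm_of_mulEquiv (slEquivKer (Equiv.refl (Fin (2 * 2 ^ j))))
    apply mono_model hF hq4 (Fin (2 * 2 ^ j)) (j + 1) (by simp [pow_succ, mul_comm])
    rw [Matrix.card_GL_field, v2_card_GL_even _ hq2 hq3 (2 ^ j)]
    have h1 : padicValNat 2 (Fintype.card F + 1) = 1 := v2_of_mod_four _ (by omega)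
    have h3 : padicValNat 2 (2 * 2 ^ j).factorial = padicValNat 2 (2 ^ j).factorial + 2 ^ j :=
      padicValNat_factorial_mul (2 ^ j)
    have e2 : 2 ^ (j + 1) = 2 * 2 ^ j := by ring
    rw [h1, e2, h3]
    ring

end slsyl

end Cfsg.Agent.Lib.Helper44
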