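import Mathlib
import Cfsg.Prelude.Def_Classical
import Cfsg.Agent.Lib.Helper44.SpRank
import Cfsg.Agent.Lib.Helper44.DerLen

set_option autoImplicit false

namespace Cfsg.Agent.Lib.Helper44

open Matrix
open scoped commutatorElement

section quat

variable {G : Type*} [Group G]

/-- The quaternion-like extension of a commutative group is metabelian. -/
theorem derivedSeries_quatExt (T : Subgroup G) (n : G) (hn2 : n * n ∈ T)
    (hinv : ∀ t ∈ T, n * t * n⁻¹ = t⁻¹) (hcomm : ∀ s ∈ T, ∀ t ∈ T, s * t = t * s) :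
    derivedSeries ↥(quatExt T n hn2 hinv) 2 = ⊥ := by
  have hnormal : ∀ g ∈ quatExt T n hn2 hinv, ∀ t ∈ T, g * t * g⁻¹ ∈ T := by
    rintro g (hg | hg) t ht
    · exact T.mul_mem (T.mul_mem hg ht) (T.inv_mem hg)
    · have e : g * t * g⁻¹ = (g * n) * (n⁻¹ * t * n) * (g * n)⁻¹ := by group
      rw [e, inv_conj_of_conj T n hinv t ht]
      exact T.mul_mem (T.mul_mem hg (T.inv_mem ht)) (T.inv_mem hg)
  have h1 : derivedSeries ↥(quatExt T n hn2 hinv) 1 ≤ T.subgroupOf (quatExt T n hn2 hinv) := by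
    rw [derivedSeries_succ, derivedSeries_zero, Subgroup.commutator_le]
    rintro ⟨a, ha⟩ - ⟨b, hb⟩ -
    rw [Subgroup.mem_subgroupOf]
    show ⁅a, b⁆ ∈ T
    rcases ha with ha' | ha'
    · have e : ⁅a, b⁆ = a * (b * a⁻¹ * b⁻¹) := by
        rw [commutatorElement_def]
        group
      rw [e]
      exact T.mul_mem ha' (hnormal b hb _ (T.inv_mem ha'))
    · rcases hb with hb' | hb'
      · have e : ⁅a, b⁆ = (a * b * a⁻¹) * b⁻¹ := by
          rw [commutatorElement_def]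
        rw [e]
        exact T.mul_mem (hnormal a (Or.inr ha') _ hb') (T.inv_mem hb')
      · have e : ⁅a, b⁆ = (a * n) * (n⁻¹ * ((b * n) * (a * n)⁻¹) * n) * (b * n)⁻¹ := by
          rw [commutatorElement_def]
          group
        rw [e, inv_conj_of_conj T n hinv _ (T.mul_mem hb' (T.inv_mem ha'))]
        exact T.mul_mem (T.mul_mem ha' (T.inv_mem (T.mul_mem hb' (T.inv_mem ha'))))
          (T.inv_mem hb')
  have h2 : ⁅T.subgroupOf (quatExt T n hn2 hinv), T.subgroupOf (quatExt T n hn2 hinv)⁆ = ⊥ := by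
    rw [eq_bot_iff, Subgroup.commutator_le]
    rintro ⟨a, ha⟩ ha' ⟨b, hb⟩ hb'
    rw [Subgroup.mem_subgroupOf] at ha' hb'
    rw [Subgroup.mem_bot, commutatorElement_eq_one_iff_mul_comm]
    exact Subtype.ext (hcomm a ha' b hb')
  rw [derivedSeries_succ, eq_bot_iff, ← h2]
  exact Subgroup.commutator_mono h1 h1

end quat

section sl2

variable {F : Type*} [Field F]

/-- The quaternion-like Sylow `2`-subgroup of `SL₂(q)`: metabelian, with a commutator pair. -/
theorem exists_quat2 [Fintype F] (hF : Odd (Fintype.card F)) :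
    ∃ Q : Subgroup (Matrix.SpecialLinearGroup (Fin 2) F),
      Nat.card Q =
        2 ^ (padicValNat 2 (Fintype.card F - 1) + padicValNat 2 (Fintype.card F + 1)) ∧
      jSL F ∈ Q ∧ derivedSeries ↥Q 2 = ⊥ ∧
      ∃ ν ∈ Q, ⁅jSL F, ν⁆ = jSL F * jSL F ∧ ⁅(jSL F)⁻¹, ν⁻¹⁆ = jSL F * jSL F := by
  classical
  have h2 := two_ne_zero_of_odd_card'' hF
  have hfin : Finite (Matrix.SpecialLinearGroup (Fin 2) F) :=
    inferInstanceAs (Finite {A : Matrix (Fin 2) (Fin 2) F // A.det = 1})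
  obtain ⟨T₂, hT₂c, hT₂⟩ := exists_sylow_of_comm (A := ↥(rotT F))
    (fun a b => Subtype.ext (rotT_comm a.1 b.1 a.2 b.2))
  obtain ⟨x, y, hxy⟩ : ∃ x y : F, x ^ 2 + y ^ 2 = -1 := by
    obtain ⟨x, y, h⟩ := exists_binary_rep hF (1 : F) 1 (-1) one_ne_zero one_ne_zero
    exact ⟨x, y, by linear_combination h⟩
  obtain ⟨T, hTdef⟩ : ∃ T : Subgroup (Matrix.SpecialLinearGroup (Fin 2) F),
    T = T₂.map (rotT F).subtype := ⟨_, rfl⟩
  have hTle : T ≤ rotT F := by
    rw [hTdef]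
    exact Subgroup.map_subtype_le T₂
  have hjT : jSL F ∈ T := by
    rw [hTdef]
    exact ⟨⟨jSL F, jSL_mem⟩, hT₂ _ (Subtype.ext (jSL_pow F)), rfl⟩
  have hn2 : nSL x y hxy * nSL x y hxy ∈ T := by
    rw [← nSL_sq]
    exact T.mul_mem hjT hjT
  have hinv : ∀ t ∈ T, nSL x y hxy * t * (nSL x y hxy)⁻¹ = t⁻¹ :=
    fun t ht => nSL_conj x y hxy t (hTle ht)
  have hTcomm : ∀ s ∈ T, ∀ t ∈ T, s * t = t * s :=
    fun s hs t ht => rotT_comm s t (hTle hs) (hTle ht)
  have hJJ : (jSL F * jSL F)⁻¹ = jSL F * jSL F := by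
    apply inv_eq_of_mul_eq_one_left
    have := jSL_pow F
    rw [show (4 : ℕ) = 2 + 2 from rfl, pow_add, pow_two] at this
    exact this
  refine ⟨quatExt T _ hn2 hinv, ?_, Or.inl hjT, derivedSeries_quatExt T _ hn2 hinv hTcomm,
    nSL x y hxy, Or.inr hn2, ?_, ?_⟩
  · rw [card_quatExt T _ hn2 hinv (fun h => nSL_not_mem h2 x y hxy (hTle h)), hTdef,
      Subgroup.card_map_of_injective (Subgroup.subtype_injective _), hT₂c]
    have hc := card_rotT (F := F) h2
    have hv := v2_card_O2 hF h2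
    rw [← hc] at hv
    have h3 : padicValNat 2 (Nat.card ↥(rotT F) * 2) =
        padicValNat 2 (Nat.card ↥(rotT F)) + 1 := by
      rw [mul_comm, v2_two_mul _ Nat.card_pos.ne']
      ring
    rw [← hv, h3, pow_succ]
  · have h3 := hinv (jSL F)⁻¹ (T.inv_mem hjT)
    rw [inv_inv] at h3
    have e : ⁅jSL F, nSL x y hxy⁆ = jSL F * (nSL x y hxy * (jSL F)⁻¹ * (nSL x y hxy)⁻¹) := by
      rw [commutatorElement_def]
      group
    rw [e, h3]
  · have h3 := inv_conj_of_conj T _ hinv (jSL F) hjT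
    have e : ⁅(jSL F)⁻¹, (nSL x y hxy)⁻¹⁆ =
        (jSL F)⁻¹ * ((nSL x y hxy)⁻¹ * jSL F * nSL x y hxy) := by
      rw [commutatorElement_def]
      group
    rw [e, h3, ← _root_.mul_inv_rev, hJJ]

end sl2

section sp

variable {F : Type*} [Field F]

/-- Derived length of a Sylow `2`-subgroup of `Sp_{2n}(q)`, `q` odd. -/
theorem sp_derivedLength [Fintype F] (hF : Odd (Fintype.card F)) (n : ℕ) (hn : 1 ≤ n)
    (R : Sylow 2 ↥(Matrix.symplecticGroup (Fin n) F)) :
    derivedSeries ↥(R : Subgroup ↥(Matrix.symplecticGroup (Fin n) F)) (Nat.log 2 (2 * n) + 1) = ⊥ ∧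
    derivedSeries ↥(R : Subgroup ↥(Matrix.symplecticGroup (Fin n) F)) (Nat.log 2 (2 * n)) ≠ ⊥ := by
  classical
  have : Fact (Nat.Prime 2) := ⟨Nat.prime_two⟩
  have h2 := two_ne_zero_of_odd_card'' hF
  obtain ⟨hq, hq3⟩ := card_facts hF
  obtain ⟨Q, hQc, hjQ, hQd, ν, hνQ, hc1, hc2⟩ := exists_quat2 hF
  obtain ⟨Sy, hSc, hSd⟩ := exists_sylow_perm_dl n (Fin n) (by simp)
  obtain ⟨β, hβdef⟩ : ∃ β : (Fin n → ↥Q) →* ↥(Matrix.symplecticGroup (Fin n) F),
    β = (spBase n F).comp (Q.subtype.compLeft (Fin n)) := ⟨_, rfl⟩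
  have hβinj : Function.Injective β := by
    rw [hβdef]
    refine spBase_injective.comp ?_
    intro f g h
    funext i
    exact Subtype.ext (congrFun h i)
  have hconj : ∀ (σ : Equiv.Perm (Fin n)) (f : Fin n → ↥Q),
      spPerm n F σ * β f * (spPerm n F σ)⁻¹ = β (f ∘ σ.symm) := by
    intro σ f
    rw [hβdef]
    exact sp_conj σ _
  have hnorm : ∀ k ∈ Sy.map (spPerm n F), ∀ h ∈ β.range, k * h * k⁻¹ ∈ β.range := by
    rintro _ ⟨σ, -, rfl⟩ _ ⟨f, rfl⟩
    exact ⟨f ∘ σ.symm, (hconj σ f).symm⟩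
  have hdisj : β.range ⊓ Sy.map (spPerm n F) = ⊥ := by
    rw [hβdef]
    exact sp_disjoint _ Sy
  have hfin : Finite ↥(Matrix.symplecticGroup (Fin n) F) := inferInstance
  have hcard : padicValNat 2 (Nat.card ↥(Matrix.symplecticGroup (Fin n) F)) =
      n * (padicValNat 2 (Fintype.card F - 1) + padicValNat 2 (Fintype.card F + 1)) +
        padicValNat 2 n.factorial := by
    rw [Cfsg.Agent.S0245.result rfl n,
      padicValNat.mul (pow_ne_zero _ (by omega)) (prod_ne_zero' _ hq3 n),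
      v2_odd _ (odd_pow_mod _ _ hq), v2_prod _ hq hq3 n, zero_add]
  have hcW : Nat.card ↥(β.range ⊔ Sy.map (spPerm n F)) =
      2 ^ padicValNat 2 (Nat.card ↥(Matrix.symplecticGroup (Fin n) F)) := by
    rw [card_sup_of_normalizes _ _ hnorm hdisj, card_range_of_inj _ hβinj,
      Subgroup.card_map_of_injective spPerm_injective, hSc, Nat.card_fun, hQc, hcard]
    simp only [Nat.card_eq_fintype_card, Fintype.card_fin]
    rw [← pow_mul, ← pow_add]
    congr 1
    ring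
  obtain ⟨e⟩ := sylow_equiv_of_card _ hcW R
  have hlog : Nat.log 2 (2 * n) = Nat.log 2 n + 1 := by
    rw [mul_comm]
    exact Nat.log_mul_base (by norm_num) (by omega)
  rw [hlog]
  constructor
  · exact derivedSeries_eq_bot_of_mulEquiv e _
      (wreath_derived_upper n β (spPerm n F) Sy hβinj spPerm_injective hconj hdisj _ 2 hSd hQd)
  · obtain ⟨a, hadef⟩ : ∃ a : ↥Q, a = ⟨jSL F, hjQ⟩ := ⟨_, rfl⟩
    obtain ⟨b, hbdef⟩ : ∃ b : ↥Q, b = ⟨ν, hνQ⟩ := ⟨_, rfl⟩
    have hab : ⁅a, b⁆ = a * a := by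
      rw [hadef, hbdef]
      exact Subtype.ext hc1
    have hab' : ⁅a⁻¹, b⁻¹⁆ = a * a := by
      rw [hadef, hbdef]
      exact Subtype.ext hc2
    have hz : a * a ≠ 1 := by
      intro h
      apply jSL_sq_ne_one h2
      have h3 := congrArg Subtype.val h
      rw [hadef] at h3
      exact h3
    obtain ⟨K, hK2, hKd⟩ := wreath_derived_lower n β (spPerm n F) hβinj hconj
      (IsPGroup.of_card hQc) a b (a * a) hab hab' hz (Nat.log 2 n)
      (Nat.pow_log_le_self 2 (by omega))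
    obtain ⟨R', hKR'⟩ := hK2.exists_le_sylow
    have h3 : derivedSeries ↥(R' : Subgroup ↥(Matrix.symplecticGroup (Fin n) F))
        (Nat.log 2 n + 1) ≠ ⊥ :=
      derivedSeries_ne_bot_of_injective (Subgroup.inclusion hKR')
        (Subgroup.inclusion_injective hKR') _ hKd
    exact derivedSeries_ne_bot_of_mulEquiv (Sylow.equiv R' R) _ h3

end sp

end Cfsg.Agent.Lib.Helper44
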